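import Mathlib

/-!
# The final algebra for the group of order 648
-/

set_option autoImplicit false

namespace Cfsg.Agent.Lib.Recog14

/-- The identity for three masses. -/
theorem three_mass_identity (D T u g w h : ℂ) :
    let X := (D + T) * u ^ 2 + D * (1 + T) * w ^ 2 - 2 * D * u * w
    let Y := (D + T) * u * g + D * (1 + T) * w * h - D * (u * h + g * w)
    let Z := (D + T) * g ^ 2 + D * (1 + T) * h ^ 2 - 2 * D * g * h
    (D + T) * (X * Z - Y ^ 2) = (1 + D + T) * D * T * (Z * w ^ 2 - 2 * Y * w * h + X * h ^ 2) := by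
  intro X Y Z
  simp only [X, Y, Z]
  ring

/-- The core of the final algebra, in difference coordinates. -/
theorem final_core {D T T' σ m A₀ A₁ κ u g w h δ : ℂ}
    (hσ : σ = T + T') (hm : m = D + σ) (hA₀ : A₀ = 1 + D + T) (hA₁ : A₁ = A₀ + 2 * T')
    (hD : D ≠ 0) (hT : T ≠ 0) (hT' : T' ≠ 0) (hσ0 : σ ≠ 0) (hm0 : m ≠ 0) (hA₀0 : A₀ ≠ 0) (hA₁0 : A₁ ≠ 0) (hκ : κ ≠ 0)
    (E1 : D * σ * w ^ 2 = 8 / 3 * κ * m)
    (E2 : T * T' * δ ^ 2 = 2 / 3 * κ * σ)
    (Eh : σ * h = -T' * δ)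
    (Caa : (D + T) * u ^ 2 + D * (1 + T) * w ^ 2 - 2 * D * u * w = A₀ * (8 / 3 * κ))
    (Cab : (D + T) * u * g + D * (1 + T) * w * h - D * (u * h + g * w) = A₀ * (4 / 3 * κ))
    (Cbb : (D + T) * g ^ 2 + D * (1 + T) * h ^ 2 - 2 * D * g * h = A₀ * (4 / 3 * κ))
    (Faa : 2 * T' * A₀ * ((u + D * w) / A₀) ^ 2 = A₁ * (4 / 3 * κ))
    (Fab : 2 * T' * A₀ * ((u + D * w) / A₀ * ((g + D * h) / A₀ + δ)) = A₁ * (-2 / 3 * κ))
    (Fbb : 2 * T' * A₀ * ((g + D * h) / A₀ + δ) ^ 2 = A₁ * (1 / 3 * κ)) :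
    D = 2 ∧ T = 3 ∧ T' = 3 ∧ u = w ∧ w ≠ 0 := by
  have hw : w ≠ 0 := by
    rintro rfl
    have : 8 / 3 * κ * m = 0 := by rw [← E1]; ring
    simp [hκ, hm0] at this
  have h3 := three_mass_identity D T u g w h
  simp only at h3
  rw [Caa, Cab, Cbb, ← hA₀] at h3
  -- `K * (16/9) * κ = D * T * ((4/3) w^2 - (8/3) w h + (8/3) h^2)`
  have S1 : (D + T) * (16 / 9 * κ) = D * T * (4 / 3 * w ^ 2 - 8 / 3 * (w * h) + 8 / 3 * h ^ 2) := by
    have h4 : A₀ ^ 2 * κ * ((D + T) * (16 / 9 * κ) - D * T * (4 / 3 * w ^ 2 - 8 / 3 * (w * h) + 8 / 3 * h ^ 2)) = 0 := by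
      linear_combination h3
    have h5 : A₀ ^ 2 * κ ≠ 0 := mul_ne_zero (pow_ne_zero _ hA₀0) hκ
    have h6 := (mul_eq_zero.mp h4).resolve_left h5
    linear_combination h6
  -- squares
  have hh2 : T * σ * h ^ 2 = 2 / 3 * κ * T' := by
    have h4 : σ * (T * σ * h ^ 2 - 2 / 3 * κ * T') = 0 := by
      have h5 : (σ * h) ^ 2 = T' ^ 2 * δ ^ 2 := by rw [Eh]; ring
      have h6 : T' * (T * T' * δ ^ 2) = T' * (2 / 3 * κ * σ) := by rw [E2]
      linear_combination T * h5 + h6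
    have h7 := (mul_eq_zero.mp h4).resolve_left hσ0
    linear_combination h7
  have hKσ : (D + T) * σ = m * T + D * T' := by
    rw [hm, hσ]
    ring
  -- `w h`
  have hwh : D * σ * (w * h) = 2 / 3 * κ * m := by
    have h4 : D * T * (D * σ * (w * h) - 2 / 3 * κ * m) = 0 := by
      have h5 : σ * ((D + T) * (16 / 9 * κ)) = σ * (D * T * (4 / 3 * w ^ 2 - 8 / 3 * (w * h) + 8 / 3 * h ^ 2)) := by
        rw [S1]
      have e1 : σ * (D * T * (4 / 3 * w ^ 2)) = 4 / 3 * T * (D * σ * w ^ 2) := by ring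
      have e2 : σ * (D * T * (8 / 3 * h ^ 2)) = 8 / 3 * D * (T * σ * h ^ 2) := by ring
      have h6 : σ * ((D + T) * (16 / 9 * κ)) = 16 / 9 * κ * (m * T + D * T') := by
        rw [← hKσ]
        ring
      rw [E1] at e1
      rw [hh2] at e2
      linear_combination (3 / 8 * D) * e1 + (3 / 8 * D) * e2 + (3 / 8 * D) * h5 - (3 / 8 * D) * h6
    have h7 := (mul_eq_zero.mp h4).resolve_left (mul_ne_zero hD hT)
    linear_combination h7
  -- `w = 4 h`
  have hw4 : w = 4 * h := by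
    have h4 : D * σ * (w * (w - 4 * h)) = 0 := by
      linear_combination E1 - 4 * hwh
    have h5 : D * σ * w ≠ 0 := mul_ne_zero (mul_ne_zero hD hσ0) hw
    have h6 : D * σ * w * (w - 4 * h) = 0 := by linear_combination h4
    have h7 := (mul_eq_zero.mp h6).resolve_left h5
    linear_combination h7
  have hmT : m * T = 4 * D * T' := by
    have h4 : κ * σ * (m * T - 4 * D * T') = 0 := by
      have e1 : D * σ * (16 * h ^ 2) = 8 / 3 * κ * m := by
        rw [← E1, hw4]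
        ring
      have e2 : D * (T * σ * h ^ 2) = D * (2 / 3 * κ * T') := by rw [hh2]
      linear_combination (-(3 / 8 : ℂ) * T * σ) * e1 + (6 * σ) * e2
    have h5 : κ * σ ≠ 0 := mul_ne_zero hκ hσ0
    have h7 := (mul_eq_zero.mp h4).resolve_left h5
    linear_combination h7
  have hK5 : (D + T) * σ = 5 * D * T' := by
    rw [hKσ, hmT]
    ring
  have hK : D + T ≠ 0 := by
    intro h4
    rw [h4, zero_mul] at hK5
    have : 5 * D * T' ≠ 0 := mul_ne_zero (mul_ne_zero (by norm_num) hD) hT'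
    exact this hK5.symm
  -- `y = K p - D v`
  set K := D + T with hKdef
  have hA₀K : A₀ = 1 + K := by rw [hA₀, hKdef]; ring
  -- an expression for `D T h^2`
  have hDTh : K * (3 * σ) * (D * T * h ^ 2) * 5 = 2 * κ * K * (K * σ) := by
    have e2 : D * K * 3 * 5 * (T * σ * h ^ 2) = D * K * 3 * 5 * (2 / 3 * κ * T') := by rw [hh2]
    rw [hK5]
    linear_combination e2
  have hDTh' : 15 * (D * T * h ^ 2) = 2 * κ * K := by
    have h5 : K * σ ≠ 0 := mul_ne_zero hK hσ0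
    apply mul_left_cancel₀ h5
    linear_combination hDTh
  set y₁ := K * u - D * w with hy₁
  set y₂ := K * g - D * h with hy₂
  have Y11 : 15 * y₁ ^ 2 = K * A₀ * (8 * κ) := by
    have e : y₁ ^ 2 = K * ((D + T) * u ^ 2 + D * (1 + T) * w ^ 2 - 2 * D * u * w) - D * T * A₀ * w ^ 2 := by
      rw [hy₁, hA₀, hKdef]
      ring
    rw [e, Caa, hw4]
    linear_combination (-16 * A₀) * hDTh'
  have Y12 : 15 * (y₁ * y₂) = K * A₀ * (12 * κ) := by
    have e : y₁ * y₂ = K * ((D + T) * u * g + D * (1 + T) * w * h - D * (u * h + g * w)) - D * T * A₀ * (w * h) := by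
      rw [hy₁, hy₂, hA₀, hKdef]
      ring
    rw [e, Cab, hw4]
    linear_combination (-4 * A₀) * hDTh'
  have Y22 : 15 * y₂ ^ 2 = K * A₀ * (18 * κ) := by
    have e : y₂ ^ 2 = K * ((D + T) * g ^ 2 + D * (1 + T) * h ^ 2 - 2 * D * g * h) - D * T * A₀ * h ^ 2 := by
      rw [hy₂, hA₀, hKdef]
      ring
    rw [e, Cbb]
    linear_combination (-A₀) * hDTh'
  have hy3 : 3 * y₁ = 2 * y₂ := by
    have h4 : (3 * y₁ - 2 * y₂) ^ 2 = 0 := by
      have h5 : 15 * (3 * y₁ - 2 * y₂) ^ 2 = 0 := by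
        linear_combination 9 * Y11 - 12 * Y12 + 4 * Y22
      simpa using h5
    have h5 : 3 * y₁ - 2 * y₂ = 0 := by simpa using h4
    linear_combination h5
  -- the `z` coordinates
  set z₁ := (u + D * w) / A₀ with hz₁
  set z₂ := (g + D * h) / A₀ + δ with hz₂
  have hz : z₁ = -2 * z₂ := by
    have h4 : (z₁ + 2 * z₂) ^ 2 = 0 := by
      have h5 : 2 * T' * A₀ * (z₁ + 2 * z₂) ^ 2 = 0 := by
        linear_combination Faa + 4 * Fab + 4 * Fbb + (-(4 / 3 : ℂ) * κ + 8 / 3 * κ - 4 / 3 * κ) * A₁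
      have h6 : 2 * T' * A₀ ≠ 0 := mul_ne_zero (mul_ne_zero (by norm_num) hT') hA₀0
      exact (mul_eq_zero.mp h5).resolve_left h6
    have h5 : z₁ + 2 * z₂ = 0 := by simpa using h4
    linear_combination h5
  -- `δ` in terms of `h`
  have hδ : K * δ = -5 * D * h := by
    have h4 : T' * (K * δ + 5 * D * h) = 0 := by
      linear_combination K * Eh - h * hK5
    have h5 := (mul_eq_zero.mp h4).resolve_left hT'
    linear_combination h5
  -- solve: `y₁ = A₀ D h`, `u` etc.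
  have e1 : K * A₀ * z₁ = y₁ + A₀ * D * w := by
    rw [hz₁, hy₁, hA₀K]
    have h5 : (1 + K) ≠ 0 := by rw [← hA₀K]; exact hA₀0
    field_simp
    ring
  have e2 : K * A₀ * z₂ = y₂ + A₀ * D * h + A₀ * (K * δ) := by
    rw [hz₂, hy₂, hA₀K]
    have h5 : (1 + K) ≠ 0 := by rw [← hA₀K]; exact hA₀0
    field_simp
    ring
  have a1 : K * A₀ * z₁ = -2 * (K * A₀ * z₂) := by rw [hz]; ring
  rw [e1, e2, hδ, hw4] at a1
  have hy₁val : y₁ = A₀ * D * h := by
    have h4 : 4 * y₁ = 4 * (A₀ * D * h) := by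
      linear_combination a1 + hy3
    have h5 : (4 : ℂ) ≠ 0 := by norm_num
    exact mul_left_cancel₀ h5 h4
  -- Equation 3
  have hsq : 15 * (A₀ * (D ^ 2 * h ^ 2)) = K * (8 * κ) := by
    rw [hy₁val] at Y11
    apply mul_left_cancel₀ hA₀0
    linear_combination Y11
  have Eq3 : A₀ * D = 4 * T := by
    have h4 : (2 * κ * K) * (A₀ * D - 4 * T) = 0 := by
      linear_combination T * hsq - (A₀ * D) * hDTh'
    have h5 : 2 * κ * K ≠ 0 := mul_ne_zero (mul_ne_zero (by norm_num) hκ) hK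
    have h6 := (mul_eq_zero.mp h4).resolve_left h5
    linear_combination h6
  -- Equation 4
  have hz1 : K * z₁ = 5 * (D * h) := by
    apply mul_left_cancel₀ hA₀0
    have e3 : K * A₀ * z₁ = y₁ + A₀ * D * w := by
      rw [hz₁, hy₁, hA₀K]
      have h5 : (1 + K) ≠ 0 := by rw [← hA₀K]; exact hA₀0
      field_simp
      ring
    rw [hy₁val, hw4] at e3
    linear_combination e3
  have Eq4 : A₁ * K = 20 * T' := by
    have h4 : (4 / 3 * κ * K) * (A₁ * K - 20 * T') = 0 := by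
      have e3 : K ^ 2 * (2 * T' * A₀ * z₁ ^ 2) = K ^ 2 * (A₁ * (4 / 3 * κ)) := by rw [Faa]
      have e4 : (K * z₁) ^ 2 = 25 * (D ^ 2 * h ^ 2) := by rw [hz1]; ring
      linear_combination -e3 + (2 * T' * A₀) * e4 + (10 / 3 * T') * hsq
    have h5 : 4 / 3 * κ * K ≠ 0 := mul_ne_zero (mul_ne_zero (by norm_num) hκ) hK
    have h6 := (mul_eq_zero.mp h4).resolve_left h5
    linear_combination h6
  have Eq5 : A₁ * D = 4 * σ := by
    have h4 : (5 * T') * (A₁ * D - 4 * σ) = 0 := by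
      linear_combination σ * Eq4 - A₁ * hK5
    have h5 : 5 * T' ≠ 0 := mul_ne_zero (by norm_num) hT'
    have h6 := (mul_eq_zero.mp h4).resolve_left h5
    linear_combination h6
  have hD2 : D = 2 := by
    have h4 : (2 * T') * (D - 2) = 0 := by
      rw [hA₁] at Eq5
      rw [hσ] at Eq5
      linear_combination Eq5 - Eq3
    have h5 : 2 * T' ≠ 0 := mul_ne_zero (by norm_num) hT'
    have h6 := (mul_eq_zero.mp h4).resolve_left h5
    linear_combination h6
  have hT3 : T = 3 := by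
    rw [hA₀, hD2] at Eq3
    linear_combination (-1 / 2 : ℂ) * Eq3
  have hT'3 : T' = 3 := by
    rw [hm, hσ, hD2, hT3] at hmT
    linear_combination (-1 / 5 : ℂ) * hmT
  refine ⟨hD2, hT3, hT'3, ?_, hw⟩
  have hK5' : K = 5 := by rw [hKdef, hD2, hT3]; norm_num
  have hA6 : A₀ = 6 := by rw [hA₀, hD2, hT3]; norm_num
  rw [hy₁, hK5', hA6, hD2] at hy₁val
  rw [hw4]
  linear_combination (1 / 5 : ℂ) * hy₁val + (2 / 5 : ℂ) * hw4

end Cfsg.Agent.Lib.Recog14
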