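import Mathlib
import Cfsg.Agent.Lib.Recog14.Alg1

/-!
# The final algebra for the group of order 648, with coordinates of all atoms, and the excluded cases
-/

set_option autoImplicit false

namespace Cfsg.Agent.Lib.Recog14

/-- Two masses. -/
theorem mass2 {n a b c d P c' d' P' : ℂ} (hn : n = a + b) (h : n * P = a * c + b * d) (h' : n * P' = a * c' + b * d') :
    n * (a * (c * c') + b * (d * d') - n * (P * P')) = a * b * ((c - d) * (c' - d')) := by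
  linear_combination (-n * P') * h - (a * c + b * d) * h' + (a * (c * c') + b * (d * d')) * hn

/-- Three masses. -/
theorem mass3 {A₀ D T u q c R u' q' c' R' : ℂ} (hA : A₀ = 1 + D + T) (h : A₀ * R = u + D * q + T * c)
    (h' : A₀ * R' = u' + D * q' + T * c') :
    A₀ * (u * u' + D * (q * q') + T * (c * c') - A₀ * (R * R')) =
      (D + T) * ((u - c) * (u' - c')) + D * (1 + T) * ((q - c) * (q' - c')) -
        D * ((u - c) * (q' - c') + (q - c) * (u' - c')) := by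
  linear_combination (-A₀ * R') * h - (u + D * q + T * c) * h' +
    (u * u' + D * (q * q') + T * (c * c')) * hA

theorem sq_zero_eq {x y : ℂ} (h : (x - y) * (x - y) = 0) : x = y := by
  have h1 : x - y = 0 := by simpa using h
  exact sub_eq_zero.mp h1

/-- The theorem on the degrees. -/
theorem final_alg {D T T' σ m A₀ A₁ κ u₁ u₂ q₁ q₂ c₁ c₂ d₁ d₂ P₁ P₂ Y₁ Y₂ R₁ R₂ F₁ F₂ : ℂ}
    (hσ : σ = T + T') (hm : m = σ + D) (hA₀ : A₀ = 1 + D + T) (hA₁ : A₁ = 1 + m + T')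
    (hD : D ≠ 0) (hT : T ≠ 0) (hT' : T' ≠ 0) (hσ0 : σ ≠ 0) (hm0 : m ≠ 0) (hA₀0 : A₀ ≠ 0) (hA₁0 : A₁ ≠ 0) (hκ : κ ≠ 0)
    (lP₁ : σ * P₁ = T * c₁ + T' * d₁) (lP₂ : σ * P₂ = T * c₂ + T' * d₂)
    (lY₁ : m * Y₁ = σ * P₁ + D * q₁) (lY₂ : m * Y₂ = σ * P₂ + D * q₂)
    (lR₁ : A₀ * R₁ = u₁ + D * q₁ + T * c₁) (lR₂ : A₀ * R₂ = u₂ + D * q₂ + T * c₂)
    (lF₁ : A₁ * F₁ = u₁ + m * Y₁ + T' * d₁) (lF₂ : A₁ * F₂ = u₂ + m * Y₂ + T' * d₂)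
    (Baa : T * (c₁ * c₁) + T' * (d₁ * d₁) - σ * (P₁ * P₁) = 0)
    (Bab : T * (c₁ * c₂) + T' * (d₁ * d₂) - σ * (P₁ * P₂) = 0)
    (Bbb : T * (c₂ * c₂) + T' * (d₂ * d₂) - σ * (P₂ * P₂) = 2 / 3 * κ)
    (Maa : σ * (P₁ * P₁) + D * (q₁ * q₁) - m * (Y₁ * Y₁) = 8 / 3 * κ)
    (Mab : σ * (P₁ * P₂) + D * (q₁ * q₂) - m * (Y₁ * Y₂) = 0)
    (Mbb : σ * (P₂ * P₂) + D * (q₂ * q₂) - m * (Y₂ * Y₂) = 0)
    (Caa : u₁ * u₁ + D * (q₁ * q₁) + T * (c₁ * c₁) - A₀ * (R₁ * R₁) = 8 / 3 * κ)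
    (Cab : u₁ * u₂ + D * (q₁ * q₂) + T * (c₁ * c₂) - A₀ * (R₁ * R₂) = 4 / 3 * κ)
    (Cbb : u₂ * u₂ + D * (q₂ * q₂) + T * (c₂ * c₂) - A₀ * (R₂ * R₂) = 4 / 3 * κ)
    (Faa : u₁ * u₁ + m * (Y₁ * Y₁) + T' * (d₁ * d₁) - A₁ * (F₁ * F₁) = 4 / 3 * κ)
    (Fab : u₁ * u₂ + m * (Y₁ * Y₂) + T' * (d₁ * d₂) - A₁ * (F₁ * F₂) = 2 / 3 * κ)
    (Fbb : u₂ * u₂ + m * (Y₂ * Y₂) + T' * (d₂ * d₂) - A₁ * (F₂ * F₂) = κ) :
    D = 2 ∧ T = 3 ∧ T' = 3 ∧ u₁ ≠ c₁ := by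
  have hTT : T * T' ≠ 0 := mul_ne_zero hT hT'
  have hDσ : σ * D ≠ 0 := mul_ne_zero hσ0 hD
  have hcd : c₁ = d₁ := by
    have h1 := mass2 hσ lP₁ lP₁
    rw [Baa, mul_zero] at h1
    exact sq_zero_eq ((mul_eq_zero.mp h1.symm).resolve_left hTT)
  have hP₁ : P₁ = c₁ := by
    apply mul_left_cancel₀ hσ0
    rw [lP₁, ← hcd, hσ]
    ring
  have hq₂ : P₂ = q₂ := by
    have h1 := mass2 hm lY₂ lY₂
    rw [Mbb, mul_zero] at h1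
    exact sq_zero_eq ((mul_eq_zero.mp h1.symm).resolve_left hDσ)
  have E1 : D * σ * (q₁ - c₁) ^ 2 = 8 / 3 * κ * m := by
    have h1 := mass2 hm lY₁ lY₁
    rw [Maa, hP₁] at h1
    linear_combination -h1
  have E2 : T * T' * (c₂ - d₂) ^ 2 = 2 / 3 * κ * σ := by
    have h1 := mass2 hσ lP₂ lP₂
    rw [Bbb] at h1
    linear_combination -h1
  have Eh : σ * (q₂ - c₂) = -T' * (c₂ - d₂) := by
    rw [← hq₂]
    rw [hσ] at lP₂ ⊢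
    linear_combination lP₂
  have h2T : A₁ = A₀ + 2 * T' := by
    rw [hA₁, hm, hσ, hA₀]
    ring
  have hm' : m = D + σ := by rw [hm]; ring
  have C1 := mass3 hA₀ lR₁ lR₁
  have C2 := mass3 hA₀ lR₁ lR₂
  have C3 := mass3 hA₀ lR₂ lR₂
  rw [Caa] at C1
  rw [Cab] at C2
  rw [Cbb] at C3
  have lG₁ : A₁ * F₁ = A₀ * R₁ + 2 * T' * d₁ := by
    rw [hσ] at lY₁ lP₁
    linear_combination lF₁ + lY₁ + lP₁ - lR₁
  have lG₂ : A₁ * F₂ = A₀ * R₂ + 2 * T' * d₂ := by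
    rw [hσ] at lY₂ lP₂
    linear_combination lF₂ + lY₂ + lP₂ - lR₂
  have G1 := mass2 h2T lG₁ lG₁
  have G2 := mass2 h2T lG₁ lG₂
  have G3 := mass2 h2T lG₂ lG₂
  have Gaa : A₀ * (R₁ * R₁) + 2 * T' * (d₁ * d₁) - A₁ * (F₁ * F₁) = 4 / 3 * κ := by
    linear_combination Faa - Caa + Baa + Maa
  have Gab : A₀ * (R₁ * R₂) + 2 * T' * (d₁ * d₂) - A₁ * (F₁ * F₂) = -2 / 3 * κ := by
    linear_combination Fab - Cab + Bab + Mab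
  have Gbb : A₀ * (R₂ * R₂) + 2 * T' * (d₂ * d₂) - A₁ * (F₂ * F₂) = 1 / 3 * κ := by
    linear_combination Fbb - Cbb + Bbb + Mbb
  rw [Gaa] at G1
  rw [Gab] at G2
  rw [Gbb] at G3
  have z1 : R₁ - d₁ = (u₁ - c₁ + D * (q₁ - c₁)) / A₀ := by
    rw [eq_div_iff hA₀0, ← hcd]
    rw [hA₀] at lR₁ ⊢
    linear_combination lR₁
  have z2 : R₂ - d₂ = (u₂ - c₂ + D * (q₂ - c₂)) / A₀ + (c₂ - d₂) := by
    have h1 : R₂ - c₂ = (u₂ - c₂ + D * (q₂ - c₂)) / A₀ := by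
      rw [eq_div_iff hA₀0]
      rw [hA₀] at lR₂ ⊢
      linear_combination lR₂
    rw [← h1]
    ring
  rw [z1] at G1
  rw [z1, z2] at G2
  rw [z2] at G3
  obtain ⟨h1, h2, h3, h4, h5⟩ := final_core (u := u₁ - c₁) (g := u₂ - c₂) (w := q₁ - c₁) (h := q₂ - c₂) (δ := c₂ - d₂)
    hσ hm' hA₀ h2T hD hT hT' hσ0 hm0 hA₀0 hA₁0 hκ E1 E2 Eh
    (by linear_combination -C1) (by linear_combination -C2) (by linear_combination -C3)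
    (by linear_combination -G1) (by linear_combination -G2) (by linear_combination -G3)
  refine ⟨h1, h2, h3, ?_⟩
  intro e
  rw [e, sub_self] at h4
  exact h5 h4.symm

/-- The case `A = q - τ`. -/
theorem kill_A2 {D T T' σ m κ c₁ d₁ P₁ Y₁ q₁ : ℂ} (hσ : σ = T + T') (hm : m = σ + D)
    (hD : D ≠ 0) (hT : T ≠ 0) (hT' : T' ≠ 0) (hσ0 : σ ≠ 0) (hm0 : m ≠ 0) (hκ : κ ≠ 0) (hq : q₁ = c₁)
    (lP₁ : σ * P₁ = T * c₁ + T' * d₁) (lY₁ : m * Y₁ = σ * P₁ + D * q₁)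
    (Baa : T * (c₁ * c₁) + T' * (d₁ * d₁) - σ * (P₁ * P₁) = 0)
    (Maa : σ * (P₁ * P₁) + D * (q₁ * q₁) - m * (Y₁ * Y₁) = 8 / 3 * κ) : False := by
  have hcd : c₁ = d₁ := by
    have h1 := mass2 hσ lP₁ lP₁
    rw [Baa, mul_zero] at h1
    exact sq_zero_eq ((mul_eq_zero.mp h1.symm).resolve_left (mul_ne_zero hT hT'))
  have hP₁ : P₁ = c₁ := by
    apply mul_left_cancel₀ hσ0
    rw [lP₁, ← hcd, hσ]
    ring
  have h1 := mass2 hm lY₁ lY₁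
  rw [Maa, hP₁, hq, sub_self, mul_zero, mul_zero] at h1
  have h2 : m * κ = 0 := by linear_combination (3 / 8 : ℂ) * h1
  exact (mul_ne_zero hm0 hκ) h2

/-- The case `C = 1 - Y₁ + Y₂ + τ`. -/
theorem kill_C2 {m T κ u₁ u₂ c₁ c₂ Y₁ Y₂ : ℂ} (hm : 2 * m = 1 + T) (hm0 : m ≠ 0) (hκ : κ ≠ 0)
    (l₁ : 2 * m * Y₁ = 1 * u₁ + T * c₁) (l₂ : 2 * m * Y₂ = 1 * u₂ + T * c₂)
    (Caa : 1 * (u₁ * u₁) + T * (c₁ * c₁) - 2 * m * (Y₁ * Y₁) = 8 / 3 * κ)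
    (Cab : 1 * (u₁ * u₂) + T * (c₁ * c₂) - 2 * m * (Y₁ * Y₂) = 4 / 3 * κ)
    (Cbb : 1 * (u₂ * u₂) + T * (c₂ * c₂) - 2 * m * (Y₂ * Y₂) = 4 / 3 * κ) : False := by
  have h1 := mass2 hm l₁ l₁
  have h2 := mass2 hm l₁ l₂
  have h3 := mass2 hm l₂ l₂
  rw [Caa] at h1
  rw [Cab] at h2
  rw [Cbb] at h3
  have h4 : (2 * m) ^ 2 * κ ^ 2 = 0 := by
    have e : (1 * T * ((u₁ - c₁) * (u₁ - c₁))) * (1 * T * ((u₂ - c₂) * (u₂ - c₂))) =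
        (1 * T * ((u₁ - c₁) * (u₂ - c₂))) ^ 2 := by ring
    rw [← h1, ← h2, ← h3] at e
    linear_combination (9 / 16 : ℂ) * e
  have h5 : (2 * m) ^ 2 * κ ^ 2 ≠ 0 :=
    mul_ne_zero (pow_ne_zero _ (mul_ne_zero (by norm_num) hm0)) (pow_ne_zero _ hκ)
  exact h5 h4

/-- The case `F = 1 + Y₁ + τ - r`. -/
theorem kill_F2 {D T T' σ m A₀ κ u₁ q₁ c₁ d₁ P₁ Y₁ R₁ : ℂ} (hσ : σ = T + T') (hm : m = σ + D) (hA₀ : A₀ = 1 + D + T)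
    (hD : D ≠ 0) (hT : T ≠ 0) (hT' : T' ≠ 0) (hσ0 : σ ≠ 0) (hm0 : m ≠ 0) (hA₀0 : A₀ ≠ 0) (hκ : κ ≠ 0)
    (lP₁ : σ * P₁ = T * c₁ + T' * d₁) (lY₁ : m * Y₁ = σ * P₁ + D * q₁) (lR₁ : A₀ * R₁ = u₁ + D * q₁ + T * c₁)
    (mass : 1 + m + T + A₀ = 0) (mom : u₁ + m * Y₁ + T * c₁ + A₀ * R₁ = 0)
    (Baa : T * (c₁ * c₁) + T' * (d₁ * d₁) - σ * (P₁ * P₁) = 0)
    (Maa : σ * (P₁ * P₁) + D * (q₁ * q₁) - m * (Y₁ * Y₁) = 8 / 3 * κ)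
    (Caa : u₁ * u₁ + D * (q₁ * q₁) + T * (c₁ * c₁) - A₀ * (R₁ * R₁) = 8 / 3 * κ)
    (Faa : u₁ * u₁ + m * (Y₁ * Y₁) + T * (c₁ * c₁) + A₀ * (R₁ * R₁) = 4 / 3 * κ) : False := by
  have hcd : c₁ = d₁ := by
    have h1 := mass2 hσ lP₁ lP₁
    rw [Baa, mul_zero] at h1
    exact sq_zero_eq ((mul_eq_zero.mp h1.symm).resolve_left (mul_ne_zero hT hT'))
  have hP₁ : P₁ = c₁ := by
    apply mul_left_cancel₀ hσ0
    rw [lP₁, ← hcd, hσ]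
    ring
  subst hP₁
  obtain ⟨w, hw⟩ : ∃ w, q₁ = P₁ + w := ⟨q₁ - P₁, by ring⟩
  subst hw
  have E1 : D * σ * w ^ 2 = 8 / 3 * κ * m := by
    have h1 := mass2 hm lY₁ lY₁
    rw [Maa] at h1
    linear_combination -h1
  have hY : m * Y₁ = m * P₁ + D * w := by
    rw [lY₁, hm]
    ring
  have hu : u₁ = P₁ - D * w := by
    have h1 : 2 * (u₁ - P₁ + D * w) = 0 := by
      rw [lR₁, hY] at mom
      rw [hA₀, hm, hσ] at mass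
      rw [hm, hσ] at mom
      linear_combination mom - P₁ * mass
    have h2 : u₁ - P₁ + D * w = 0 := by simpa using h1
    linear_combination h2
  subst hu
  have hR : R₁ = P₁ := by
    apply mul_left_cancel₀ hA₀0
    rw [lR₁, hA₀]
    ring
  rw [hR] at Caa Faa
  have e1 : D ^ 2 * w ^ 2 + D * w ^ 2 = 8 / 3 * κ := by
    rw [← Caa, hA₀]
    ring
  have e3 : m * (D ^ 2 * w ^ 2) + D ^ 2 * w ^ 2 = 4 / 3 * κ * m := by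
    have h1 : m * (m * (Y₁ * Y₁)) = (m * P₁ + D * w) ^ 2 := by rw [← hY]; ring
    have h2 : m * ((P₁ - D * w) * (P₁ - D * w) + m * (Y₁ * Y₁) + T * (P₁ * P₁) + A₀ * (P₁ * P₁)) = m * (4 / 3 * κ) := by
      rw [Faa]
    linear_combination h2 - h1 - (m * P₁ * P₁) * mass
  have hz : D * w ^ 2 ≠ 0 := by
    intro h0
    have h1 : 8 / 3 * κ * m = 0 := by rw [← E1]; linear_combination σ * h0
    simp [hκ, hm0] at h1
  have e4 : D * w ^ 2 * (σ - m * (D + 1)) = 0 := by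
    linear_combination E1 - m * e1
  have e5 : σ = m * (D + 1) := by
    have h1 := (mul_eq_zero.mp e4).resolve_left hz
    linear_combination h1
  have e6 : D * w ^ 2 * (m * D + 2 * D - m) = 0 := by
    rw [e5] at E1
    linear_combination 2 * e3 - E1
  have e7 : m * D + 2 * D - m = 0 := (mul_eq_zero.mp e6).resolve_left hz
  have e8 : D * (m + 1) = 0 := by
    rw [e5] at hm
    linear_combination -hm
  have e9 : m = -1 := by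
    have h1 := (mul_eq_zero.mp e8).resolve_left hD
    linear_combination h1
  have e10 : D = -1 := by
    rw [e9] at e7
    linear_combination e7
  apply hσ0
  rw [e5, e10]
  ring

/-- The case `F = 1 + Y₂ - q + τ`. -/
theorem kill_F3 {D T T' σ m A₀ κ u₁ q₁ c₁ d₁ P₁ Y₁ R₁ : ℂ} {k : ℤ} (hk : m = k) (hσ : σ = T + T') (hm : m = σ + D)
    (hA₀ : A₀ = 1 + D + T)
    (hD : D ≠ 0) (hT : T ≠ 0) (hT' : T' ≠ 0) (hσ0 : σ ≠ 0) (hm0 : m ≠ 0) (hA₀0 : A₀ ≠ 0) (hκ : κ ≠ 0)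
    (lP₁ : σ * P₁ = T * c₁ + T' * d₁) (lY₁ : m * Y₁ = σ * P₁ + D * q₁) (lR₁ : A₀ * R₁ = u₁ + D * q₁ + T * c₁)
    (mass : 1 - m - D + T = 0) (mom : u₁ - m * Y₁ - D * q₁ + T * c₁ = 0)
    (Baa : T * (c₁ * c₁) + T' * (d₁ * d₁) - σ * (P₁ * P₁) = 0)
    (Maa : σ * (P₁ * P₁) + D * (q₁ * q₁) - m * (Y₁ * Y₁) = 8 / 3 * κ)
    (Caa : u₁ * u₁ + D * (q₁ * q₁) + T * (c₁ * c₁) - A₀ * (R₁ * R₁) = 8 / 3 * κ)
    (Faa : u₁ * u₁ - m * (Y₁ * Y₁) - D * (q₁ * q₁) + T * (c₁ * c₁) = 4 / 3 * κ) : False := by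
  have hcd : c₁ = d₁ := by
    have h1 := mass2 hσ lP₁ lP₁
    rw [Baa, mul_zero] at h1
    exact sq_zero_eq ((mul_eq_zero.mp h1.symm).resolve_left (mul_ne_zero hT hT'))
  have hP₁ : P₁ = c₁ := by
    apply mul_left_cancel₀ hσ0
    rw [lP₁, ← hcd, hσ]
    ring
  subst hP₁
  obtain ⟨w, hw⟩ : ∃ w, q₁ = P₁ + w := ⟨q₁ - P₁, by ring⟩
  subst hw
  have E1 : D * σ * w ^ 2 = 8 / 3 * κ * m := by
    have h1 := mass2 hm lY₁ lY₁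
    rw [Maa] at h1
    linear_combination -h1
  have hY : m * Y₁ = m * P₁ + D * w := by
    rw [lY₁, hm]
    ring
  have hu : u₁ = P₁ + 2 * D * w := by
    rw [hY] at mom
    linear_combination mom - P₁ * mass
  subst hu
  have hA : A₀ = m + 2 * D := by
    rw [hA₀]
    linear_combination mass
  have C3 := mass3 hA₀ lR₁ lR₁
  rw [Caa] at C3
  have e2 : A₀ * (4 * D ^ 2 * w ^ 2 + D * w ^ 2) - 9 * D ^ 2 * w ^ 2 = A₀ * (8 / 3 * κ) := by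
    rw [C3, hA₀]
    ring
  have e3 : m * (4 * D ^ 2 * w ^ 2) - D ^ 2 * w ^ 2 - m * (D * w ^ 2) = 4 / 3 * κ * m := by
    have h1 : m * (m * (Y₁ * Y₁)) = (m * P₁ + D * w) ^ 2 := by rw [← hY]; ring
    have h2 : m * ((P₁ + 2 * D * w) * (P₁ + 2 * D * w) - m * (Y₁ * Y₁) - D * ((P₁ + w) * (P₁ + w)) + T * (P₁ * P₁)) =
        m * (4 / 3 * κ) := by
      rw [Faa]
    linear_combination h2 + h1 - (m * P₁ * P₁) * mass
  have hz : D * w ^ 2 ≠ 0 := by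
    intro h0
    have h1 : 8 / 3 * κ * m = 0 := by rw [← E1]; linear_combination σ * h0
    simp [hκ, hm0] at h1
  have hσm : σ = m - D := by rw [hm]; ring
  have e4 : D * w ^ 2 * (8 * m * D - D - 3 * m) = 0 := by
    rw [hσm] at E1
    linear_combination 2 * e3 - E1
  have e5 := (mul_eq_zero.mp e4).resolve_left hz
  have e6 : D * w ^ 2 * (D * (A₀ * (4 * m + 1) - 9 * m)) = 0 := by
    rw [hσm] at E1
    linear_combination m * e2 - A₀ * E1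
  have e7 := (mul_eq_zero.mp e6).resolve_left hz
  have e8 := (mul_eq_zero.mp e7).resolve_left hD
  rw [hA] at e8
  have e9 : m * (16 * m ^ 2 - 22 * m + 7) = 0 := by
    linear_combination ((8 * m - 1) / 2) * e8 - ((8 * m + 2) / 2) * e5
  have e10 := (mul_eq_zero.mp e9).resolve_left hm0
  rw [hk] at e10
  have e11 : (16 * k ^ 2 - 22 * k + 7 : ℤ) = 0 := by exact_mod_cast e10
  generalize k ^ 2 = z at e11
  omega

/-- The case `F = 1 + Y₂ - p + Z`. -/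
theorem kill_F4 {D σ m κ u₂ q₂ P₂ Y₂ : ℂ} (hm : m = σ + D) (hD : D ≠ 0) (hσ0 : σ ≠ 0) (hκ : κ ≠ 0) (hm0 : m ≠ 0)
    (lY₂ : m * Y₂ = σ * P₂ + D * q₂) (mass : 1 - m - 2 * σ = 0) (mom : u₂ - m * Y₂ - 2 * σ * P₂ = 0)
    (Mbb : σ * (P₂ * P₂) + D * (q₂ * q₂) - m * (Y₂ * Y₂) = 0)
    (Fbb : u₂ * u₂ - m * (Y₂ * Y₂) - σ * (P₂ * P₂) - σ * (P₂ * P₂) = κ) : False := by
  have h1 := mass2 hm lY₂ lY₂
  rw [Mbb, mul_zero] at h1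
  have hq : P₂ = q₂ := sq_zero_eq ((mul_eq_zero.mp h1.symm).resolve_left (mul_ne_zero hσ0 hD))
  subst hq
  have hY : Y₂ = P₂ := by
    apply mul_left_cancel₀ hm0
    rw [lY₂, hm]
    ring
  subst hY
  have hu : u₂ = Y₂ := by
    linear_combination mom - Y₂ * mass
  subst hu
  apply hκ
  rw [← Fbb]
  linear_combination (u₂ * u₂) * mass

end Cfsg.Agent.Lib.Recog14
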