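import Mathlib
import Cfsg.Agent.Lib.Recog13.Model5

/-!
# The group `(S₃ ≀ S₃) ∩ A₉`, order 648
-/

set_option autoImplicit false

namespace Cfsg.Agent.Lib.Recog14

open DihedralGroup Cfsg Cfsg.Agent.Lib.Recog13

/-- The action of `D3` on the coordinates. -/
def pf (p : D3) (i : Fin 3) : Fin 3 := pm p i

theorem pf_mul (a b : D3) (i : Fin 3) : pf (a * b) i = pf a (pf b i) := pm_mul a b i

theorem pf_one (i : Fin 3) : pf 1 i = i := pm_one i

/-- Permuting coordinates. -/
def tw (p : D3) (q : Q3) : Q3 := (cd (pf p⁻¹ 0) q, cd (pf p⁻¹ 1) q, cd (pf p⁻¹ 2) q)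

theorem cd_tw (p : D3) (q : Q3) (i : Fin 3) : cd i (tw p q) = cd (pf p⁻¹ i) q := by
  fin_cases i <;> rfl

theorem q3_ext {a b : Q3} (h : ∀ i, cd i a = cd i b) : a = b := by
  have h0 := h 0
  have h1 := h 1
  have h2 := h 2
  exact Prod.ext h0 (Prod.ext h1 h2)

theorem tw_one (q : Q3) : tw 1 q = q := by
  apply q3_ext
  intro i
  rw [cd_tw, inv_one, pf_one]

theorem tw_comp (p p' : D3) (q : Q3) : tw (p * p') q = tw p (tw p' q) := by
  apply q3_ext
  intro i
  rw [cd_tw, cd_tw, cd_tw, mul_inv_rev, pf_mul]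

theorem tw_mul (p : D3) (a b : Q3) : tw p (a * b) = tw p a * tw p b := by
  apply q3_ext
  intro i
  rw [cd_mul, cd_tw, cd_tw, cd_tw, cd_mul]

theorem tw_one' (p : D3) : tw p 1 = 1 := by
  apply q3_ext
  intro i
  rw [cd_tw, cd_one, cd_one]

/-- The wreath product `S₃ ≀ S₃`. -/
structure W14 where
  /-- The base part. -/
  q : Q3
  /-- The top part. -/
  p : D3
  deriving DecidableEq

instance : Fintype W14 :=
  Fintype.ofEquiv (Q3 × D3) ⟨fun x => ⟨x.1, x.2⟩, fun a => (a.q, a.p), fun _ => rfl, fun _ => rfl⟩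

theorem W14.ext' {a b : W14} (h1 : a.q = b.q) (h2 : a.p = b.p) : a = b := by
  cases a
  cases b
  simp_all

instance : Mul W14 := ⟨fun a b => ⟨a.q * tw a.p b.q, a.p * b.p⟩⟩
instance : One W14 := ⟨⟨1, 1⟩⟩
instance : Inv W14 := ⟨fun a => ⟨tw a.p⁻¹ a.q⁻¹, a.p⁻¹⟩⟩

theorem w_mul_q (a b : W14) : (a * b).q = a.q * tw a.p b.q := rfl
theorem w_mul_p (a b : W14) : (a * b).p = a.p * b.p := rfl
theorem w_one_q : (1 : W14).q = 1 := rfl
theorem w_one_p : (1 : W14).p = 1 := rfl
theorem w_inv_q (a : W14) : (a⁻¹).q = tw a.p⁻¹ a.q⁻¹ := rfl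
theorem w_inv_p (a : W14) : (a⁻¹).p = a.p⁻¹ := rfl

instance : Group W14 :=
  Group.ofLeftAxioms
    (by
      intro a b c
      apply W14.ext'
      · simp only [w_mul_q, w_mul_p]
        rw [tw_comp, tw_mul, mul_assoc]
      · simp only [w_mul_p]
        rw [mul_assoc])
    (by
      intro a
      apply W14.ext'
      · rw [w_mul_q, w_one_q, w_one_p, tw_one, one_mul]
      · rw [w_mul_p, w_one_p, one_mul])
    (by
      intro a
      apply W14.ext'
      · rw [w_mul_q, w_inv_q, w_inv_p, ← tw_mul, inv_mul_cancel, tw_one', w_one_q]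
      · rw [w_mul_p, w_inv_p, inv_mul_cancel, w_one_p])

/-- The sign of an element of the wreath product. -/
def sgW (a : W14) : ℤ := sg a.q.1 * sg a.q.2.1 * sg a.q.2.2 * sg a.p

/-- Membership in the even part. -/
def evnW (a : W14) : Bool := decide (sgW a = 1)

theorem sg_cd_tw : ∀ (p : D3) (q : Q3), sg (tw p q).1 * sg (tw p q).2.1 * sg (tw p q).2.2 =
    sg q.1 * sg q.2.1 * sg q.2.2 := by
  intro p q
  have h : ∀ (p : D3) (a b c : D3), sg (cd (pf p⁻¹ 0) (a, b, c)) * sg (cd (pf p⁻¹ 1) (a, b, c)) *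
      sg (cd (pf p⁻¹ 2) (a, b, c)) = sg a * sg b * sg c := by
    decide +kernel
  exact h p q.1 q.2.1 q.2.2

theorem sgW_mul (a b : W14) : sgW (a * b) = sgW a * sgW b := by
  have h1 := sg_cd_tw a.p b.q
  simp only [sgW, w_mul_q, w_mul_p, Prod.fst_mul, Prod.snd_mul, sg_mul]
  linear_combination (sg a.q.1 * sg a.q.2.1 * sg a.q.2.2 * sg a.p * sg b.p) * h1

theorem sgW_one : sgW (1 : W14) = 1 := by decide +kernel

theorem sgW_sq (a : W14) : sgW a * sgW a = 1 := by
  have h : ∀ x : D3, sg x * sg x = 1 := by decide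
  simp only [sgW]
  calc _ = (sg a.q.1 * sg a.q.1) * (sg a.q.2.1 * sg a.q.2.1) * (sg a.q.2.2 * sg a.q.2.2) *
      (sg a.p * sg a.p) := by ring
    _ = 1 := by rw [h, h, h, h]; norm_num

/-- The even part of the wreath product: `(S₃ ≀ S₃) ∩ A₉`. -/
def KW : Subgroup W14 where
  carrier := {a | evnW a = true}
  mul_mem' := by
    intro a b ha hb
    simp only [Set.mem_ofPred_eq, evnW, decide_eq_true_eq] at ha hb ⊢
    rw [sgW_mul, ha, hb]
    norm_num
  one_mem' := by
    simp only [Set.mem_ofPred_eq, evnW, decide_eq_true_eq]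
    exact sgW_one
  inv_mem' := by
    intro a ha
    simp only [Set.mem_ofPred_eq, evnW, decide_eq_true_eq] at ha ⊢
    have h1 := sgW_mul a⁻¹ a
    rw [inv_mul_cancel, sgW_one, ha, mul_one] at h1
    exact h1.symm

theorem mem_KW_iff (a : W14) : a ∈ KW ↔ evnW a = true := Iff.rfl

instance : DecidablePred (· ∈ KW) := fun a => decidable_of_iff (evnW a = true) (mem_KW_iff a).symm

/-- The model group. -/
abbrev E14 := ↥KW

theorem card_E14 : Fintype.card E14 = 648 := by decide +kernel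

theorem natCard_E14 : Nat.card E14 = 648 := by
  rw [Nat.card_eq_fintype_card, card_E14]

/-- The action on nine points. -/
def act14 (a : W14) (n : Fin 9) : Fin 9 :=
  emb (pf a.p (blk n)) (pm (cd (pf a.p (blk n)) a.q) (pos n))

theorem act14_one (n : Fin 9) : act14 1 n = n := by
  revert n
  decide +kernel

theorem act14_mul (a b : W14) (n : Fin 9) : act14 (a * b) n = act14 a (act14 b n) := by
  simp only [act14, blk_emb, pos_emb]
  have h3 : pf a.p⁻¹ (pf (a.p * b.p) (blk n)) = pf b.p (blk n) := by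
    rw [← pf_mul, ← mul_assoc, inv_mul_cancel, one_mul]
  rw [w_mul_p, w_mul_q, cd_mul, cd_tw, h3, ← pf_mul]
  congr 1
  exact pm_mul _ _ _

/-- The permutation representation. -/
def iot9W : W14 →* Equiv.Perm (Fin 9) where
  toFun a :=
    { toFun := act14 a
      invFun := act14 a⁻¹
      left_inv := fun n => by rw [← act14_mul, inv_mul_cancel, act14_one]
      right_inv := fun n => by rw [← act14_mul, mul_inv_cancel, act14_one] }
  map_one' := by
    ext n
    exact congrArg Fin.val (act14_one n)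
  map_mul' := by
    intro a b
    ext n
    exact congrArg Fin.val (act14_mul a b n)

theorem iot9W_apply (a : W14) (n : Fin 9) : iot9W a n = act14 a n := rfl

theorem iot9W_inj : Function.Injective iot9W := by
  have h : ∀ a : W14, (∀ n : Fin 9, act14 a n = n) → a = 1 := by decide +kernel
  rw [injective_iff_map_eq_one]
  intro a ha
  apply h
  intro n
  have := congrArg (fun s : Equiv.Perm (Fin 9) => s n) ha
  exact this

theorem iot9W_eq_iff (a : W14) (s : Equiv.Perm (Fin 9)) :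
    iot9W a = s ↔ ∀ n : Fin 9, act14 a n = s n := by
  rw [Equiv.ext_iff]
  rfl

/-- The generators. -/
def g1 : W14 := ⟨(r 1, 1, 1), 1⟩
/-- The block rotation. -/
def g2 : W14 := ⟨(1, 1, 1), r 1⟩
/-- The third generator. -/
def g3 : W14 := ⟨(sr 2, sr 2, 1), 1⟩
/-- The fourth generator. -/
def g4 : W14 := ⟨(1, 1, sr 2), sr 2⟩

theorem iot_g1 : iot9W g1 = Equiv.swap (0 : Fin 9) 1 * Equiv.swap 1 2 := by
  rw [iot9W_eq_iff]
  decide +kernel

theorem iot_g2 : iot9W g2 = Equiv.swap (0 : Fin 9) 3 * Equiv.swap 3 6 * (Equiv.swap (1 : Fin 9) 4 * Equiv.swap 4 7) *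
    (Equiv.swap (2 : Fin 9) 5 * Equiv.swap 5 8) := by
  rw [iot9W_eq_iff]
  decide +kernel

theorem iot_g3 : iot9W g3 = Equiv.swap (0 : Fin 9) 1 * Equiv.swap 3 4 := by
  rw [iot9W_eq_iff]
  decide +kernel

theorem iot_g4 : iot9W g4 = Equiv.swap (0 : Fin 9) 3 * Equiv.swap 1 4 * Equiv.swap 2 5 * Equiv.swap 6 7 := by
  rw [iot9W_eq_iff]
  decide +kernel

/-- Membership in the normal subgroup of order 27: a Boolean test. -/
def inJ (a : W14) : Bool := decide (a.p = 1 ∧ sg a.q.1 = 1 ∧ sg a.q.2.1 = 1 ∧ sg a.q.2.2 = 1)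

/-- Elements of the subgroup generated. -/
def wrdJ (a b c : Fin 3) : W14 :=
  g1 ^ a.val * (g2 * g1 * g2⁻¹) ^ b.val * (g2 * g2 * g1 * g2⁻¹ * g2⁻¹) ^ c.val

/-- The words for the quotient by `J`. -/
def wrdV (v : Fin 4) (p : Fin 6) : W14 :=
  (if v = 0 then 1 else if v = 1 then g3 else if v = 2 then g2 * g3 * g2⁻¹ else g3 * (g2 * g3 * g2⁻¹)) *
  (g2 ^ (p.val % 3) * g4 ^ (p.val / 3))

theorem normal_form1 : ∀ k : W14, k ∈ KW → ∃ v : Fin 4, ∃ p : Fin 6, inJ (k * (wrdV v p)⁻¹) = true := by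
  decide +kernel

theorem normal_form2 : ∀ k : W14, inJ k = true → ∃ a b c : Fin 3, k = wrdJ a b c := by
  decide +kernel

/-- The listed subgroup of `Sym(9)`. -/
abbrev H14 : Subgroup (Equiv.Perm (Fin 9)) :=
  Subgroup.closure ({Equiv.swap (0 : Fin 9) 1 * Equiv.swap 1 2,
    Equiv.swap (0 : Fin 9) 3 * Equiv.swap 3 6 * (Equiv.swap (1 : Fin 9) 4 * Equiv.swap 4 7) * (Equiv.swap (2 : Fin 9) 5 * Equiv.swap 5 8),
    Equiv.swap (0 : Fin 9) 1 * Equiv.swap 3 4,
    Equiv.swap (0 : Fin 9) 3 * Equiv.swap 1 4 * Equiv.swap 2 5 * Equiv.swap 6 7} : Set (Equiv.Perm (Fin 9)))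

theorem H14_eq : H14 = (iot9W.comp KW.subtype).range := by
  apply le_antisymm
  · rw [Subgroup.closure_le]
    have m1 : g1 ∈ KW := by decide +kernel
    have m2 : g2 ∈ KW := by decide +kernel
    have m3 : g3 ∈ KW := by decide +kernel
    have m4 : g4 ∈ KW := by decide +kernel
    rintro x (rfl | rfl | rfl | rfl)
    · exact ⟨⟨g1, m1⟩, iot_g1⟩
    · exact ⟨⟨g2, m2⟩, iot_g2⟩
    · exact ⟨⟨g3, m3⟩, iot_g3⟩
    · exact ⟨⟨g4, m4⟩, iot_g4⟩
  · have m1 : iot9W g1 ∈ H14 := by
      rw [iot_g1]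
      exact Subgroup.subset_closure (by simp)
    have m2 : iot9W g2 ∈ H14 := by
      rw [iot_g2]
      exact Subgroup.subset_closure (by simp)
    have m3 : iot9W g3 ∈ H14 := by
      rw [iot_g3]
      exact Subgroup.subset_closure (by simp)
    have m4 : iot9W g4 ∈ H14 := by
      rw [iot_g4]
      exact Subgroup.subset_closure (by simp)
    have mJ : ∀ a b c : Fin 3, iot9W (wrdJ a b c) ∈ H14 := by
      intro a b c
      simp only [wrdJ, map_mul, map_pow, map_inv]
      refine H14.mul_mem (H14.mul_mem (H14.pow_mem m1 _) (H14.pow_mem ?_ _)) (H14.pow_mem ?_ _)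
      · exact H14.mul_mem (H14.mul_mem m2 m1) (H14.inv_mem m2)
      · exact H14.mul_mem (H14.mul_mem (H14.mul_mem (H14.mul_mem m2 m2) m1) (H14.inv_mem m2)) (H14.inv_mem m2)
    have mV : ∀ (v : Fin 4) (p : Fin 6), iot9W (wrdV v p) ∈ H14 := by
      intro v p
      rw [wrdV, map_mul]
      refine H14.mul_mem ?_ ?_
      · split_ifs
        · rw [map_one]
          exact H14.one_mem
        · exact m3
        · simp only [map_mul, map_inv]
          exact H14.mul_mem (H14.mul_mem m2 m3) (H14.inv_mem m2)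
        · simp only [map_mul, map_inv]
          exact H14.mul_mem m3 (H14.mul_mem (H14.mul_mem m2 m3) (H14.inv_mem m2))
      · rw [map_mul, map_pow, map_pow]
        exact H14.mul_mem (H14.pow_mem m2 _) (H14.pow_mem m4 _)
    rintro x ⟨k, rfl⟩
    obtain ⟨v, p, h1⟩ := normal_form1 k.1 k.2
    obtain ⟨a, b, c, h2⟩ := normal_form2 _ h1
    have h3 : k.1 = wrdJ a b c * wrdV v p := by
      rw [← h2]
      group
    show iot9W k.1 ∈ H14
    rw [h3, map_mul]
    exact H14.mul_mem (mJ a b c) (mV v p)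

/-- The isomorphism with the model. -/
theorem H14_equiv : Nonempty (H14 ≃* E14) := by
  have hinj : Function.Injective (iot9W.comp KW.subtype) := by
    intro a b hab
    exact Subtype.ext (iot9W_inj hab)
  exact ⟨(MulEquiv.subgroupCongr H14_eq).trans (MonoidHom.ofInjective hinj).symm⟩

end Cfsg.Agent.Lib.Recog14
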