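import Mathlib
import Cfsg.Agent.Lib.Recog14.Model1
import Cfsg.Agent.Lib.Recog13.Model4

/-!
# The group of order 648: classes and class functions
-/

set_option autoImplicit false

namespace Cfsg.Agent.Lib.Recog14

open DihedralGroup Cfsg Cfsg.Agent.Lib.Recog13 Cfsg.Agent.Lib.Char.Virtual
open scoped ComplexConjugate

/-- The coordinate fixed by a reflection. -/
def fixI : D3 → Fin 3
  | r _ => 0
  | sr j => j

/-- The weight of a triple. -/
def wtQ (q : Q3) : ℕ :=
  (if q.1 = 1 then 0 else 1) + (if q.2.1 = 1 then 0 else 1) + (if q.2.2 = 1 then 0 else 1)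

/-- The index of the conjugacy class. -/
def cl (k : W14) : Fin 14 :=
  if k.p = 1 then
    if inJ k then
      (if wtQ k.q = 0 then 0 else if wtQ k.q = 1 then 5 else if wtQ k.q = 2 then 12 else 13)
    else if k * k = 1 then 1 else 6
  else if sg k.p = -1 then
    if sg (cd (fixI k.p) k.q) = -1 then (if k * k = 1 then 3 else 7)
    else
      if kap (cd (fixI k.p) (k * k * k * k).q) = 0 then 2
      else if kap (cd (fixI k.p) (k * k * k * k).q) * sg (cd (fixI k.p + 1) k.q) = 1 then 8 else 9
  else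
    if k * k * k = 1 then 4
    else if kap (k * k * k).q.1 * kap (k * k * k).q.2.1 * kap (k * k * k).q.2.2 *
        (if k.p = r 1 then 1 else -1) = 1 then 10 else 11

/-- The sizes of the classes. -/
def szC : Fin 14 → ℤ := ![1, 27, 54, 54, 72, 6, 54, 108, 54, 54, 72, 72, 12, 8]

theorem cl_card : ∀ c : Fin 14,
    (((Finset.univ.filter (fun k : E14 => cl k.1 = c)).card : ℕ) : ℤ) = szC c := by
  decide +kernel

/-- The square root of 3. -/
noncomputable def sq3 : ℂ := ((Real.sqrt 3 : ℝ) : ℂ)

theorem sq3_sq : sq3 * sq3 = 3 := by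
  rw [sq3, ← Complex.ofReal_mul, Real.mul_self_sqrt (by norm_num)]
  norm_num

theorem sq3_conj : conj sq3 = sq3 := Complex.conj_ofReal _

/-- The class functions with values `A + √3 B`. -/
noncomputable def chi (A B : Fin 14 → ℤ) (k : E14) : ℂ := (A (cl k.1) : ℂ) + sq3 * (B (cl k.1) : ℂ)

theorem sum_cl (F : Fin 14 → ℂ) : ∑ k : E14, F (cl k.1) = ∑ c, (szC c : ℂ) * F c := by
  classical
  have h1 : ∀ k : E14, F (cl k.1) = ∑ c, if cl k.1 = c then F c else 0 := by
    intro k
    rw [Finset.sum_ite_eq]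
    simp
  simp only [h1]
  rw [Finset.sum_comm]
  refine Finset.sum_congr rfl fun c _ => ?_
  rw [Finset.sum_ite, Finset.sum_const_zero, add_zero, Finset.sum_const, nsmul_eq_mul, ← cl_card c]
  push_cast
  rfl

/-- The Gram form, rational part. -/
def gramZ (A B A' B' : Fin 14 → ℤ) : ℤ := ∑ c, szC c * (A c * A' c + 3 * (B c * B' c))
/-- The Gram form, irrational part. -/
def gramW (A B A' B' : Fin 14 → ℤ) : ℤ := ∑ c, szC c * (B c * A' c + A c * B' c)

theorem inner_chi (A B A' B' : Fin 14 → ℤ) :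
    classInner (chi A B) (chi A' B') = ((gramZ A B A' B' : ℤ) : ℂ) / 648 +
      sq3 * ((gramW A B A' B' : ℤ) : ℂ) / 648 := by
  rw [classInner, natCard_E14]
  let F : Fin 14 → ℂ := fun c => ((A c * A' c + 3 * (B c * B' c) : ℤ) : ℂ) + sq3 * ((B c * A' c + A c * B' c : ℤ) : ℂ)
  have h : ∀ k : E14, chi A B k * conj (chi A' B' k) = F (cl k.1) := by
    intro k
    simp only [F, chi, map_add, map_mul, sq3_conj, map_intCast]
    push_cast
    linear_combination ((B (cl k.1) : ℂ) * (B' (cl k.1) : ℂ)) * sq3_sq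
  rw [Finset.sum_congr rfl (fun k _ => h k), sum_cl, gramZ, gramW]
  simp only [F]
  push_cast
  simp only [Finset.mul_sum, Finset.sum_div]
  rw [← Finset.sum_add_distrib]
  refine Finset.sum_congr rfl fun c _ => ?_
  ring

theorem chi_add (A B A' B' : Fin 14 → ℤ) : chi (A + A') (B + B') = chi A B + chi A' B' := by
  funext k
  simp only [chi, Pi.add_apply]
  push_cast
  ring

theorem chi_sub (A B A' B' : Fin 14 → ℤ) : chi (A - A') (B - B') = chi A B - chi A' B' := by
  funext k
  simp only [chi, Pi.sub_apply]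
  push_cast
  ring

theorem chi_mul_real (S A B : Fin 14 → ℤ) : chi (S * A) (S * B) = chi S 0 * chi A B := by
  funext k
  simp only [chi, Pi.mul_apply, Pi.zero_apply]
  push_cast
  ring

end Cfsg.Agent.Lib.Recog14
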