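import Mathlib
import Cfsg.Agent.Lib.Recog14.Model2

/-!
# The group of order 648: induced characters from coset representatives
-/

set_option autoImplicit false

namespace Cfsg.Agent.Lib.Recog14

open DihedralGroup Cfsg Cfsg.Agent.Lib.Recog13 Cfsg.Agent.Lib.Char.Virtual Cfsg.Agent.Lib.Char.Basic
open scoped ComplexConjugate

/-- Real part of the powers of `i`. -/
def iA (a : ZMod 4) : ℤ := if a = 0 then 1 else if a = 2 then -1 else 0
/-- Imaginary part of the powers of `i`. -/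
def iB (a : ZMod 4) : ℤ := if a = 1 then 1 else if a = 3 then -1 else 0

/-- Powers of `i`. -/
noncomputable def iZ (a : ZMod 4) : ℂ := (iA a : ℂ) + (iB a : ℂ) * Complex.I

theorem i_table : ∀ a b : ZMod 4, iA (a + b) = iA a * iA b - iB a * iB b ∧
    iB (a + b) = iA a * iB b + iB a * iA b := by decide

theorem iZ_add (a b : ZMod 4) : iZ (a + b) = iZ a * iZ b := by
  obtain ⟨h1, h2⟩ := i_table a b
  simp only [iZ, h1, h2]
  push_cast
  linear_combination (-(iB a : ℂ) * (iB b : ℂ)) * Complex.I_mul_I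

theorem iZ_zero : iZ 0 = 1 := by
  have h1 : iA 0 = 1 := by decide
  have h2 : iB 0 = 0 := by decide
  simp [iZ, h1, h2]

/-- Coordinates of cube roots of unity in the basis `1, ω`. -/
def oA (a : ZMod 3) : ℤ := if a = 0 then 1 else if a = 1 then 0 else -1
/-- Coordinates of cube roots of unity in the basis `1, ω`. -/
def oB (a : ZMod 3) : ℤ := if a = 0 then 0 else if a = 1 then 1 else -1

theorem wZ_eq : ∀ a : ZMod 3, wZ a = (oA a : ℂ) + (oB a : ℂ) * wZ 1 := by
  have h : ∀ a : ZMod 3, wA a = 2 * oA a - oB a ∧ wB a = oB a := by decide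
  have h1 : wA 1 = -1 ∧ wB 1 = 1 := by decide
  intro a
  obtain ⟨h2, h3⟩ := h a
  simp only [wZ, h2, h3, h1.1, h1.2]
  push_cast
  ring

/-- The coordinates of `ω^t i^d`. -/
def uvec (t : ZMod 3) (d : ZMod 4) : ℤ × ℤ × ℤ × ℤ :=
  (oA t * iA d, oB t * iA d, oA t * iB d, oB t * iB d)

/-- The value of coordinates. -/
noncomputable def evalV (v : ℤ × ℤ × ℤ × ℤ) : ℂ :=
  (v.1 : ℂ) + (v.2.1 : ℂ) * wZ 1 + (v.2.2.1 : ℂ) * Complex.I + (v.2.2.2 : ℂ) * (Complex.I * wZ 1)

theorem evalV_add (v v' : ℤ × ℤ × ℤ × ℤ) : evalV (v + v') = evalV v + evalV v' := by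
  simp only [evalV, Prod.fst_add, Prod.snd_add]
  push_cast
  ring

theorem evalV_zero : evalV 0 = 0 := by
  simp [evalV]

theorem evalV_sum {ι : Type*} (s : Finset ι) (f : ι → ℤ × ℤ × ℤ × ℤ) :
    evalV (∑ i ∈ s, f i) = ∑ i ∈ s, evalV (f i) := by
  classical
  induction s using Finset.induction_on with
  | empty => simp [evalV_zero]
  | insert a s ha ih => rw [Finset.sum_insert ha, Finset.sum_insert ha, evalV_add, ih]

theorem evalV_uvec (t : ZMod 3) (d : ZMod 4) : evalV (uvec t d) = wZ t * iZ d := by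
  rw [wZ_eq t]
  simp only [evalV, uvec, iZ]
  push_cast
  ring

theorem sq3_eq : sq3 = -Complex.I * s3 := by
  apply Complex.ext <;> simp [sq3, s3]

theorem evalV_target (A B : ℤ) : evalV (A, 0, -B, -2 * B) = (A : ℂ) + sq3 * (B : ℂ) := by
  have h1 : wZ 1 = (-1 + s3) / 2 := by
    have h2 : wA 1 = -1 ∧ wB 1 = 1 := by decide
    simp only [wZ, h2.1, h2.2]
    push_cast
    ring
  simp only [evalV, sq3_eq, h1]
  push_cast
  ring

/-- Sums over a transversal. -/
theorem sum_transversal {A : Type*} [Group A] [Fintype A] (T : Subgroup A) [Fintype T] {n : ℕ}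
    (reps : Fin n → A) (hsurj : ∀ x : A, ∃ l, (reps l)⁻¹ * x ∈ T)
    (hn : n * Fintype.card T = Fintype.card A) (F : A → ℂ) (hF : ∀ x, ∀ s ∈ T, F (x * s) = F x) :
    ∑ x, F x = (Fintype.card T : ℂ) * ∑ l, F (reps l) := by
  let Ψ : Fin n × T → A := fun a => reps a.1 * a.2
  have hs : Function.Surjective Ψ := by
    intro x
    obtain ⟨l, hl⟩ := hsurj x
    exact ⟨(l, ⟨_, hl⟩), by simp [Ψ]⟩
  have hb : Function.Bijective Ψ := by
    refine (Fintype.bijective_iff_surjective_and_card Ψ).2 ⟨hs, ?_⟩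
    rw [Fintype.card_prod, Fintype.card_fin, hn]
  rw [← hb.sum_comp F, Fintype.sum_prod_type, Finset.mul_sum]
  refine Finset.sum_congr rfl fun l _ => ?_
  simp only [Ψ]
  rw [Finset.sum_congr rfl (fun s _ => hF (reps l) s.1 s.2)]
  simp

/-- Characters induced from linear characters, computed from a transversal. -/
theorem isGen_chi_of_ind (T : Subgroup E14) (m : W14 → Bool) (hT : ∀ x : E14, x ∈ T ↔ m x.1 = true)
    (t : W14 → ZMod 3) (d : W14 → ZMod 4) (h1 : t 1 = 0 ∧ d 1 = 0)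
    (hom : ∀ x y : E14, x ∈ T → y ∈ T → t (x * y).1 = t x.1 + t y.1 ∧ d (x * y).1 = d x.1 + d y.1)
    {n : ℕ} (reps : Fin n → W14) (hreps : ∀ l, evnW (reps l) = true)
    (hsurj : ∀ x : W14, evnW x = true → ∃ l, m ((reps l)⁻¹ * x) = true)
    (hn : n * Nat.card T = 648) (A B : Fin 14 → ℤ)
    (tab : ∀ k : W14, evnW k = true → (∑ l, (if m ((reps l)⁻¹ * k * reps l) = true then
        uvec (t ((reps l)⁻¹ * k * reps l)) (d ((reps l)⁻¹ * k * reps l)) else 0)) =
      (A (cl k), 0, -B (cl k), -2 * B (cl k))) :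
    IsGeneralizedCharacter E14 (chi A B) := by
  classical
  haveI : Fintype T := Fintype.ofFinite _
  let g : T →* ℂ :=
    { toFun := fun x => wZ (t x.1.1) * iZ (d x.1.1)
      map_one' := by
        show wZ (t 1) * iZ (d 1) = 1
        rw [h1.1, h1.2, wZ_zero, iZ_zero, one_mul]
      map_mul' := by
        intro x y
        obtain ⟨h2, h3⟩ := hom x.1 y.1 x.2 y.2
        show wZ (t (x.1 * y.1).1) * iZ (d (x.1 * y.1).1) = _
        rw [h2, h3, wZ_add, iZ_add]
        ring }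
  have hchar : IsCharacter T (fun x => wZ (t x.1.1) * iZ (d x.1.1)) := by
    have h := Cfsg.Agent.Lib.Char.LinearChars.isIrr_of_hom (MonoidHom.toHomUnits g)
    have h2 : (fun x : T => ((MonoidHom.toHomUnits g x : ℂˣ) : ℂ)) =
        (fun x => wZ (t x.1.1) * iZ (d x.1.1)) := by
      funext x
      simp only [MonoidHom.coe_toHomUnits]
      rfl
    rw [h2] at h
    exact isCharacter_of_isIrrCharacter h
  have hind := Cfsg.Agent.Lib.Char.IndRep.isCharacter_indFun T hchar
  have hg : ∀ (y : E14) (s : T) (hy : y ∈ T) (hy' : (s : E14)⁻¹ * y * s ∈ T),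
      wZ (t ((s : E14)⁻¹ * y * s).1) * iZ (d ((s : E14)⁻¹ * y * s).1) =
        wZ (t y.1) * iZ (d y.1) := by
    intro y s hy hy'
    have h2 : g (s⁻¹ * ⟨y, hy⟩ * s) = g ⟨y, hy⟩ := by
      rw [map_mul, map_mul, mul_comm, ← mul_assoc, ← map_mul, mul_inv_cancel, map_one, one_mul]
    exact h2
  let F : E14 → E14 → ℂ := fun k x => extendByZero T (fun x => wZ (t x.1.1) * iZ (d x.1.1)) (x⁻¹ * k * x)
  have hF : ∀ k x, ∀ s ∈ T, F k (x * s) = F k x := by
    intro k x s hs
    simp only [F]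
    have h3 : (x * s)⁻¹ * k * (x * s) = (⟨s, hs⟩ : T).1⁻¹ * (x⁻¹ * k * x) * (⟨s, hs⟩ : T).1 := by
      group
    rw [h3]
    by_cases hy : x⁻¹ * k * x ∈ T
    · have hy' : (⟨s, hs⟩ : T).1⁻¹ * (x⁻¹ * k * x) * (⟨s, hs⟩ : T).1 ∈ T :=
        T.mul_mem (T.mul_mem (T.inv_mem hs) hy) hs
      rw [Cfsg.Agent.Lib.Char.Induced.extendByZero_of_mem T _ hy',
        Cfsg.Agent.Lib.Char.Induced.extendByZero_of_mem T _ hy]
      exact hg _ _ hy hy'
    · have hy' : (⟨s, hs⟩ : T).1⁻¹ * (x⁻¹ * k * x) * (⟨s, hs⟩ : T).1 ∉ T := by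
        intro h4
        apply hy
        have h5 := T.mul_mem (T.mul_mem hs h4) (T.inv_mem hs)
        have h6 : s * ((⟨s, hs⟩ : T).1⁻¹ * (x⁻¹ * k * x) * (⟨s, hs⟩ : T).1) * s⁻¹ = x⁻¹ * k * x := by
          simp only
          group
        rwa [h6] at h5
      rw [Cfsg.Agent.Lib.Char.Induced.extendByZero_of_notMem T _ hy',
        Cfsg.Agent.Lib.Char.Induced.extendByZero_of_notMem T _ hy]
  have hval : ∀ y : E14, extendByZero T (fun x => wZ (t x.1.1) * iZ (d x.1.1)) y =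
      evalV (if m y.1 = true then uvec (t y.1) (d y.1) else 0) := by
    intro y
    by_cases hy : y ∈ T
    · rw [Cfsg.Agent.Lib.Char.Induced.extendByZero_of_mem T _ hy, if_pos ((hT y).mp hy), evalV_uvec]
    · have hy2 : ¬ m y.1 = true := fun h => hy ((hT y).mpr h)
      rw [Cfsg.Agent.Lib.Char.Induced.extendByZero_of_notMem T _ hy, if_neg hy2, evalV_zero]
  let reps' : Fin n → E14 := fun l => ⟨reps l, hreps l⟩
  have hcardT : n * Fintype.card T = Fintype.card E14 := by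
    rw [card_E14, ← hn, Nat.card_eq_fintype_card]
  have hEq : chi A B = indFun T (fun x => wZ (t x.1.1) * iZ (d x.1.1)) := by
    funext k
    rw [Cfsg.Agent.Lib.Char.Induced.indFun_apply]
    have hs := sum_transversal T reps' (by
      intro x
      obtain ⟨l, hl⟩ := hsurj x.1 x.2
      exact ⟨l, (hT _).mpr hl⟩) hcardT (F k) (hF k)
    have hcard : (Fintype.card T : ℂ) ≠ 0 := by
      exact_mod_cast Fintype.card_ne_zero
    rw [Nat.card_eq_fintype_card]
    show _ = (Fintype.card T : ℂ)⁻¹ * ∑ x, F k x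
    rw [hs, ← mul_assoc, inv_mul_cancel₀ hcard, one_mul]
    simp only [F, hval]
    rw [← evalV_sum]
    have h7 := tab k.1 k.2
    have h8 : (∑ l, (if m ((reps' l)⁻¹ * k * reps' l).1 = true then
        uvec (t ((reps' l)⁻¹ * k * reps' l).1) (d ((reps' l)⁻¹ * k * reps' l).1) else 0)) =
      (A (cl k.1), 0, -B (cl k.1), -2 * B (cl k.1)) := h7
    rw [h8, evalV_target]
    rfl
  rw [hEq]
  exact isGeneralized_char hind

end Cfsg.Agent.Lib.Recog14
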