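import Mathlib
import Cfsg.Agent.Lib.Recog14.Model3

/-!
# The group of order 648: the induced characters
-/

set_option autoImplicit false

namespace Cfsg.Agent.Lib.Recog14

open DihedralGroup Cfsg Cfsg.Agent.Lib.Recog13 Cfsg.Agent.Lib.Char.Virtual Cfsg.Agent.Lib.Char.Basic
open scoped ComplexConjugate

/-- The value tables. -/
def tOne : Fin 14 → ℤ := ![1, 1, 1, 1, 1, 1, 1, 1, 1, 1, 1, 1, 1, 1]
/-- The sign. -/
def tS : Fin 14 → ℤ := ![1, 1, -1, -1, 1, 1, 1, -1, -1, -1, 1, 1, 1, 1]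
/-- Degree 2. -/
def tMu : Fin 14 → ℤ := ![2, 2, 0, 0, -1, 2, 2, 0, 0, 0, -1, -1, 2, 2]
/-- Degree 3. -/
def tTau : Fin 14 → ℤ := ![3, -1, 1, -1, 0, 3, -1, -1, 1, 1, 0, 0, 3, 3]
/-- Degree 6, rational. -/
def tTh0 : Fin 14 → ℤ := ![6, 2, 2, 0, 0, 3, -1, 0, -1, -1, 0, 0, 0, -3]
/-- Degree 6, with irrationalities: rational part. -/
def tTh1A : Fin 14 → ℤ := ![6, -2, 0, 0, 0, 3, 1, 0, 0, 0, 0, 0, 0, -3]
/-- Degree 6, with irrationalities: part in `√3`. -/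
def tTh1B : Fin 14 → ℤ := ![0, 0, 0, 0, 0, 0, 0, 0, -1, 1, 0, 0, 0, 0]
/-- Degree 12. -/
def tPhi : Fin 14 → ℤ := ![12, 0, 0, 2, 0, 0, 0, -1, 0, 0, 0, 0, -3, 3]
/-- Degree 8. -/
def tPs1 : Fin 14 → ℤ := ![8, 0, 0, 0, -1, -4, 0, 0, 0, 0, -1, 2, 2, -1]
/-- Degree 8. -/
def tPs2 : Fin 14 → ℤ := ![8, 0, 0, 0, -1, -4, 0, 0, 0, 0, 2, -1, 2, -1]

/-- The coordinates of the product. -/
theorem cd_w_mul (x y : W14) (i : Fin 3) : cd i (x * y).q = cd i x.q * cd (pf x.p⁻¹ i) y.q := by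
  rw [w_mul_q, cd_mul, cd_tw]

/-- The subgroup `T₃` of order 81. -/
def mT3 (x : W14) : Bool := (sg x.q.1 == 1) && (sg x.q.2.1 == 1) && (sg x.q.2.2 == 1) && (sg x.p == 1)

theorem mT3_iff (x : W14) : mT3 x = true ↔ (∀ i, sg (cd i x.q) = 1) ∧ sg x.p = 1 := by
  simp only [mT3, Bool.and_eq_true, beq_iff_eq]
  constructor
  · rintro ⟨⟨⟨h0, h1⟩, h2⟩, h3⟩
    refine ⟨fun i => ?_, h3⟩
    fin_cases i
    · exact h0
    · exact h1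
    · exact h2
  · rintro ⟨h, h3⟩
    exact ⟨⟨⟨h 0, h 1⟩, h 2⟩, h3⟩

theorem sg_inv' (p : D3) : sg p⁻¹ = sg p := sg_inv p

/-- The subgroup `T₃` of order 81. -/
def T3 : Subgroup E14 where
  carrier := {x | mT3 x.1 = true}
  mul_mem' := by
    intro a b ha hb
    simp only [Set.mem_ofPred_eq, mT3_iff] at ha hb ⊢
    refine ⟨fun i => ?_, ?_⟩
    · show sg (cd i (a.1 * b.1).q) = 1
      rw [cd_w_mul, sg_mul, ha.1, hb.1]
      norm_num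
    · show sg (a.1 * b.1).p = 1
      rw [w_mul_p, sg_mul, ha.2, hb.2]
      norm_num
  one_mem' := by decide +kernel
  inv_mem' := by
    intro a ha
    simp only [Set.mem_ofPred_eq, mT3_iff] at ha ⊢
    refine ⟨fun i => ?_, ?_⟩
    · show sg (cd i (a.1⁻¹).q) = 1
      rw [w_inv_q, cd_tw]
      have h2 : ∀ (j : Fin 3), cd j a.1.q⁻¹ = (cd j a.1.q)⁻¹ := by
        intro j
        fin_cases j <;> rfl
      rw [h2, sg_inv, ha.1]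
    · show sg (a.1⁻¹).p = 1
      rw [w_inv_p, sg_inv, ha.2]

theorem mem_T3_iff (x : E14) : x ∈ T3 ↔ mT3 x.1 = true := Iff.rfl

/-- The exponent. -/
def tT3 (e : ZMod 3) (x : W14) : ZMod 3 := rotIdx x.q.1 + rotIdx x.q.2.1 + rotIdx x.q.2.2 + e * rotIdx x.p

theorem sum_perm_idx : ∀ (p : D3) (a : Fin 3 → ZMod 3),
    a (pf p⁻¹ 0) + a (pf p⁻¹ 1) + a (pf p⁻¹ 2) = a 0 + a 1 + a 2 := by
  intro p a
  have h : ∀ p : D3, (pf p⁻¹ 0 = 0 ∧ pf p⁻¹ 1 = 1 ∧ pf p⁻¹ 2 = 2) ∨ (pf p⁻¹ 0 = 0 ∧ pf p⁻¹ 1 = 2 ∧ pf p⁻¹ 2 = 1) ∨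
      (pf p⁻¹ 0 = 1 ∧ pf p⁻¹ 1 = 0 ∧ pf p⁻¹ 2 = 2) ∨ (pf p⁻¹ 0 = 1 ∧ pf p⁻¹ 1 = 2 ∧ pf p⁻¹ 2 = 0) ∨
      (pf p⁻¹ 0 = 2 ∧ pf p⁻¹ 1 = 0 ∧ pf p⁻¹ 2 = 1) ∨ (pf p⁻¹ 0 = 2 ∧ pf p⁻¹ 1 = 1 ∧ pf p⁻¹ 2 = 0) := by
    decide +kernel
  rcases h p with ⟨h0, h1, h2⟩ | ⟨h0, h1, h2⟩ | ⟨h0, h1, h2⟩ | ⟨h0, h1, h2⟩ | ⟨h0, h1, h2⟩ | ⟨h0, h1, h2⟩ <;>
    rw [h0, h1, h2] <;> ring

theorem tT3_hom (e : ZMod 3) (x y : E14) (hx : x ∈ T3) (hy : y ∈ T3) :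
    tT3 e (x * y).1 = tT3 e x.1 + tT3 e y.1 := by
  rw [mem_T3_iff, mT3_iff] at hx hy
  have h0 : ∀ i : Fin 3, rotIdx (cd i (x.1 * y.1).q) = rotIdx (cd i x.1.q) + rotIdx (cd (pf x.1.p⁻¹ i) y.1.q) := by
    intro i
    rw [cd_w_mul, rotIdx_mul _ _ (hx.1 i) (hy.1 _)]
  have h1 : rotIdx (x.1 * y.1).p = rotIdx x.1.p + rotIdx y.1.p := by
    rw [w_mul_p, rotIdx_mul _ _ hx.2 hy.2]
  have h2 := sum_perm_idx x.1.p (fun i => rotIdx (cd i y.1.q))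
  have a0 := h0 0
  have a1 := h0 1
  have a2 := h0 2
  show rotIdx (x.1 * y.1).q.1 + rotIdx (x.1 * y.1).q.2.1 + rotIdx (x.1 * y.1).q.2.2 + e * rotIdx (x.1 * y.1).p = _
  have a0' : rotIdx (x.1 * y.1).q.1 = rotIdx x.1.q.1 + rotIdx (cd (pf x.1.p⁻¹ 0) y.1.q) := a0
  have a1' : rotIdx (x.1 * y.1).q.2.1 = rotIdx x.1.q.2.1 + rotIdx (cd (pf x.1.p⁻¹ 1) y.1.q) := a1
  have a2' : rotIdx (x.1 * y.1).q.2.2 = rotIdx x.1.q.2.2 + rotIdx (cd (pf x.1.p⁻¹ 2) y.1.q) := a2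
  have h2' : rotIdx (cd (pf x.1.p⁻¹ 0) y.1.q) + rotIdx (cd (pf x.1.p⁻¹ 1) y.1.q) + rotIdx (cd (pf x.1.p⁻¹ 2) y.1.q) =
      rotIdx y.1.q.1 + rotIdx y.1.q.2.1 + rotIdx y.1.q.2.2 := h2
  rw [a0', a1', a2', h1]
  simp only [tT3]
  linear_combination h2'

/-- Coset representatives for `T₃`. -/
def rT3 : Fin 8 → W14 := ![⟨(1, 1, 1), 1⟩, ⟨(1, 1, sr 0), sr 0⟩, ⟨(1, sr 0, 1), sr 0⟩, ⟨(sr 0, 1, 1), sr 0⟩,
  ⟨(1, sr 0, sr 0), 1⟩, ⟨(sr 0, 1, sr 0), 1⟩, ⟨(sr 0, sr 0, 1), 1⟩, ⟨(sr 0, sr 0, sr 0), sr 0⟩]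

theorem rT3_even : ∀ l, evnW (rT3 l) = true := by decide +kernel

theorem rT3_surj : ∀ x : W14, evnW x = true → ∃ l, mT3 ((rT3 l)⁻¹ * x) = true := by decide +kernel

theorem card_T3 : Nat.card T3 = 81 := by
  classical
  have h : ∀ x : E14, mT3 x.1 = true ↔ x ∈ T3 := fun _ => Iff.rfl
  rw [Nat.card_eq_fintype_card, Fintype.card_subtype]
  have h2 : (Finset.univ.filter (fun x : E14 => x ∈ T3)) = Finset.univ.filter (fun x : E14 => mT3 x.1 = true) := by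
    ext x
    simp only [Finset.mem_filter, Finset.mem_univ, true_and]
    exact Iff.rfl
  rw [h2]
  decide +kernel

theorem tab_ps1 : ∀ k : W14, evnW k = true → (∑ l, (if mT3 ((rT3 l)⁻¹ * k * rT3 l) = true then
        uvec (tT3 1 ((rT3 l)⁻¹ * k * rT3 l)) 0 else 0)) =
      (tPs1 (cl k), 0, -(0 : Fin 14 → ℤ) (cl k), -2 * (0 : Fin 14 → ℤ) (cl k)) := by
  decide +kernel

theorem tab_ps2 : ∀ k : W14, evnW k = true → (∑ l, (if mT3 ((rT3 l)⁻¹ * k * rT3 l) = true then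
        uvec (tT3 2 ((rT3 l)⁻¹ * k * rT3 l)) 0 else 0)) =
      (tPs2 (cl k), 0, -(0 : Fin 14 → ℤ) (cl k), -2 * (0 : Fin 14 → ℤ) (cl k)) := by
  decide +kernel

theorem d1_T3 : (fun _ : W14 => (0 : ZMod 4)) 1 = 0 := rfl

theorem isGen_ps (e : ZMod 3) (A : Fin 14 → ℤ)
    (tab : ∀ k : W14, evnW k = true → (∑ l, (if mT3 ((rT3 l)⁻¹ * k * rT3 l) = true then
        uvec (tT3 e ((rT3 l)⁻¹ * k * rT3 l)) 0 else 0)) =
      (A (cl k), 0, -(0 : Fin 14 → ℤ) (cl k), -2 * (0 : Fin 14 → ℤ) (cl k))) :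
    IsGeneralizedCharacter E14 (chi A 0) := by
  have h1 : tT3 e 1 = 0 := by
    have h2 : rotIdx (1 : D3) = 0 := rfl
    simp only [tT3]
    have h3 : (1 : W14).q.1 = 1 := rfl
    have h4 : (1 : W14).q.2.1 = 1 := rfl
    have h5 : (1 : W14).q.2.2 = 1 := rfl
    have h6 : (1 : W14).p = 1 := rfl
    rw [h3, h4, h5, h6, h2]
    ring
  exact isGen_chi_of_ind T3 mT3 (fun _ => Iff.rfl) (tT3 e) (fun _ => 0) ⟨h1, rfl⟩
    (fun x y hx hy => ⟨tT3_hom e x y hx hy, by simp⟩) rT3 rT3_even rT3_surj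
    (by rw [card_T3]) A 0 tab

theorem isGen_tPs1 : IsGeneralizedCharacter E14 (chi tPs1 0) := isGen_ps 1 tPs1 tab_ps1
theorem isGen_tPs2 : IsGeneralizedCharacter E14 (chi tPs2 0) := isGen_ps 2 tPs2 tab_ps2

/-- A subgroup from a multiplicatively closed predicate. -/
def mkSub14 (m : W14 → Bool) (h1 : m 1 = true)
    (hmul : ∀ x y : E14, m x.1 = true → m y.1 = true → m (x * y).1 = true) : Subgroup E14 where
  carrier := {x | m x.1 = true}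
  mul_mem' := fun {a b} ha hb => hmul a b ha hb
  one_mem' := h1
  inv_mem' := by
    intro x hx
    have hp : ∀ n : ℕ, m (x ^ n).1 = true := by
      intro n
      induction n with
      | zero => exact h1
      | succ n ih =>
        rw [pow_succ]
        exact hmul _ _ ih hx
    have h2 : x⁻¹ = x ^ (orderOf x - 1) := by
      have h3 : x ^ (orderOf x - 1) * x = 1 := by
        rw [← pow_succ, Nat.sub_add_cancel (orderOf_pos x), pow_orderOf_eq_one]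
      exact (eq_inv_of_mul_eq_one_left h3).symm
    show m (x⁻¹).1 = true
    rw [h2]
    exact hp _

theorem pf_inv_zero : ∀ p : D3, pf p 0 = 0 → pf p⁻¹ 0 = 0 := by decide +kernel

/-- The subgroup fixing the first block. -/
def mTau (x : W14) : Bool := pf x.p 0 == 0
/-- The exponent. -/
def dTau (x : W14) : ZMod 4 := if sg x.q.1 = 1 then 0 else 2

theorem dTau_table : ∀ a b : D3, (if sg (a * b) = 1 then (0 : ZMod 4) else 2) =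
    (if sg a = 1 then (0 : ZMod 4) else 2) + (if sg b = 1 then (0 : ZMod 4) else 2) := by decide +kernel

theorem mTau_iff (x : W14) : mTau x = true ↔ pf x.p 0 = 0 := by
  simp [mTau]

/-- The subgroup fixing the first block. -/
def Tau : Subgroup E14 := mkSub14 mTau (by decide +kernel) (by
  intro x y hx hy
  rw [mTau_iff] at hx hy ⊢
  show pf (x.1 * y.1).p 0 = 0
  rw [w_mul_p, pf_mul, hy, hx])

theorem cd0_mul_of_fix (x y : W14) (hx : pf x.p 0 = 0) : (x * y).q.1 = x.q.1 * y.q.1 := by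
  have h := cd_w_mul x y 0
  rw [pf_inv_zero _ hx] at h
  exact h

/-- Coset representatives. -/
def rTau : Fin 3 → W14 := ![⟨(1, 1, 1), 1⟩, ⟨(1, 1, 1), r 1⟩, ⟨(1, 1, 1), r 2⟩]

theorem rTau_even : ∀ l, evnW (rTau l) = true := by decide +kernel

theorem rTau_surj : ∀ x : W14, evnW x = true → ∃ l, mTau ((rTau l)⁻¹ * x) = true := by decide +kernel

theorem tab_tau : ∀ k : W14, evnW k = true → (∑ l, (if mTau ((rTau l)⁻¹ * k * rTau l) = true then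
        uvec 0 (dTau ((rTau l)⁻¹ * k * rTau l)) else 0)) =
      (tTau (cl k), 0, -(0 : Fin 14 → ℤ) (cl k), -2 * (0 : Fin 14 → ℤ) (cl k)) := by
  decide +kernel

theorem card_sub (m : W14 → Bool) (T : Subgroup E14) (hT : ∀ x : E14, x ∈ T ↔ m x.1 = true) (c : ℕ)
    (h : (Finset.univ.filter (fun x : E14 => m x.1 = true)).card = c) : Nat.card T = c := by
  classical
  haveI : Fintype T := Fintype.ofFinite _
  rw [Nat.card_eq_fintype_card]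
  refine (Fintype.card_of_subtype _ ?_).trans h
  intro x
  simp only [Finset.mem_filter, Finset.mem_univ, true_and]
  exact (hT x).symm

theorem isGen_tTau : IsGeneralizedCharacter E14 (chi tTau 0) := by
  refine isGen_chi_of_ind Tau mTau (fun _ => Iff.rfl) (fun _ => 0) dTau ⟨rfl, by decide +kernel⟩ ?_ rTau rTau_even rTau_surj
    ?_ tTau 0 tab_tau
  · intro x y hx hy
    refine ⟨by simp, ?_⟩
    have hx' : mTau x.1 = true := hx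
    rw [mTau_iff] at hx'
    show (if sg (x.1 * y.1).q.1 = 1 then (0 : ZMod 4) else 2) = _
    rw [cd0_mul_of_fix _ _ hx', dTau_table]
    rfl
  · rw [card_sub mTau Tau (fun _ => Iff.rfl) 216 (by decide +kernel)]

/-- The subgroup of order 108. -/
def mT4 (x : W14) : Bool := (pf x.p 0 == 0) && (sg x.q.1 == 1)

theorem mT4_iff (x : W14) : mT4 x = true ↔ pf x.p 0 = 0 ∧ sg x.q.1 = 1 := by
  simp [mT4]

/-- The subgroup of order 108. -/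
def T4 : Subgroup E14 := mkSub14 mT4 (by decide +kernel) (by
  intro x y hx hy
  rw [mT4_iff] at hx hy ⊢
  refine ⟨?_, ?_⟩
  · show pf (x.1 * y.1).p 0 = 0
    rw [w_mul_p, pf_mul, hy.1, hx.1]
  · show sg (x.1 * y.1).q.1 = 1
    rw [cd0_mul_of_fix _ _ hx.1, sg_mul, hx.2, hy.2]
    norm_num)

/-- The exponent of `ω`. -/
def tT4 (x : W14) : ZMod 3 := rotIdx x.q.1
/-- The exponent of `i`. -/
def d4f (p a : D3) : ZMod 4 := (if p = 1 then 0 else 1) + (if sg a = 1 then 0 else 2)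
/-- The exponent of `i`. -/
def dT4 (x : W14) : ZMod 4 := d4f x.p x.q.2.1

theorem d4_table : ∀ p p' a b c : D3, pf p 0 = 0 → pf p' 0 = 0 → sg b * sg c * sg p' = 1 →
    d4f (p * p') (a * (if pf p⁻¹ 1 = 1 then b else c)) = d4f p a + d4f p' b := by
  decide +kernel

theorem pf_inv_one : ∀ p : D3, pf p 0 = 0 → pf p⁻¹ 1 = 1 ∨ pf p⁻¹ 1 = 2 := by decide +kernel

theorem dT4_hom (x y : E14) (hx : x ∈ T4) (hy : y ∈ T4) : dT4 (x * y).1 = dT4 x.1 + dT4 y.1 := by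
  have hx' : mT4 x.1 = true := hx
  have hy' : mT4 y.1 = true := hy
  rw [mT4_iff] at hx' hy'
  have hev : sgW y.1 = 1 := by
    have h := y.2
    rw [mem_KW_iff] at h
    simpa [evnW] using h
  have h0 := d4_table x.1.p y.1.p x.1.q.2.1 y.1.q.2.1 y.1.q.2.2 hx'.1 hy'.1 (by
    simp only [sgW] at hev
    rw [hy'.2] at hev
    linear_combination hev)
  have h1 : (x.1 * y.1).q.2.1 = x.1.q.2.1 * (if pf x.1.p⁻¹ 1 = 1 then y.1.q.2.1 else y.1.q.2.2) := by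
    have h2 := cd_w_mul x.1 y.1 1
    rcases pf_inv_one _ hx'.1 with h3 | h3
    · rw [h3] at h2
      rw [if_pos h3]
      exact h2
    · rw [h3] at h2
      rw [if_neg (by rw [h3]; decide)]
      exact h2
  show d4f (x.1 * y.1).p (x.1 * y.1).q.2.1 = _
  rw [h1, w_mul_p, h0]
  rfl

theorem tT4_hom (x y : E14) (hx : x ∈ T4) (hy : y ∈ T4) : tT4 (x * y).1 = tT4 x.1 + tT4 y.1 := by
  have hx' : mT4 x.1 = true := hx
  have hy' : mT4 y.1 = true := hy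
  rw [mT4_iff] at hx' hy'
  show rotIdx (x.1 * y.1).q.1 = _
  rw [cd0_mul_of_fix _ _ hx'.1, rotIdx_mul _ _ hx'.2 hy'.2]
  rfl

/-- Coset representatives. -/
def rT4 : Fin 6 → W14 := ![⟨(1, 1, 1), 1⟩, ⟨(1, 1, 1), r 1⟩, ⟨(1, 1, 1), r 2⟩, ⟨(1, 1, sr 0), sr 1⟩, ⟨(1, sr 0, 1), sr 2⟩, ⟨(sr 0, 1, 1), sr 0⟩]

theorem rT4_even : ∀ l, evnW (rT4 l) = true := by decide +kernel

theorem rT4_surj : ∀ x : W14, evnW x = true → ∃ l, mT4 ((rT4 l)⁻¹ * x) = true := by decide +kernel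

theorem tab_th0 : ∀ k : W14, evnW k = true → (∑ l, (if mT4 ((rT4 l)⁻¹ * k * rT4 l) = true then
        uvec (tT4 ((rT4 l)⁻¹ * k * rT4 l)) 0 else 0)) =
      (tTh0 (cl k), 0, -(0 : Fin 14 → ℤ) (cl k), -2 * (0 : Fin 14 → ℤ) (cl k)) := by
  decide +kernel

theorem tab_th1 : ∀ k : W14, evnW k = true → (∑ l, (if mT4 ((rT4 l)⁻¹ * k * rT4 l) = true then
        uvec (tT4 ((rT4 l)⁻¹ * k * rT4 l)) (dT4 ((rT4 l)⁻¹ * k * rT4 l)) else 0)) =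
      (tTh1A (cl k), 0, -tTh1B (cl k), -2 * tTh1B (cl k)) := by
  decide +kernel

theorem card_T4 : Nat.card T4 = 108 := card_sub mT4 T4 (fun _ => Iff.rfl) 108 (by decide +kernel)

theorem isGen_tTh0 : IsGeneralizedCharacter E14 (chi tTh0 0) :=
  isGen_chi_of_ind T4 mT4 (fun _ => Iff.rfl) tT4 (fun _ => 0) ⟨by decide +kernel, rfl⟩
    (fun x y hx hy => ⟨tT4_hom x y hx hy, by simp⟩) rT4 rT4_even rT4_surj (by rw [card_T4]) tTh0 0 tab_th0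

theorem isGen_tTh1 : IsGeneralizedCharacter E14 (chi tTh1A tTh1B) :=
  isGen_chi_of_ind T4 mT4 (fun _ => Iff.rfl) tT4 dT4 ⟨by decide +kernel, by decide +kernel⟩
    (fun x y hx hy => ⟨tT4_hom x y hx hy, dT4_hom x y hx hy⟩) rT4 rT4_even rT4_surj (by rw [card_T4])
    tTh1A tTh1B tab_th1

/-- The subgroup of order 54. -/
def mT2 (x : W14) : Bool := ((x.p == 1) || (x.p == sr 2)) && (sg x.q.1 == 1) && (sg x.q.2.1 == 1) && (sg x.q.2.2 == sg x.p)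

theorem mT2_iff (x : W14) : mT2 x = true ↔ (x.p = 1 ∨ x.p = sr 2) ∧ sg x.q.1 = 1 ∧ sg x.q.2.1 = 1 ∧ sg x.q.2.2 = sg x.p := by
  simp [mT2, and_assoc]

theorem t2_table : ∀ p : D3, (p = 1 ∨ p = sr 2) → (pf p⁻¹ 0 = 0 ∧ pf p⁻¹ 1 = 1 ∨ pf p⁻¹ 0 = 1 ∧ pf p⁻¹ 1 = 0) ∧ pf p⁻¹ 2 = 2 := by
  decide +kernel

theorem t2_mul : ∀ p p' : D3, (p = 1 ∨ p = sr 2) → (p' = 1 ∨ p' = sr 2) → (p * p' = 1 ∨ p * p' = sr 2) := by
  decide +kernel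

/-- The subgroup of order 54. -/
def T2 : Subgroup E14 := mkSub14 mT2 (by decide +kernel) (by
  intro x y hx hy
  rw [mT2_iff] at hx hy ⊢
  obtain ⟨h0, h1⟩ := t2_table _ hx.1
  have a0 := cd_w_mul x.1 y.1 0
  have a1 := cd_w_mul x.1 y.1 1
  have a2 := cd_w_mul x.1 y.1 2
  rw [h1] at a2
  refine ⟨t2_mul _ _ hx.1 hy.1, ?_, ?_, ?_⟩
  · show sg (cd 0 (x.1 * y.1).q) = 1
    rw [a0, sg_mul]
    rcases h0 with ⟨h2, _⟩ | ⟨h2, _⟩ <;> rw [h2]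
    · have h3 : sg (cd 0 x.1.q) = 1 := hx.2.1
      have h4 : sg (cd 0 y.1.q) = 1 := hy.2.1
      rw [h3, h4]
      norm_num
    · have h3 : sg (cd 0 x.1.q) = 1 := hx.2.1
      have h4 : sg (cd 1 y.1.q) = 1 := hy.2.2.1
      rw [h3, h4]
      norm_num
  · show sg (cd 1 (x.1 * y.1).q) = 1
    rw [a1, sg_mul]
    rcases h0 with ⟨_, h2⟩ | ⟨_, h2⟩ <;> rw [h2]
    · have h3 : sg (cd 1 x.1.q) = 1 := hx.2.2.1
      have h4 : sg (cd 1 y.1.q) = 1 := hy.2.2.1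
      rw [h3, h4]
      norm_num
    · have h3 : sg (cd 1 x.1.q) = 1 := hx.2.2.1
      have h4 : sg (cd 0 y.1.q) = 1 := hy.2.1
      rw [h3, h4]
      norm_num
  · show sg (cd 2 (x.1 * y.1).q) = sg (x.1 * y.1).p
    rw [a2, sg_mul, w_mul_p, sg_mul]
    have h3 : sg (cd 2 x.1.q) = sg x.1.p := hx.2.2.2
    have h4 : sg (cd 2 y.1.q) = sg y.1.p := hy.2.2.2
    rw [h3, h4])

/-- The exponent of `ω`. -/
def tT2 (x : W14) : ZMod 3 := rotIdx x.q.1 + rotIdx x.q.2.1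

theorem tT2_hom (x y : E14) (hx : x ∈ T2) (hy : y ∈ T2) : tT2 (x * y).1 = tT2 x.1 + tT2 y.1 := by
  have hx' : mT2 x.1 = true := hx
  have hy' : mT2 y.1 = true := hy
  rw [mT2_iff] at hx' hy'
  obtain ⟨h0, -⟩ := t2_table _ hx'.1
  have a0 := cd_w_mul x.1 y.1 0
  have a1 := cd_w_mul x.1 y.1 1
  have e0 : sg (cd 0 x.1.q) = 1 := hx'.2.1
  have e1 : sg (cd 1 x.1.q) = 1 := hx'.2.2.1
  have f0 : sg (cd 0 y.1.q) = 1 := hy'.2.1
  have f1 : sg (cd 1 y.1.q) = 1 := hy'.2.2.1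
  show rotIdx (cd 0 (x.1 * y.1).q) + rotIdx (cd 1 (x.1 * y.1).q) = (rotIdx (cd 0 x.1.q) + rotIdx (cd 1 x.1.q)) + (rotIdx (cd 0 y.1.q) + rotIdx (cd 1 y.1.q))
  rw [a0, a1]
  rcases h0 with ⟨h2, h3⟩ | ⟨h2, h3⟩ <;> rw [h2, h3]
  · rw [rotIdx_mul _ _ e0 f0, rotIdx_mul _ _ e1 f1]
    ring
  · rw [rotIdx_mul _ _ e0 f1, rotIdx_mul _ _ e1 f0]
    ring

/-- Coset representatives. -/
def rT2 : Fin 12 → W14 := ![⟨(1, 1, 1), 1⟩, ⟨(1, 1, 1), r 1⟩, ⟨(1, 1, 1), r 2⟩, ⟨(1, 1, sr 0), sr 0⟩, ⟨(1, 1, sr 0), sr 1⟩, ⟨(1, sr 0, 1), sr 1⟩, ⟨(1, sr 0, 1), sr 2⟩, ⟨(sr 0, 1, 1), sr 0⟩, ⟨(sr 0, 1, 1), sr 2⟩, ⟨(1, sr 0, sr 0), r 1⟩, ⟨(sr 0, 1, sr 0), r 2⟩, ⟨(sr 0, sr 0, 1), 1⟩]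

theorem rT2_even : ∀ l, evnW (rT2 l) = true := by decide +kernel

theorem rT2_surj : ∀ x : W14, evnW x = true → ∃ l, mT2 ((rT2 l)⁻¹ * x) = true := by decide +kernel

theorem tab_phi : ∀ k : W14, evnW k = true → (∑ l, (if mT2 ((rT2 l)⁻¹ * k * rT2 l) = true then
        uvec (tT2 ((rT2 l)⁻¹ * k * rT2 l)) 0 else 0)) =
      (tPhi (cl k), 0, -(0 : Fin 14 → ℤ) (cl k), -2 * (0 : Fin 14 → ℤ) (cl k)) := by
  decide +kernel

theorem isGen_tPhi : IsGeneralizedCharacter E14 (chi tPhi 0) :=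
  isGen_chi_of_ind T2 mT2 (fun _ => Iff.rfl) tT2 (fun _ => 0) ⟨by decide +kernel, rfl⟩
    (fun x y hx hy => ⟨tT2_hom x y hx hy, by simp⟩) rT2 rT2_even rT2_surj
    (by rw [card_sub mT2 T2 (fun _ => Iff.rfl) 54 (by decide +kernel)]) tPhi 0 tab_phi

end Cfsg.Agent.Lib.Recog14
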