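import Mathlib
import Cfsg.Agent.Lib.Recog14.Model4

/-!
# The group of order 648: the six rows vanishing off the elements related to the normal subgroup of order 27
-/

set_option autoImplicit false

namespace Cfsg.Agent.Lib.Recog14

open DihedralGroup Cfsg Cfsg.Agent.Lib.Recog13 Cfsg.Agent.Lib.Char.Virtual Cfsg.Agent.Lib.Char.Basic
open scoped ComplexConjugate

/-- The top part as a homomorphism. -/
def topHom : E14 →* D3 where
  toFun k := k.1.p
  map_one' := rfl
  map_mul' _ _ := rfl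

theorem tS_cl : ∀ k : W14, evnW k = true → tS (cl k) = sg k.p := by decide +kernel
theorem tMu_cl : ∀ k : W14, evnW k = true → tMu (cl k) = rho k.p := by decide +kernel
theorem tOne_val : ∀ c, tOne c = 1 := by decide +kernel

theorem chi_one : chi tOne 0 = 1 := by
  funext k
  simp [chi, tOne_val]

theorem isGen_tOne : IsGeneralizedCharacter E14 (chi tOne 0) := by
  rw [chi_one]
  exact isGeneralized_char isCharacter_one

theorem isGen_tS : IsGeneralizedCharacter E14 (chi tS 0) := by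
  have h := Cfsg.Agent.Lib.Char.LinearChars.isIrr_of_hom (sgC.comp topHom)
  have h2 : (fun g : E14 => (((sgC.comp topHom) g : ℂˣ) : ℂ)) = chi tS 0 := by
    funext k
    simp only [MonoidHom.comp_apply, sgC_apply, chi, Pi.zero_apply, Int.cast_zero, mul_zero, add_zero]
    rw [tS_cl k.1 k.2]
    rfl
  rw [h2] at h
  exact isGeneralized_of_isIrr h

theorem isGen_tMu : IsGeneralizedCharacter E14 (chi tMu 0) := by
  have h := isGeneralized_comp_hom isGen_rho topHom
  have h2 : (fun h : E14 => ((rho (topHom h) : ℤ) : ℂ)) = chi tMu 0 := by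
    funext k
    simp only [chi, Pi.zero_apply, Int.cast_zero, mul_zero, add_zero]
    rw [tMu_cl k.1 k.2]
    rfl
  rwa [h2] at h

/-- Values of the six rows. -/
def rA : Fin 6 → Fin 14 → ℤ
  | 0 => tPs1 - tPs2
  | 1 => (tMu + tTh1A) - tPs1
  | 2 => (tTau + tS * tTau) - tTh1A
  | 3 => ((tOne + tMu) + tTau) - tTh0
  | 4 => tTh1A - tS * tTh1A
  | 5 => ((tOne + tPs1) + tS * tTau) - tPhi

/-- Values of the six rows, part in `√3`. -/
def rB : Fin 6 → Fin 14 → ℤ
  | 0 => 0 - 0
  | 1 => (0 + tTh1B) - 0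
  | 2 => (0 + tS * 0) - tTh1B
  | 3 => ((0 + 0) + 0) - 0
  | 4 => tTh1B - tS * tTh1B
  | 5 => ((0 + 0) + tS * 0) - 0

theorem isGen_row : ∀ i, IsGeneralizedCharacter E14 (chi (rA i) (rB i)) := by
  intro i
  fin_cases i
  · show IsGeneralizedCharacter E14 (chi (tPs1 - tPs2) (0 - 0))
    rw [chi_sub]
    exact isGeneralized_sub isGen_tPs1 isGen_tPs2
  · show IsGeneralizedCharacter E14 (chi ((tMu + tTh1A) - tPs1) ((0 + tTh1B) - 0))
    rw [chi_sub, chi_add]
    exact isGeneralized_sub (isGeneralized_add isGen_tMu isGen_tTh1) isGen_tPs1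
  · show IsGeneralizedCharacter E14 (chi ((tTau + tS * tTau) - tTh1A) ((0 + tS * 0) - tTh1B))
    rw [chi_sub, chi_add, chi_mul_real]
    exact isGeneralized_sub (isGeneralized_add isGen_tTau (isGeneralized_mul isGen_tS isGen_tTau)) isGen_tTh1
  · show IsGeneralizedCharacter E14 (chi (((tOne + tMu) + tTau) - tTh0) (((0 + 0) + 0) - 0))
    rw [chi_sub, chi_add, chi_add]
    exact isGeneralized_sub (isGeneralized_add (isGeneralized_add isGen_tOne isGen_tMu) isGen_tTau) isGen_tTh0
  · show IsGeneralizedCharacter E14 (chi (tTh1A - tS * tTh1A) (tTh1B - tS * tTh1B))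
    rw [chi_sub, chi_mul_real]
    exact isGeneralized_sub isGen_tTh1 (isGeneralized_mul isGen_tS isGen_tTh1)
  · show IsGeneralizedCharacter E14 (chi (((tOne + tPs1) + tS * tTau) - tPhi) (((0 + 0) + tS * 0) - 0))
    rw [chi_sub, chi_add, chi_add, chi_mul_real]
    exact isGeneralized_sub (isGeneralized_add (isGeneralized_add isGen_tOne isGen_tPs1)
      (isGeneralized_mul isGen_tS isGen_tTau)) isGen_tPhi

/-- The Gram matrix. -/
def gram6 : Fin 6 → Fin 6 → ℤ :=
  ![![2, -1, 0, 0, 0, 1],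
    ![-1, 3, -1, 1, 1, -1],
    ![0, -1, 3, 1, -1, 1],
    ![0, 1, 1, 4, 0, 1],
    ![0, 1, -1, 0, 2, 0],
    ![1, -1, 1, 1, 0, 4]]

/-- The inner products with the constant function. -/
def one6 : Fin 6 → ℤ := ![0, 0, 0, 1, 0, 1]

theorem gram_table : ∀ i j, gramZ (rA i) (rB i) (rA j) (rB j) = 648 * gram6 i j ∧
    gramW (rA i) (rB i) (rA j) (rB j) = 0 := by decide +kernel

theorem one_table : ∀ i, gramZ (rA i) (rB i) tOne 0 = 648 * one6 i ∧ gramW (rA i) (rB i) tOne 0 = 0 := by
  decide +kernel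

theorem inner_row (i j : Fin 6) : classInner (chi (rA i) (rB i)) (chi (rA j) (rB j)) = (gram6 i j : ℂ) := by
  rw [inner_chi, (gram_table i j).1, (gram_table i j).2]
  push_cast
  ring

theorem inner_row_one (i : Fin 6) : classInner (chi (rA i) (rB i)) 1 = (one6 i : ℂ) := by
  rw [← chi_one, inner_chi, (one_table i).1, (one_table i).2]
  push_cast
  ring

theorem row_van : ∀ (i : Fin 6) (c : Fin 14), c.val < 5 → rA i c = 0 ∧ rB i c = 0 := by decide +kernel

theorem chi_van (i : Fin 6) (k : E14) (hk : (cl k.1).val < 5) : chi (rA i) (rB i) k = 0 := by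
  obtain ⟨h1, h2⟩ := row_van i _ hk
  simp [chi, h1, h2]

/-- Elements of the subset. -/
def a0 : E14 := ⟨⟨(sr 0, sr 0, 1), 1⟩, by decide +kernel⟩
/-- Elements of the subset. -/
def b0 : E14 := ⟨⟨(sr 0, 1, 1), sr 0⟩, by decide +kernel⟩

theorem cl_a0 : cl a0.1 = 1 := by decide +kernel
theorem cl_b0 : cl b0.1 = 3 := by decide +kernel

/-- The sums for the three types of pairs. -/
def mAA (V : Fin 14 → ℤ) : ℤ := ∑ k : E14, if cl k.1 = 1 then V (cl (a0 * k).1) else 0
/-- The sums for the three types of pairs. -/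
def mAB (V : Fin 14 → ℤ) : ℤ := ∑ k : E14, if cl k.1 = 3 then V (cl (a0 * k).1) else 0
/-- The sums for the three types of pairs. -/
def mBB (V : Fin 14 → ℤ) : ℤ := ∑ k : E14, if cl k.1 = 3 then V (cl (b0 * k).1) else 0

/-- The expected values. -/
def mvAA : Fin 6 → ℤ := ![0, 72, 0, 72, 0, 36]
/-- The expected values. -/
def mvAB : Fin 6 → ℤ := ![0, 0, 0, 72, 0, 36]
/-- The expected values. -/
def mvBB : Fin 6 → ℤ := ![0, 0, 36, 72, 0, 54]

theorem m_table : ∀ i, mAA (rA i) = mvAA i ∧ mAA (rB i) = 0 ∧ mAB (rA i) = mvAB i ∧ mAB (rB i) = 0 ∧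
    mBB (rA i) = mvBB i ∧ mBB (rB i) = 0 := by decide +kernel

end Cfsg.Agent.Lib.Recog14
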