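import Mathlib
import Cfsg.Agent.Lib.Recog14.Model5

/-!
# The group of order 648: tables for the fusion arguments
-/

set_option autoImplicit false

namespace Cfsg.Agent.Lib.Recog14

open DihedralGroup Cfsg Cfsg.Agent.Lib.Recog13

set_option maxRecDepth 100000
set_option synthInstance.maxSize 4096
set_option synthInstance.maxHeartbeats 0

/-- The cube. -/
def c3 (u : W14) : W14 := u * u * u
/-- The power 81. -/
def c81 (u : W14) : W14 := c3 (c3 (c3 (c3 u)))

theorem c81_eq (u : W14) : c81 u = u ^ 81 := by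
  have h : ∀ v : W14, c3 v = v ^ 3 := fun v => by rw [c3, pow_three, mul_assoc]
  rw [c81, h, h, h, h, ← pow_mul, ← pow_mul, ← pow_mul]

theorem inJ_cube : ∀ k : W14, inJ k = true → k * k * k = 1 := by decide +kernel
theorem inJ_one : inJ 1 = true := by decide +kernel
theorem inJ_mul : ∀ a : W14, inJ a = true → ∀ b : W14, inJ b = true → inJ (a * b) = true := by decide +kernel
theorem inJ_inv : ∀ a : W14, inJ a = true → inJ a⁻¹ = true := by decide +kernel
theorem inJ_comm : ∀ a : W14, inJ a = true → ∀ b : W14, inJ b = true → a * b = b * a := by decide +kernel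
theorem inJ_conj : ∀ k : W14, inJ k = true → ∀ g : W14, evnW g = true → inJ (g * k * g⁻¹) = true := by decide +kernel
theorem inJ_even : ∀ k : W14, inJ k = true → evnW k = true := by decide +kernel

/-- The normal `3`-subgroups lie in `J`. -/
theorem core_table : ∀ k : W14, evnW k = true → inJ k = false →
    c81 k ≠ 1 ∨ c81 (k * g3 * k⁻¹ * g3⁻¹) ≠ 1 := by decide +kernel

theorem g3_even : evnW g3 = true := by decide +kernel
theorem g2_even : evnW g2 = true := by decide +kernel

/-- The element of weight three. -/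
def j3 : W14 := ⟨(r 1, r 1, r 1), 1⟩

theorem j3_facts : inJ j3 = true ∧ evnW j3 = true ∧ j3 ≠ 1 ∧ j3 * g2 = g2 * j3 ∧ inJ (g2 * g2 * g2 * g2) = false := by
  decide +kernel

/-- The table for the normalizer. -/
theorem norm_table : ∀ k : W14, inJ k = true → k ≠ 1 →
    (wtQ k.q = 3 → ∃ h : W14, evnW h = true ∧ h * k * h⁻¹ = j3) ∧
    (wtQ k.q ≠ 3 → ∀ u : W14, evnW u = true → u * k = k * u → inJ (u * u * u * u) = true) := by
  decide +kernel

/-- The powers of the elements of the big set. -/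
theorem pow_table : ∀ k : W14, evnW k = true → 5 ≤ (cl k).val →
    (inJ (k * k * k) = true ∧ k * k * k ≠ 1) ∨ (inJ (k * k * k * k) = true ∧ k * k * k * k ≠ 1) := by
  decide +kernel

/-- The involutions. -/
theorem invol_cl : ∀ k : W14, evnW k = true → k * k = 1 → k ≠ 1 → cl k = 1 ∨ cl k = 3 := by decide +kernel

theorem cl1_conj : ∀ k : W14, evnW k = true → cl k = 1 → ∃ u : W14, evnW u = true ∧ u * a0.1 * u⁻¹ = k := by
  decide +kernel
theorem cl3_conj : ∀ k : W14, evnW k = true → cl k = 3 → ∃ u : W14, evnW u = true ∧ u * b0.1 * u⁻¹ = k := by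
  decide +kernel
theorem conj_a0 : ∀ u : W14, evnW u = true → cl (u * a0.1 * u⁻¹) = 1 := by decide +kernel
theorem conj_b0 : ∀ u : W14, evnW u = true → cl (u * b0.1 * u⁻¹) = 3 := by decide +kernel

theorem a0_sq : a0.1 * a0.1 = 1 := by decide +kernel
theorem b0_sq : b0.1 * b0.1 = 1 := by decide +kernel

/-- The elements for the separation of the classes of involutions. -/
def e1' : W14 := ⟨(1, 1, r 1), 1⟩
/-- The elements for the separation of the classes of involutions. -/
def j2' : W14 := ⟨(1, r 1, r 1), 1⟩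

theorem sep_facts : inJ e1' = true ∧ inJ j2' = true ∧ e1' ≠ 1 ∧ j2' ≠ 1 ∧ a0.1 * e1' = e1' * a0.1 ∧
    b0.1 * j2' = j2' * b0.1 ∧ e1' * e1' * e1' = 1 ∧ j2' * j2' * j2' = 1 ∧ wtQ j2'.q = 2 ∧ wtQ (j2' * j2').q = 2 := by
  decide +kernel

theorem wt_e1 : ∀ u : W14, evnW u = true → wtQ (u * e1' * u⁻¹).q = 1 := by decide +kernel

theorem cen_b0 : ∀ u : W14, evnW u = true → u * b0.1 = b0.1 * u → c81 u = 1 →
    u = 1 ∨ u = j2' ∨ u = j2' * j2' := by decide +kernel

end Cfsg.Agent.Lib.Recog14
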