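import Mathlib
import Cfsg.Agent.Lib.Recog14.Sit0

/-!
# The group of order 648: tables for the final step
-/

set_option autoImplicit false

namespace Cfsg.Agent.Lib.Recog14

open DihedralGroup Cfsg Cfsg.Agent.Lib.Recog13

set_option maxRecDepth 100000
set_option synthInstance.maxSize 4096
set_option synthInstance.maxHeartbeats 0

/-- The normal subgroup of order 27 of the model. -/
def JJ : Subgroup E14 where
  carrier := {k | inJ k.1 = true}
  mul_mem' := fun {x y} hx hy => inJ_mul x.1 hx y.1 hy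
  one_mem' := inJ_one
  inv_mem' := fun {x} hx => inJ_inv x.1 hx

theorem mem_JJ (k : E14) : k ∈ JJ ↔ inJ k.1 = true := Iff.rfl

theorem natCard_JJ : Nat.card JJ = 27 := by
  classical
  have h : (Finset.univ.filter (fun k : E14 => inJ k.1 = true)).card = 27 := by decide +kernel
  rw [Nat.card_eq_fintype_card, Fintype.card_subtype]
  rw [← h]
  congr

theorem inv_conj_table : ∀ j : W14, inJ j = true → ∃ u : W14, evnW u = true ∧ u * j * u⁻¹ = j⁻¹ := by
  decide +kernel

theorem cl13_conj : ∀ k : W14, evnW k = true → cl k = 13 → ∃ u : W14, evnW u = true ∧ u * j3 * u⁻¹ = k := by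
  decide +kernel
theorem cl5_conj : ∀ k : W14, evnW k = true → cl k = 5 → ∃ u : W14, evnW u = true ∧ u * e1' * u⁻¹ = k := by
  decide +kernel
theorem cl12_conj : ∀ k : W14, evnW k = true → cl k = 12 → ∃ u : W14, evnW u = true ∧ u * j2' * u⁻¹ = k := by
  decide +kernel

theorem cl_J_table : ∀ k : W14, evnW k = true → (k = 1 ∧ cl k = 0) ∨ (cl k = 5 ∧ inJ k = true) ∨
    (cl k = 12 ∧ inJ k = true) ∨ (cl k = 13 ∧ inJ k = true) ∨
    (inJ k = false ∧ cl k ≠ 0 ∧ cl k ≠ 5 ∧ cl k ≠ 12 ∧ cl k ≠ 13) := by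
  decide +kernel

theorem j3_prod : ∀ j : W14, inJ j = true → ∃ j' : W14, inJ j' = true ∧ cl j' = 13 ∧ cl (j * j') = 13 := by
  decide +kernel

/-- The commutator. -/
def cmW (a b : W14) : W14 := a * b * a⁻¹ * b⁻¹

/-- The test elements. -/
def gs : Fin 4 → W14 := ![g1, g2, g3, g4]

theorem gs_even : ∀ x, evnW (gs x) = true := by decide +kernel

theorem comm_table : ∀ k : W14, evnW k = true → inJ k = false → ∃ x y : Fin 4,
    (cmW (cmW k (gs x)) (gs y)).p = 1 ∧ inJ (cmW (cmW k (gs x)) (gs y)) = false := by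
  decide +kernel

theorem v4_table : ∀ t : W14, evnW t = true → t.p = 1 → inJ t = false →
    ∃ j : W14, inJ j = true ∧ cl (t * j) = 1 := by
  decide +kernel

/-- The second generator of the final step. -/
def gB : W14 := ⟨(1, r 1, 1), 1⟩

theorem final_facts : inJ g1 = true ∧ inJ gB = true ∧ g1 ≠ 1 ∧ gB ≠ 1 ∧ g1 * gB ≠ 1 ∧ g1 * gB * gB ≠ 1 := by
  decide +kernel

theorem cl_facts : cl e1' = 5 ∧ cl j2' = 12 ∧ cl j3 = 13 := by decide +kernel

end Cfsg.Agent.Lib.Recog14
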