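import Mathlib
import Cfsg.Agent.Lib.Recog14.Sit0
import Cfsg.Agent.Lib.Basic.PCore
import Cfsg.Prelude.Def_TwoFusion

/-!
# The situation of the theorem on the group of order 648
-/

set_option autoImplicit false
set_option maxRecDepth 100000

namespace Cfsg.Agent.Lib.Recog14

open Cfsg

universe u

variable {G : Type u} [Group G] {H J : Subgroup G}

/-- The embedding of the model. -/
def iota (e : H ≃* E14) : E14 →* G := H.subtype.comp e.symm.toMonoidHom

theorem iota_apply (e : H ≃* E14) (k : E14) : iota e k = ((e.symm k : H) : G) := rfl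

theorem iota_inj (e : H ≃* E14) : Function.Injective (iota e) := by
  intro a b hab
  exact e.symm.injective (Subtype.ext hab)

theorem iota_mem (e : H ≃* E14) (k : E14) : iota e k ∈ H := (e.symm k).2

theorem exists_iota (e : H ≃* E14) {h : G} (hh : h ∈ H) : ∃ k, iota e k = h :=
  ⟨e ⟨h, hh⟩, by simp [iota_apply]⟩

/-- The hypotheses of the theorem. -/
structure Sit14 (e : H ≃* E14) (J : Subgroup G) : Prop where
  memJ : ∀ k : E14, iota e k ∈ J ↔ inJ k.1 = true
  hJH : J ≤ H
  hC : ∀ j ∈ J, j ≠ 1 → Subgroup.centralizer ({j} : Set G) ≤ H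
  hsc : ∀ x ∈ J, ∀ g : G, g * x * g⁻¹ ∈ H → g * x * g⁻¹ ∈ J

section core

variable {A : Type*} [Group A]

theorem pow81_of_core [Finite A] (hA : Nat.card A = 648) {z : A} (hz : z ∈ pCore 3 A) : z ^ 81 = 1 := by
  haveI : Fact (Nat.Prime 3) := ⟨by norm_num⟩
  obtain ⟨n, hn⟩ := Cfsg.Agent.Lib.Basic.PCore.pCore_isPGroup (G := A) 3 ⟨z, hz⟩
  have h1 : z ^ 3 ^ n = 1 := congrArg Subtype.val hn
  have h2 : orderOf z ∣ 3 ^ n := orderOf_dvd_of_pow_eq_one h1
  have h3 : orderOf z ∣ 648 := by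
    rw [← hA]
    exact orderOf_dvd_natCard z
  obtain ⟨m, -, hm⟩ := (Nat.dvd_prime_pow Nat.prime_three).mp h2
  have hm4 : m ≤ 4 := by
    by_contra hlt
    have h5 : 3 ^ 5 ∣ 3 ^ m := pow_dvd_pow 3 (by omega)
    rw [hm] at h3
    have h6 : 3 ^ 5 ∣ 648 := h5.trans h3
    norm_num at h6
  have h7 : orderOf z ∣ 81 := by
    rw [hm]
    have h8 : (3 : ℕ) ^ m ∣ 3 ^ 4 := pow_dvd_pow 3 hm4
    simpa using h8
  exact orderOf_dvd_iff_pow_eq_one.mp h7

/-- The `3`-core of the model. -/
theorem mem_core_iff (e : A ≃* E14) [Finite A] (a : A) : a ∈ pCore 3 A ↔ inJ (e a).1 = true := by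
  have hA : Nat.card A = 648 := by rw [Nat.card_congr e.toEquiv, natCard_E14]
  constructor
  · intro ha
    have hnorm := Cfsg.Agent.Lib.Basic.PCore.pCore_normal 3 A
    by_contra hk
    have hk' : inJ (e a).1 = false := by simpa using hk
    have hpw : ∀ z ∈ pCore 3 A, c81 (e z).1 = 1 := by
      intro z hz
      have h1 := pow81_of_core hA hz
      rw [c81_eq]
      have h2 : (e z) ^ 81 = 1 := by rw [← map_pow, h1, map_one]
      exact congrArg Subtype.val h2
    rcases core_table (e a).1 (e a).2 hk' with h | h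
    · exact h (hpw a ha)
    · apply h
      have hg : (⟨g3, g3_even⟩ : E14) = e (e.symm ⟨g3, g3_even⟩) := by simp
      set y : A := e.symm ⟨g3, g3_even⟩ with hy
      have hmem : a * (y * a⁻¹ * y⁻¹) ∈ pCore 3 A :=
        Subgroup.mul_mem _ ha (hnorm.conj_mem _ (Subgroup.inv_mem _ ha) y)
      have h2 := hpw _ hmem
      have h3 : (e (a * (y * a⁻¹ * y⁻¹))).1 = (e a).1 * g3 * (e a).1⁻¹ * g3⁻¹ := by
        have h4 : e y = ⟨g3, g3_even⟩ := by rw [hy]; simp
        rw [map_mul, map_mul, map_mul, map_inv, map_inv, h4]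
        show (e a).1 * (g3 * (e a).1⁻¹ * g3⁻¹) = _
        group
      rw [h3] at h2
      exact h2
  · intro ha
    let N : Subgroup A := (Subgroup.comap e.toMonoidHom (⟨⟨⟨{k : E14 | inJ k.1 = true},
      fun {x y} hx hy => inJ_mul x.1 hx y.1 hy⟩, inJ_one⟩, fun {x} hx => inJ_inv x.1 hx⟩ : Subgroup E14))
    have hN : N.Normal := by
      constructor
      intro n hn g
      show inJ (e (g * n * g⁻¹)).1 = true
      have h1 : (e (g * n * g⁻¹)).1 = (e g).1 * (e n).1 * (e g).1⁻¹ := by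
        rw [map_mul, map_mul, map_inv]
        rfl
      rw [h1]
      exact inJ_conj _ hn _ (e g).2
    have hp : IsPGroup 3 N := by
      intro x
      refine ⟨1, ?_⟩
      apply Subtype.ext
      apply e.injective
      apply Subtype.ext
      have h1 : inJ (e x.1).1 = true := x.2
      have h2 := inJ_cube _ h1
      show (e (x.1 ^ 3 ^ 1)).1 = (e 1).1
      rw [map_pow, map_one, pow_one, pow_three]
      show (e x.1).1 * ((e x.1).1 * (e x.1).1) = 1
      rw [← mul_assoc]
      exact h2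
    exact Cfsg.Agent.Lib.Basic.PCore.le_pCore hN hp ha

end core

section

variable {e : H ≃* E14}

/-- The construction from the hypotheses of the statement. -/
theorem mk_sit [Finite G] (e : H ≃* E14) (hJ : J = (pCore 3 H).map H.subtype)
    (hC : ∀ j ∈ J, j ≠ 1 → Subgroup.centralizer ({j} : Set G) ≤ H) (hsc : IsStronglyClosed J H) :
    Sit14 e J := by
  refine ⟨?_, hsc.1, hC, hsc.2⟩
  intro k
  rw [hJ, Subgroup.mem_map]
  constructor
  · rintro ⟨h, hh, he⟩
    have h1 : h = e.symm k := Subtype.ext he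
    have h2 := (mem_core_iff e h).mp hh
    rw [h1] at h2
    simpa using h2
  · intro hk
    refine ⟨e.symm k, (mem_core_iff e _).mpr (by simpa using hk), rfl⟩

theorem Sit14.comm (S : Sit14 e J) {a b : G} (ha : a ∈ J) (hb : b ∈ J) : a * b = b * a := by
  obtain ⟨x, rfl⟩ := exists_iota e (S.hJH ha)
  obtain ⟨y, rfl⟩ := exists_iota e (S.hJH hb)
  have h1 := inJ_comm x.1 ((S.memJ x).mp ha) y.1 ((S.memJ y).mp hb)
  have h2 : x * y = y * x := Subtype.ext h1
  rw [← map_mul, ← map_mul, h2]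

/-- Trivial intersection gives the normalizer. -/
theorem Sit14.ti_norm (S : Sit14 e J) [Finite G] {t g : G} (ht : t ∈ J) (ht1 : t ≠ 1)
    (hg : g * t * g⁻¹ ∈ J) : g ∈ Subgroup.normalizer (J : Set G) := by
  have h1 : ∀ y ∈ J, g⁻¹ * y * g ∈ J := by
    intro y hy
    have hcomm : y * (g * t * g⁻¹) = (g * t * g⁻¹) * y := S.comm hy hg
    have hc : g⁻¹ * y * g ∈ Subgroup.centralizer ({t} : Set G) := by
      rw [Subgroup.mem_centralizer_singleton_iff]
      calc g⁻¹ * y * g * t = g⁻¹ * (y * (g * t * g⁻¹)) * g := by group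
        _ = g⁻¹ * ((g * t * g⁻¹) * y) * g := by rw [hcomm]
        _ = t * (g⁻¹ * y * g) := by group
    have hH := S.hC t ht ht1 hc
    have h2 := S.hsc y hy g⁻¹ (by simpa using hH)
    simpa using h2
  rw [Subgroup.mem_normalizer_iff]
  intro y
  constructor
  · intro hy
    haveI : Finite J := inferInstance
    let φ : J → J := fun z => ⟨g⁻¹ * z.1 * g, h1 z.1 z.2⟩
    have hφ : Function.Injective φ := by
      intro a b hab
      have h2 : g⁻¹ * a.1 * g = g⁻¹ * b.1 * g := congrArg Subtype.val hab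
      apply Subtype.ext
      have h3 : g⁻¹ * a.1 = g⁻¹ * b.1 := mul_right_cancel h2
      exact mul_left_cancel h3
    obtain ⟨z, hz⟩ := (Finite.injective_iff_surjective.mp hφ) ⟨y, hy⟩
    have h2 : g⁻¹ * z.1 * g = y := congrArg Subtype.val hz
    have h3 : g * y * g⁻¹ = z.1 := by
      rw [← h2]
      group
    show g * y * g⁻¹ ∈ J
    rw [h3]
    exact z.2
  · intro hy
    have h2 := h1 _ hy
    have h3 : g⁻¹ * (g * y * g⁻¹) * g = y := by group
    rw [h3] at h2
    exact h2

/-- The normalizer of `J` lies in `H`. -/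
theorem Sit14.norm_le (S : Sit14 e J) {g : G} (hg : g ∈ Subgroup.normalizer (J : Set G)) : g ∈ H := by
  obtain ⟨f1, f2, f3, f4, f5⟩ := j3_facts
  let J3 : E14 := ⟨j3, f2⟩
  let D : E14 := ⟨g2, g2_even⟩
  have hne : ∀ z : E14, z.1 ≠ 1 → iota e z ≠ 1 := by
    intro z hz h
    apply hz
    have h2 : z = 1 := iota_inj e (by rw [h, map_one])
    rw [h2]
    rfl
  have mJ3 : iota e J3 ∈ J := (S.memJ J3).mpr f1
  have mN : ∀ y ∈ J, g * y * g⁻¹ ∈ J := fun y hy => (Subgroup.mem_normalizer_iff.mp hg y).mp hy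
  have mN' : ∀ y, g * y * g⁻¹ ∈ J → y ∈ J := fun y hy => (Subgroup.mem_normalizer_iff.mp hg y).mpr hy
  obtain ⟨k, hk⟩ := exists_iota e (S.hJH (mN _ mJ3))
  have hkJ : inJ k.1 = true := (S.memJ k).mp (by rw [hk]; exact mN _ mJ3)
  have hk1 : k.1 ≠ 1 := by
    intro h0
    have h2 : k = 1 := Subtype.ext h0
    rw [h2, map_one] at hk
    have h3 : iota e J3 = 1 := by
      have h4 : g⁻¹ * (g * iota e J3 * g⁻¹) * g = iota e J3 := by group
      rw [← h4, ← hk]
      group
    exact hne J3 f3 h3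
  have hkne : iota e k ≠ 1 := hne k hk1
  have hJ3ne : iota e J3 ≠ 1 := hne J3 f3
  have hcomm : iota e J3 * iota e D = iota e D * iota e J3 := by
    rw [← map_mul, ← map_mul]
    congr 1
  have hcomm2 : (g * iota e D * g⁻¹) * iota e k = iota e k * (g * iota e D * g⁻¹) := by
    rw [hk]
    calc (g * iota e D * g⁻¹) * (g * iota e J3 * g⁻¹) = g * (iota e D * iota e J3) * g⁻¹ := by group
      _ = g * (iota e J3 * iota e D) * g⁻¹ := by rw [hcomm]
      _ = _ := by group
  have hu : g * iota e D * g⁻¹ ∈ H := by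
    apply S.hC _ ((S.memJ k).mpr hkJ) hkne
    rw [Subgroup.mem_centralizer_singleton_iff]
    exact hcomm2
  obtain ⟨u, hu'⟩ := exists_iota e hu
  obtain ⟨t1, t2⟩ := norm_table k.1 hkJ hk1
  by_cases hw : wtQ k.1.q = 3
  · obtain ⟨h0, h1, h2⟩ := t1 hw
    let hh : E14 := ⟨h0, h1⟩
    have h3 : hh * k * hh⁻¹ = J3 := Subtype.ext h2
    have h4 : iota e hh * g ∈ Subgroup.centralizer ({iota e J3} : Set G) := by
      rw [Subgroup.mem_centralizer_singleton_iff]
      have h5 : iota e hh * iota e k * (iota e hh)⁻¹ = iota e J3 := by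
        rw [← map_inv, ← map_mul, ← map_mul, h3]
      rw [hk] at h5
      calc iota e hh * g * iota e J3 = (iota e hh * (g * iota e J3 * g⁻¹) * (iota e hh)⁻¹) * (iota e hh * g) := by
            group
        _ = iota e J3 * (iota e hh * g) := by rw [h5]
    have h5 := S.hC _ mJ3 hJ3ne h4
    have h6 : g = (iota e hh)⁻¹ * (iota e hh * g) := by group
    rw [h6]
    exact H.mul_mem (H.inv_mem (iota_mem e hh)) h5
  · exfalso
    have h3 : u * k = k * u := by
      apply iota_inj e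
      rw [map_mul, map_mul, hu']
      exact hcomm2
    have h4 := t2 hw u.1 u.2 (congrArg Subtype.val h3)
    have h5 : iota e (u * u * u * u) ∈ J := (S.memJ _).mpr h4
    have h6 : iota e (u * u * u * u) = g * (iota e D * iota e D * iota e D * iota e D) * g⁻¹ := by
      simp only [map_mul, hu']
      group
    rw [h6] at h5
    have h7 := mN' _ h5
    have h8 : iota e D * iota e D * iota e D * iota e D = iota e (D * D * D * D) := by simp only [map_mul]
    rw [h8] at h7
    have h9 := (S.memJ _).mp h7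
    have h10 : inJ (g2 * g2 * g2 * g2) = true := h9
    rw [f5] at h10
    exact absurd h10 (by simp)

/-- Trivial intersection in `H`. -/
theorem Sit14.ti (S : Sit14 e J) [Finite G] {t g : G} (ht : t ∈ J) (ht1 : t ≠ 1) (hg : g * t * g⁻¹ ∈ H) : g ∈ H :=
  S.norm_le (S.ti_norm ht ht1 (S.hsc t ht g hg))

/-- The step to the set of elements having a power in `J`. -/
theorem Sit14.conj_mem (S : Sit14 e J) [Finite G] {k : E14} (hk : 5 ≤ (cl k.1).val) {x : G}
    (hx : x * iota e k * x⁻¹ ∈ H) : x ∈ H := by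
  obtain ⟨c, hc⟩ := exists_iota e hx
  have ne : ∀ z : E14, z.1 ≠ 1 → iota e z ≠ 1 := by
    intro z hz h
    apply hz
    have h2 : z = 1 := iota_inj e (by rw [h, map_one])
    rw [h2]
    rfl
  rcases pow_table k.1 k.2 hk with ⟨h1, h2⟩ | ⟨h1, h2⟩
  · have h3 : iota e (k * k * k) ∈ J := (S.memJ _).mpr h1
    refine S.ti h3 (ne (k * k * k) h2) ?_
    have h4 : x * iota e (k * k * k) * x⁻¹ = iota e (c * c * c) := by
      simp only [map_mul, hc]
      group
    rw [h4]
    exact iota_mem e _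
  · have h3 : iota e (k * k * k * k) ∈ J := (S.memJ _).mpr h1
    refine S.ti h3 (ne (k * k * k * k) h2) ?_
    have h4 : x * iota e (k * k * k * k) * x⁻¹ = iota e (c * c * c * c) := by
      simp only [map_mul, hc]
      group
    rw [h4]
    exact iota_mem e _

/-- A group with an element of order three having a small centralizer: elements of order three are conjugate
to its powers. -/
theorem conj_three {D : Type*} [Group D] [Finite D] {t : D} (ht3 : t ^ 3 = 1) (ht1 : t ≠ 1)
    (hcen : ∀ y : D, y * t = t * y → (∃ n : ℕ, y ^ 3 ^ n = 1) → y = 1 ∨ y = t ∨ y = t * t)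
    {f : D} (hf3 : f ^ 3 = 1) (hf1 : f ≠ 1) : ∃ w : D, w * f * w⁻¹ = t ∨ w * f * w⁻¹ = t * t := by
  classical
  haveI : Fact (Nat.Prime 3) := ⟨by norm_num⟩
  -- the subgroups
  have hpow : ∀ {z : D}, z ^ 3 = 1 → IsPGroup 3 (Subgroup.zpowers z) := by
    intro z hz
    rw [IsPGroup.iff_card]
    have h1 : orderOf z ∣ 3 := orderOf_dvd_of_pow_eq_one hz
    rcases (Nat.dvd_prime (by norm_num : Nat.Prime 3)).mp h1 with h2 | h2
    · exact ⟨0, by rw [Nat.card_zpowers, h2]; rfl⟩
    · exact ⟨1, by rw [Nat.card_zpowers, h2]; rfl⟩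
  obtain ⟨Q, hQ⟩ := (hpow ht3).exists_le_sylow
  have htQ : t ∈ (Q : Subgroup D) := hQ (Subgroup.mem_zpowers t)
  -- the centre of `Q`
  have hpQ : IsPGroup 3 (Q : Subgroup D) := Q.isPGroup'
  haveI : Nontrivial (Q : Subgroup D) := ⟨⟨⟨t, htQ⟩, 1, fun h => ht1 (congrArg Subtype.val h)⟩⟩
  haveI : Nontrivial (Subgroup.center (Q : Subgroup D)) := hpQ.center_nontrivial
  obtain ⟨z, hz⟩ := exists_ne (1 : Subgroup.center (Q : Subgroup D))
  have hzc : ∀ q : (Q : Subgroup D), q * z.1 = z.1 * q := fun q => (Subgroup.mem_center_iff.mp z.2 q)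
  have hz1 : (z.1.1 : D) ≠ 1 := fun h => hz (Subtype.ext (Subtype.ext h))
  have hQ3 : ∀ y ∈ (Q : Subgroup D), ∃ n : ℕ, y ^ 3 ^ n = 1 := by
    intro y hy
    obtain ⟨n, hn⟩ := hpQ ⟨y, hy⟩
    exact ⟨n, congrArg Subtype.val hn⟩
  have hzt : z.1.1 * t = t * z.1.1 := (congrArg Subtype.val (hzc ⟨t, htQ⟩)).symm
  have ht33 : t * t * t = 1 := by rw [← ht3, pow_three, mul_assoc]
  have htz : ∀ q : (Q : Subgroup D), q.1 * t = t * q.1 := by
    intro q
    rcases hcen z.1.1 hzt (hQ3 _ z.1.2) with h | h | h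
    · exact absurd h hz1
    · have h1 := congrArg Subtype.val (hzc q)
      rw [← h]
      exact h1
    · have h1 : q.1 * z.1.1 = z.1.1 * q.1 := congrArg Subtype.val (hzc q)
      have h2 : q.1 * (z.1.1 * z.1.1) = (z.1.1 * z.1.1) * q.1 := by
        calc q.1 * (z.1.1 * z.1.1) = (q.1 * z.1.1) * z.1.1 := (mul_assoc _ _ _).symm
          _ = (z.1.1 * q.1) * z.1.1 := by rw [h1]
          _ = z.1.1 * (q.1 * z.1.1) := mul_assoc _ _ _
          _ = z.1.1 * (z.1.1 * q.1) := by rw [h1]
          _ = _ := (mul_assoc _ _ _).symm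
      have h3 : z.1.1 * z.1.1 = t := by
        rw [h]
        calc t * t * (t * t) = (t * t * t) * t := by group
          _ = t := by rw [ht33, one_mul]
      rw [h3] at h2
      exact h2
  have hQt : ∀ y ∈ (Q : Subgroup D), y = 1 ∨ y = t ∨ y = t * t := by
    intro y hy
    exact hcen y (htz ⟨y, hy⟩) (hQ3 y hy)
  obtain ⟨Q', hQ'⟩ := (hpow hf3).exists_le_sylow
  have hfQ : f ∈ (Q' : Subgroup D) := hQ' (Subgroup.mem_zpowers f)
  obtain ⟨w, hw⟩ := MulAction.exists_smul_eq D Q' Q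
  have h1 : w * f * w⁻¹ ∈ (Q : Subgroup D) := by
    rw [← hw, Sylow.coe_subgroup_smul, Subgroup.mem_pointwise_smul_iff_inv_smul_mem]
    have h2 : (MulAut.conj w)⁻¹ • (w * f * w⁻¹) = f := by
      rw [MulAut.smul_def, MulAut.conj_inv_apply]
      group
    rw [h2]
    exact hfQ
  refine ⟨w, ?_⟩
  rcases hQt _ h1 with h | h | h
  · exfalso
    apply hf1
    have h2 : f = w⁻¹ * (w * f * w⁻¹) * w := by group
    rw [h2, h]
    group
  · exact Or.inl h
  · exact Or.inr h

end

end Cfsg.Agent.Lib.Recog14
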