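import Mathlib
import Cfsg.Agent.Lib.Recog13.Coh
import Cfsg.Agent.Lib.Char.Integrality
import Cfsg.Agent.Lib.Blocks.BSInd

/-!
# Orthonormal families of signed irreducible characters, extraction, and class sums
-/

set_option autoImplicit false

namespace Cfsg.Agent.Lib.Recog14

open Cfsg Cfsg.Agent.Lib.Char.Virtual Cfsg.Agent.Lib.Char.Induced Cfsg.Agent.Lib.Recog13
open scoped ComplexConjugate

universe u

variable {G : Type u} [Group G] [Fintype G]

/-- An orthonormal family of signed irreducible characters. -/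
structure ONF {n : ℕ} (u : Fin n → G → ℂ) : Prop where
  sgn : ∀ i, IsSignedIrr G (u i)
  orth : ∀ i j, i ≠ j → classInner (u i) (u j) = 0

theorem ONF.one : ONF ![(1 : G → ℂ)] := by
  constructor
  · intro i
    fin_cases i
    exact Or.inl isIrr_one
  · intro i j hij
    fin_cases i
    fin_cases j
    exact absurd rfl hij

theorem ONF.cons {n : ℕ} {u : Fin n → G → ℂ} (h : ONF u) {v : G → ℂ} (hv : IsSignedIrr G v)
    (hvu : ∀ i, classInner v (u i) = 0) : ONF (Matrix.vecCons v u) := by
  constructor
  · intro i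
    refine Fin.cases ?_ (fun i => ?_) i
    · exact hv
    · exact h.sgn i
  · intro i j
    refine Fin.cases ?_ (fun i => ?_) i
    · refine Fin.cases ?_ (fun j => ?_) j
      · intro h0
        exact absurd rfl h0
      · intro _
        exact hvu j
    · refine Fin.cases ?_ (fun j => ?_) j
      · intro _
        exact sym_zero (hvu i)
      · intro hij
        exact h.orth i j (fun e => hij (by rw [e]))

theorem ONF.tail {n : ℕ} {u : Fin n → G → ℂ} {v : G → ℂ} (h : ONF (Matrix.vecCons v u)) : ONF u := by
  constructor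
  · intro i
    exact h.sgn i.succ
  · intro i j hij
    exact h.orth i.succ j.succ (fun e => hij (Fin.succ_injective _ e))

theorem ONF.head {n : ℕ} {u : Fin n → G → ℂ} {v : G → ℂ} (h : ONF (Matrix.vecCons v u)) : IsSignedIrr G v :=
  h.sgn 0

theorem ONF.head_orth {n : ℕ} {u : Fin n → G → ℂ} {v : G → ℂ} (h : ONF (Matrix.vecCons v u)) (i : Fin n) :
    classInner v (u i) = 0 :=
  h.orth 0 i.succ (Fin.succ_ne_zero i).symm

theorem ONF.swap {n : ℕ} {u : Fin n → G → ℂ} {v w : G → ℂ} (h : ONF (Matrix.vecCons v (Matrix.vecCons w u))) :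
    ONF (Matrix.vecCons w (Matrix.vecCons v u)) := by
  have h1 := h.tail
  have h2 := h1.tail
  refine ONF.cons (ONF.cons h2 h.head (fun i => h.head_orth i.succ)) h1.head ?_
  intro i
  refine Fin.cases ?_ (fun i => ?_) i
  · exact sym_zero (h.head_orth 0)
  · exact h1.head_orth i

theorem ONF.inner {n : ℕ} {u : Fin n → G → ℂ} (h : ONF u) (i j : Fin n) :
    classInner (u i) (u j) = if i = j then 1 else 0 := by
  split_ifs with hij
  · rw [hij]
    exact (h.sgn j).classInner_self
  · exact h.orth i j hij

/-- The integer combination of a family. -/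
noncomputable def zsum {n : ℕ} (c : Fin n → ℤ) (u : Fin n → G → ℂ) : G → ℂ := ∑ i, (c i : ℂ) • u i

theorem isGen_zsum {n : ℕ} {u : Fin n → G → ℂ} (h : ONF u) (c : Fin n → ℤ) :
    IsGeneralizedCharacter G (zsum c u) := by
  classical
  refine isGeneralized_finset_sum _ (fun i _ => ?_)
  exact isGeneralized_intCast_smul (h.sgn i).isGeneralized (c i)

/-- The extraction of the components of a generalized character along a family. -/
theorem extract {n : ℕ} {u : Fin n → G → ℂ} (h : ONF u) {R : G → ℂ} (hR : IsGeneralizedCharacter G R) {N : ℤ}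
    (hN : classInner R R = N) :
    ∃ c : Fin n → ℤ, (∀ i, classInner R (u i) = c i) ∧ (∑ i, c i ^ 2 ≤ N) ∧
      IsGeneralizedCharacter G (R - zsum c u) ∧
      classInner (R - zsum c u) (R - zsum c u) = ((N - ∑ i, c i ^ 2 : ℤ) : ℂ) ∧
      ∀ i, classInner (R - zsum c u) (u i) = 0 := by
  classical
  choose c hc using fun i => exists_int_classInner hR (h.sgn i).isGeneralized
  have hc' : ∀ i, classInner (u i) R = c i := by
    intro i
    rw [← classInner_conj_symm, hc i]
    simp
  have hb : ∑ i, c i ^ 2 ≤ N := bessel_int u (fun i j => h.inner i j) R N hN c hc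
  have hRS : classInner R (zsum c u) = ((∑ i, c i ^ 2 : ℤ) : ℂ) := by
    rw [zsum, classInner_finset_sum_right]
    push_cast
    refine Finset.sum_congr rfl fun i _ => ?_
    rw [classInner_smul_right, hc i]
    simp [sq]
  have hSu : ∀ j, classInner (zsum c u) (u j) = c j := by
    intro j
    rw [zsum, classInner_finset_sum_left]
    rw [Finset.sum_eq_single j]
    · rw [classInner_smul_left, h.inner j j, if_pos rfl, mul_one]
    · intro i _ hij
      rw [classInner_smul_left, h.orth i j hij, mul_zero]
    · simp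
  have hSR : classInner (zsum c u) R = ((∑ i, c i ^ 2 : ℤ) : ℂ) := by
    rw [zsum, classInner_finset_sum_left]
    push_cast
    refine Finset.sum_congr rfl fun i _ => ?_
    rw [classInner_smul_left, hc' i]
    simp [sq]
  have hSS : classInner (zsum c u) (zsum c u) = ((∑ i, c i ^ 2 : ℤ) : ℂ) := by
    nth_rewrite 2 [zsum]
    rw [classInner_finset_sum_right]
    push_cast
    refine Finset.sum_congr rfl fun i _ => ?_
    rw [classInner_smul_right, hSu i]
    simp [sq]
  refine ⟨c, hc, hb, isGeneralized_sub hR (isGen_zsum h c), ?_, ?_⟩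
  · rw [classInner_sub_left, classInner_sub_right, classInner_sub_right, hN, hRS, hSR, hSS]
    push_cast
    ring
  · intro j
    rw [classInner_sub_left, hc j, hSu j, sub_self]

/-- The case of no remainder. -/
theorem extract_zero {R S : G → ℂ} {v : ℤ} (h : classInner (R - S) (R - S) = (v : ℂ)) (hv : v = 0) : R = S := by
  rw [hv] at h
  have h2 : R - S = 0 := Cfsg.Agent.Lib.Char.Coherence.eq_zero_of_classInner_self_eq_zero (by simpa using h)
  exact sub_eq_zero.mp h2

/-- Orthogonality of the summands. -/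
theorem orth_of_sum {p q Z : G → ℂ} (hp : IsSignedIrr G p) (hq : IsSignedIrr G q) (hZ : IsSignedIrr G Z)
    (hpq : classInner p q = 0) (h : classInner (p + q) Z = 0) :
    classInner p Z = 0 ∧ classInner q Z = 0 := by
  rw [classInner_add_left] at h
  rcases IsSignedIrr.classInner_cases hp hZ with h1 | ⟨h1, h2⟩ | ⟨h1, h2⟩
  · rw [h1, zero_add] at h
    exact ⟨h1, h⟩
  · exfalso
    rw [h1] at h
    have h3 : classInner q Z = -1 := by linear_combination h
    rcases IsSignedIrr.classInner_cases hq hZ with h4 | ⟨h4, _⟩ | ⟨_, h5⟩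
    · rw [h4] at h3
      norm_num at h3
    · rw [h4] at h3
      norm_num at h3
    · rw [h2, h5, classInner_neg_right, hZ.classInner_self] at hpq
      norm_num at hpq
  · exfalso
    rw [h1] at h
    have h3 : classInner q Z = 1 := by linear_combination h
    rcases IsSignedIrr.classInner_cases hq hZ with h4 | ⟨_, h5⟩ | ⟨h4, _⟩
    · rw [h4] at h3
      norm_num at h3
    · rw [h2, h5, classInner_neg_left, hZ.classInner_self] at hpq
      norm_num at hpq
    · rw [h4] at h3
      norm_num at h3

/-- The extension of a family by one new member. -/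
theorem extend_one {n : ℕ} {u : Fin n → G → ℂ} (h : ONF u) {T : G → ℂ} (hT : IsGeneralizedCharacter G T) {v : ℤ}
    (hN : classInner T T = (v : ℂ)) (hv : v = 1) (hO : ∀ i, classInner T (u i) = 0) :
    ONF (Matrix.vecCons T u) := by
  rw [hv] at hN
  exact ONF.cons h (isSignedIrr_of_norm_one hT (by simpa using hN)) hO

/-- The extension of a family by two new members. -/
theorem extend_two {n : ℕ} {u : Fin n → G → ℂ} (h : ONF u) {T : G → ℂ} (hT : IsGeneralizedCharacter G T) {v : ℤ}
    (hN : classInner T T = (v : ℂ)) (hv : v = 2) (hO : ∀ i, classInner T (u i) = 0) :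
    ∃ a b : G → ℂ, ONF (Matrix.vecCons a (Matrix.vecCons b u)) ∧ T = a + b := by
  rw [hv] at hN
  obtain ⟨a, b, ha, hb, hab, rfl⟩ := exists_of_norm_two hT (by simpa using hN)
  refine ⟨a, b, ?_, rfl⟩
  have hO' : ∀ i, classInner a (u i) = 0 ∧ classInner b (u i) = 0 :=
    fun i => orth_of_sum ha hb (h.sgn i) hab (hO i)
  refine ONF.cons (ONF.cons h hb (fun i => (hO' i).2)) ha ?_
  intro i
  refine Fin.cases ?_ (fun i => ?_) i
  · exact hab
  · exact (hO' i).1

/-! ### Class sums -/

open Classical in
/-- The double class sum. -/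
noncomputable def ssum (θ : G → ℂ) (x y : G) : ℂ :=
  ∑ s : G, ∑ s' : G, if IsConj x s ∧ IsConj y s' then θ (s * s') else 0

/-- The class size. -/
noncomputable def csz (x : G) : ℂ := ((Subgroup.centralizer ({x} : Set G)).index : ℂ)

theorem csz_ne (x : G) [Finite G] : csz x ≠ 0 := by
  rw [csz]
  exact_mod_cast Subgroup.index_ne_zero_of_finite

/-- The normalised double class sum. -/
noncomputable def Ph (θ : G → ℂ) (x y : G) : ℂ := ssum θ x y / (csz x * csz y)

theorem ssum_add (θ φ : G → ℂ) (x y : G) : ssum (θ + φ) x y = ssum θ x y + ssum φ x y := by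
  classical
  simp only [ssum, ← Finset.sum_add_distrib]
  refine Finset.sum_congr rfl fun s _ => Finset.sum_congr rfl fun s' _ => ?_
  split_ifs <;> simp

theorem ssum_neg (θ : G → ℂ) (x y : G) : ssum (-θ) x y = - ssum θ x y := by
  classical
  simp only [ssum, ← Finset.sum_neg_distrib]
  refine Finset.sum_congr rfl fun s _ => Finset.sum_congr rfl fun s' _ => ?_
  split_ifs <;> simp

theorem Ph_add (θ φ : G → ℂ) (x y : G) : Ph (θ + φ) x y = Ph θ x y + Ph φ x y := by
  rw [Ph, Ph, Ph, ssum_add, add_div]

theorem Ph_neg (θ : G → ℂ) (x y : G) : Ph (-θ) x y = - Ph θ x y := by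
  rw [Ph, Ph, ssum_neg, neg_div]

theorem Ph_sub (θ φ : G → ℂ) (x y : G) : Ph (θ - φ) x y = Ph θ x y - Ph φ x y := by
  rw [sub_eq_add_neg, Ph_add, Ph_neg, sub_eq_add_neg]

/-- The class sum formula for irreducible characters. -/
theorem ssum_irr {χ : G → ℂ} (hχ : IsIrrCharacter G χ) (x y : G) :
    ssum χ x y = csz x * csz y * (χ x * χ y / χ 1) := by
  classical
  have hcl : IsClassFunction G χ :=
    Cfsg.Agent.Lib.Blocks.BSInd.IsGeneralized_isClassFunction (isGeneralized_of_isIrr hχ)
  have h1 : ∀ s s' : G, (if IsConj x s ∧ IsConj y s' then χ (s * s') else 0) =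
      if IsConj y s' then (if IsConj x s then χ (s * s') else 0) else 0 := by
    intro s s'
    by_cases b : IsConj y s'
    · rw [if_pos b]
      by_cases a : IsConj x s
      · rw [if_pos a, if_pos ⟨a, b⟩]
      · rw [if_neg a, if_neg (fun h => a h.1)]
    · rw [if_neg b, if_neg (fun h => b h.2)]
  have h2 : ssum χ x y = ∑ s' : G, if IsConj y s' then (csz x * χ x / χ 1) * χ y else 0 := by
    rw [ssum, Finset.sum_comm]
    refine Finset.sum_congr rfl fun s' _ => ?_
    simp only [h1]
    by_cases b : IsConj y s'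
    · simp only [if_pos b]
      have h3 := Cfsg.Agent.Lib.Blocks.WeakOrth.sum_isConj_mul hχ x s'
      have h4 : χ s' = χ y := by
        obtain ⟨c, rfl⟩ := isConj_iff.mp b
        exact (hcl y c).symm ▸ rfl
      rw [h4] at h3
      rw [h3]
      rfl
    · simp only [if_neg b, Finset.sum_const_zero]
  have h3 : (∑ s' : G, if IsConj y s' then (1 : ℂ) else 0) = csz y := by
    rw [csz, ← Cfsg.Agent.Lib.Char.Integrality.card_classFinset, Finset.sum_boole,
      Cfsg.Agent.Lib.Char.Integrality.classFinset]
  rw [h2]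
  have h4 : ∀ s' : G, (if IsConj y s' then (csz x * χ x / χ 1) * χ y else 0) =
      (csz x * χ x / χ 1) * χ y * (if IsConj y s' then (1 : ℂ) else 0) := by
    intro s'
    split_ifs <;> simp
  simp only [h4]
  rw [← Finset.mul_sum, h3]
  ring

/-- The class sum formula for signed irreducible characters. -/
theorem Ph_signed {Y : G → ℂ} (hY : IsSignedIrr G Y) (x y : G) [Finite G] : Ph Y x y = Y x * Y y / Y 1 := by
  have hc : csz x * csz y ≠ 0 := mul_ne_zero (csz_ne x) (csz_ne y)
  rcases hY with h | h
  · rw [Ph, ssum_irr h, mul_div_cancel_left₀ _ hc]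
  · have h1 := ssum_irr h x y
    rw [ssum_neg] at h1
    rw [Ph]
    simp only [Pi.neg_apply] at h1
    have h2 : ssum Y x y = csz x * csz y * (Y x * Y y / Y 1) := by
      have h3 : (-Y x * -Y y / -Y 1) = -(Y x * Y y / Y 1) := by
        rw [neg_mul_neg, div_neg]
      rw [h3] at h1
      linear_combination -h1
    rw [h2, mul_div_cancel_left₀ _ hc]

end Cfsg.Agent.Lib.Recog14
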