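import Mathlib
import Cfsg.Agent.Lib.Recog14.Tree0
import Cfsg.Agent.Lib.Recog14.Alg2

/-!
# The coherence tree, first steps
-/

set_option autoImplicit false

namespace Cfsg.Agent.Lib.Recog14

open Cfsg Cfsg.Agent.Lib.Char.Virtual Cfsg.Agent.Lib.Char.Induced Cfsg.Agent.Lib.Recog13
open scoped ComplexConjugate

universe u

set_option synthInstance.maxSize 4096
set_option synthInstance.maxHeartbeats 0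

variable {G : Type u} [Group G] [Fintype G]

/-- The hypotheses on the six generalized characters. -/
structure TreeHyp (a b : G) (W M B C A F : G → ℂ) (κa κab κb : ℂ) : Prop where
  gW : IsGeneralizedCharacter G W
  gM : IsGeneralizedCharacter G M
  gB : IsGeneralizedCharacter G B
  gC : IsGeneralizedCharacter G C
  gA : IsGeneralizedCharacter G A
  gF : IsGeneralizedCharacter G F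
  iWW : classInner W W = 2
  iMW : classInner M W = -1
  iMM : classInner M M = 3
  iBW : classInner B W = 0
  iBM : classInner B M = -1
  iBB : classInner B B = 3
  iCW : classInner C W = 0
  iCM : classInner C M = 1
  iCB : classInner C B = 1
  iCC : classInner C C = 4
  iAW : classInner A W = 0
  iAM : classInner A M = 1
  iAB : classInner A B = -1
  iAC : classInner A C = 0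
  iAA : classInner A A = 2
  iFW : classInner F W = 1
  iFM : classInner F M = -1
  iFB : classInner F B = 1
  iFC : classInner F C = 1
  iFA : classInner F A = 0
  iFF : classInner F F = 4
  oW : classInner W 1 = 0
  oM : classInner M 1 = 0
  oB : classInner B 1 = 0
  oC : classInner C 1 = 1
  oA : classInner A 1 = 0
  oF : classInner F 1 = 1
  vW : W 1 = 0 ∧ W a = 0 ∧ W b = 0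
  vM : M 1 = 0 ∧ M a = 0 ∧ M b = 0
  vB : B 1 = 0 ∧ B a = 0 ∧ B b = 0
  vC : C 1 = 0 ∧ C a = 0 ∧ C b = 0
  vA : A 1 = 0 ∧ A a = 0 ∧ A b = 0
  vF : F 1 = 0 ∧ F a = 0 ∧ F b = 0
  fM : Ph M a a = 8 / 3 * κa ∧ Ph M a b = 0 ∧ Ph M b b = 0
  fB : Ph B a a = 0 ∧ Ph B a b = 0 ∧ Ph B b b = 2 / 3 * κb
  fC : Ph C a a = 8 / 3 * κa ∧ Ph C a b = 4 / 3 * κab ∧ Ph C b b = 4 / 3 * κb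
  fF : Ph F a a = 4 / 3 * κa ∧ Ph F a b = 2 / 3 * κab ∧ Ph F b b = κb
  hκa : κa ≠ 0
  hκab : κab ≠ 0
  hκb : κb ≠ 0
  hκ : κab * κab = κa * κb

/-- Integers of small square. -/
def gI3 (x : Fin 3) : ℤ := (x.val : ℤ) - 1

theorem gI3_surj {c : ℤ} (h : c ^ 2 ≤ 3) : ∃ x, gI3 x = c := by
  have h1 : -1 ≤ c := by nlinarith
  have h2 : c ≤ 1 := by nlinarith
  have h3 : c = -1 ∨ c = 0 ∨ c = 1 := by omega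
  rcases h3 with rfl | rfl | rfl
  · exact ⟨0, by decide⟩
  · exact ⟨1, by decide⟩
  · exact ⟨2, by decide⟩

theorem intM {c0 c1 : ℤ} (h1 : c0 + c1 = -1) (hs : c0 ^ 2 + c1 ^ 2 ≤ 3) :
    (c0 = -1 ∧ c1 = 0) ∨ (c0 = 0 ∧ c1 = -1) := by
  have key : ∀ x0 x1 : Fin 3, gI3 x0 + gI3 x1 = -1 →
      (gI3 x0 = -1 ∧ gI3 x1 = 0) ∨ (gI3 x0 = 0 ∧ gI3 x1 = -1) := by decide +kernel
  obtain ⟨x0, rfl⟩ := gI3_surj (c := c0) (by nlinarith [sq_nonneg c1])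
  obtain ⟨x1, rfl⟩ := gI3_surj (c := c1) (by nlinarith [sq_nonneg (gI3 x0)])
  exact key x0 x1 h1

theorem intB {c0 c1 c2 c3 : ℤ} (h1 : c3 + c2 = 0) (h2 : -c3 + c1 + c0 = -1)
    (hs : c0 ^ 2 + c1 ^ 2 + c2 ^ 2 + c3 ^ 2 ≤ 3) :
    (c0 = -1 ∧ c1 = 0 ∧ c2 = 0 ∧ c3 = 0) ∨ (c0 = 0 ∧ c1 = -1 ∧ c2 = 0 ∧ c3 = 0) ∨
      (c0 = 0 ∧ c1 = 0 ∧ c2 = -1 ∧ c3 = 1) := by
  have key : ∀ x0 x1 x2 x3 : Fin 3, gI3 x3 + gI3 x2 = 0 → -gI3 x3 + gI3 x1 + gI3 x0 = -1 →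
      gI3 x0 ^ 2 + gI3 x1 ^ 2 + gI3 x2 ^ 2 + gI3 x3 ^ 2 ≤ 3 →
      (gI3 x0 = -1 ∧ gI3 x1 = 0 ∧ gI3 x2 = 0 ∧ gI3 x3 = 0) ∨ (gI3 x0 = 0 ∧ gI3 x1 = -1 ∧ gI3 x2 = 0 ∧ gI3 x3 = 0) ∨
      (gI3 x0 = 0 ∧ gI3 x1 = 0 ∧ gI3 x2 = -1 ∧ gI3 x3 = 1) := by decide +kernel
  have n0 := sq_nonneg c0
  have n1 := sq_nonneg c1
  have n2 := sq_nonneg c2
  have n3 := sq_nonneg c3
  obtain ⟨x0, rfl⟩ := gI3_surj (c := c0) (by linarith)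
  obtain ⟨x1, rfl⟩ := gI3_surj (c := c1) (by linarith)
  obtain ⟨x2, rfl⟩ := gI3_surj (c := c2) (by linarith)
  obtain ⟨x3, rfl⟩ := gI3_surj (c := c3) (by linarith)
  exact key x0 x1 x2 x3 h1 h2 hs

theorem intC {c0 c1 c2 c3 c4 c5 : ℤ} (h1 : c5 + c4 = 0) (h2 : -c5 + c3 + c2 = 1) (h3 : -c3 + c1 + c0 = 1)
    (hs : c0 ^ 2 + c1 ^ 2 + c2 ^ 2 + c3 ^ 2 + c4 ^ 2 + c5 ^ 2 ≤ 3) :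
    (c0 = 1 ∧ c1 = 0 ∧ c2 = 1 ∧ c3 = 0 ∧ c4 = 0 ∧ c5 = 0) ∨
    (c0 = 0 ∧ c1 = 1 ∧ c2 = 1 ∧ c3 = 0 ∧ c4 = 0 ∧ c5 = 0) ∨
    (c0 = 1 ∧ c1 = 1 ∧ c2 = 0 ∧ c3 = 1 ∧ c4 = 0 ∧ c5 = 0) ∨
    (c0 = 1 ∧ c1 = 0 ∧ c2 = 0 ∧ c3 = 0 ∧ c4 = 1 ∧ c5 = -1) ∨
    (c0 = 0 ∧ c1 = 1 ∧ c2 = 0 ∧ c3 = 0 ∧ c4 = 1 ∧ c5 = -1) := by
  have key : ∀ x0 x1 x2 x3 x4 x5 : Fin 3, gI3 x5 + gI3 x4 = 0 → -gI3 x5 + gI3 x3 + gI3 x2 = 1 → -gI3 x3 + gI3 x1 + gI3 x0 = 1 →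
      gI3 x0 ^ 2 + gI3 x1 ^ 2 + gI3 x2 ^ 2 + gI3 x3 ^ 2 + gI3 x4 ^ 2 + gI3 x5 ^ 2 ≤ 3 →
      (gI3 x0 = 1 ∧ gI3 x1 = 0 ∧ gI3 x2 = 1 ∧ gI3 x3 = 0 ∧ gI3 x4 = 0 ∧ gI3 x5 = 0) ∨
      (gI3 x0 = 0 ∧ gI3 x1 = 1 ∧ gI3 x2 = 1 ∧ gI3 x3 = 0 ∧ gI3 x4 = 0 ∧ gI3 x5 = 0) ∨
      (gI3 x0 = 1 ∧ gI3 x1 = 1 ∧ gI3 x2 = 0 ∧ gI3 x3 = 1 ∧ gI3 x4 = 0 ∧ gI3 x5 = 0) ∨
      (gI3 x0 = 1 ∧ gI3 x1 = 0 ∧ gI3 x2 = 0 ∧ gI3 x3 = 0 ∧ gI3 x4 = 1 ∧ gI3 x5 = -1) ∨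
      (gI3 x0 = 0 ∧ gI3 x1 = 1 ∧ gI3 x2 = 0 ∧ gI3 x3 = 0 ∧ gI3 x4 = 1 ∧ gI3 x5 = -1) := by decide +kernel
  have n0 := sq_nonneg c0
  have n1 := sq_nonneg c1
  have n2 := sq_nonneg c2
  have n3 := sq_nonneg c3
  have n4 := sq_nonneg c4
  have n5 := sq_nonneg c5
  obtain ⟨x0, rfl⟩ := gI3_surj (c := c0) (by linarith)
  obtain ⟨x1, rfl⟩ := gI3_surj (c := c1) (by linarith)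
  obtain ⟨x2, rfl⟩ := gI3_surj (c := c2) (by linarith)
  obtain ⟨x3, rfl⟩ := gI3_surj (c := c3) (by linarith)
  obtain ⟨x4, rfl⟩ := gI3_surj (c := c4) (by linarith)
  obtain ⟨x5, rfl⟩ := gI3_surj (c := c5) (by linarith)
  exact key x0 x1 x2 x3 x4 x5 h1 h2 h3 hs

theorem intA {c0 c1 c2 c3 c4 c5 c6 : ℤ} (h1 : c6 + c5 = 0) (h2 : -c6 + c4 + c3 = 1) (h3 : -c4 + c2 + c1 = -1)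
    (h4 : c3 + c2 + c0 = 0) (hs : c0 ^ 2 + c1 ^ 2 + c2 ^ 2 + c3 ^ 2 + c4 ^ 2 + c5 ^ 2 + c6 ^ 2 ≤ 2) :
    (c0 = 0 ∧ c1 = 0 ∧ c2 = 0 ∧ c3 = 0 ∧ c4 = 1 ∧ c5 = 0 ∧ c6 = 0) ∨
    (c0 = 0 ∧ c1 = 0 ∧ c2 = -1 ∧ c3 = 1 ∧ c4 = 0 ∧ c5 = 0 ∧ c6 = 0) := by
  have key : ∀ x0 x1 x2 x3 x4 x5 x6 : Fin 3, gI3 x6 + gI3 x5 = 0 → -gI3 x6 + gI3 x4 + gI3 x3 = 1 →
      -gI3 x4 + gI3 x2 + gI3 x1 = -1 → gI3 x3 + gI3 x2 + gI3 x0 = 0 →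
      gI3 x0 ^ 2 + gI3 x1 ^ 2 + gI3 x2 ^ 2 + gI3 x3 ^ 2 + gI3 x4 ^ 2 + gI3 x5 ^ 2 + gI3 x6 ^ 2 ≤ 2 →
      (gI3 x0 = 0 ∧ gI3 x1 = 0 ∧ gI3 x2 = 0 ∧ gI3 x3 = 0 ∧ gI3 x4 = 1 ∧ gI3 x5 = 0 ∧ gI3 x6 = 0) ∨
      (gI3 x0 = 0 ∧ gI3 x1 = 0 ∧ gI3 x2 = -1 ∧ gI3 x3 = 1 ∧ gI3 x4 = 0 ∧ gI3 x5 = 0 ∧ gI3 x6 = 0) := by decide +kernel
  have n0 := sq_nonneg c0
  have n1 := sq_nonneg c1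
  have n2 := sq_nonneg c2
  have n3 := sq_nonneg c3
  have n4 := sq_nonneg c4
  have n5 := sq_nonneg c5
  have n6 := sq_nonneg c6
  obtain ⟨x0, rfl⟩ := gI3_surj (c := c0) (by linarith)
  obtain ⟨x1, rfl⟩ := gI3_surj (c := c1) (by linarith)
  obtain ⟨x2, rfl⟩ := gI3_surj (c := c2) (by linarith)
  obtain ⟨x3, rfl⟩ := gI3_surj (c := c3) (by linarith)
  obtain ⟨x4, rfl⟩ := gI3_surj (c := c4) (by linarith)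
  obtain ⟨x5, rfl⟩ := gI3_surj (c := c5) (by linarith)
  obtain ⟨x6, rfl⟩ := gI3_surj (c := c6) (by linarith)
  exact key x0 x1 x2 x3 x4 x5 x6 h1 h2 h3 h4 hs

theorem intF {c0 c1 c2 c3 c4 c5 c6 c7 : ℤ} (h1 : c7 + c6 = 1) (h2 : -c7 + c5 + c4 = -1) (h3 : -c5 + c3 + c2 = 1)
    (h4 : c4 + c3 + c1 = 0) (h5 : c5 + c0 = 0)
    (hs : c0 ^ 2 + c1 ^ 2 + c2 ^ 2 + c3 ^ 2 + c4 ^ 2 + c5 ^ 2 + c6 ^ 2 + c7 ^ 2 ≤ 3) :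
    (c0 = 0 ∧ c1 = 0 ∧ c2 = 1 ∧ c3 = 0 ∧ c4 = 0 ∧ c5 = 0 ∧ c6 = 0 ∧ c7 = 1) ∨
    (c0 = 0 ∧ c1 = -1 ∧ c2 = 0 ∧ c3 = 1 ∧ c4 = 0 ∧ c5 = 0 ∧ c6 = 0 ∧ c7 = 1) ∨
    (c0 = 0 ∧ c1 = 0 ∧ c2 = 0 ∧ c3 = 1 ∧ c4 = -1 ∧ c5 = 0 ∧ c6 = 1 ∧ c7 = 0) ∨
    (c0 = 1 ∧ c1 = 0 ∧ c2 = 0 ∧ c3 = 0 ∧ c4 = 0 ∧ c5 = -1 ∧ c6 = 1 ∧ c7 = 0) := by
  have key : ∀ x0 x1 x2 x3 x4 x5 x6 x7 : Fin 3, gI3 x7 + gI3 x6 = 1 → -gI3 x7 + gI3 x5 + gI3 x4 = -1 →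
      -gI3 x5 + gI3 x3 + gI3 x2 = 1 → gI3 x4 + gI3 x3 + gI3 x1 = 0 → gI3 x5 + gI3 x0 = 0 →
      gI3 x0 ^ 2 + gI3 x1 ^ 2 + gI3 x2 ^ 2 + gI3 x3 ^ 2 + gI3 x4 ^ 2 + gI3 x5 ^ 2 + gI3 x6 ^ 2 + gI3 x7 ^ 2 ≤ 3 →
      (gI3 x0 = 0 ∧ gI3 x1 = 0 ∧ gI3 x2 = 1 ∧ gI3 x3 = 0 ∧ gI3 x4 = 0 ∧ gI3 x5 = 0 ∧ gI3 x6 = 0 ∧ gI3 x7 = 1) ∨
      (gI3 x0 = 0 ∧ gI3 x1 = -1 ∧ gI3 x2 = 0 ∧ gI3 x3 = 1 ∧ gI3 x4 = 0 ∧ gI3 x5 = 0 ∧ gI3 x6 = 0 ∧ gI3 x7 = 1) ∨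
      (gI3 x0 = 0 ∧ gI3 x1 = 0 ∧ gI3 x2 = 0 ∧ gI3 x3 = 1 ∧ gI3 x4 = -1 ∧ gI3 x5 = 0 ∧ gI3 x6 = 1 ∧ gI3 x7 = 0) ∨
      (gI3 x0 = 1 ∧ gI3 x1 = 0 ∧ gI3 x2 = 0 ∧ gI3 x3 = 0 ∧ gI3 x4 = 0 ∧ gI3 x5 = -1 ∧ gI3 x6 = 1 ∧ gI3 x7 = 0) := by
    decide +kernel
  have n0 := sq_nonneg c0
  have n1 := sq_nonneg c1
  have n2 := sq_nonneg c2
  have n3 := sq_nonneg c3
  have n4 := sq_nonneg c4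
  have n5 := sq_nonneg c5
  have n6 := sq_nonneg c6
  have n7 := sq_nonneg c7
  obtain ⟨x0, rfl⟩ := gI3_surj (c := c0) (by linarith)
  obtain ⟨x1, rfl⟩ := gI3_surj (c := c1) (by linarith)
  obtain ⟨x2, rfl⟩ := gI3_surj (c := c2) (by linarith)
  obtain ⟨x3, rfl⟩ := gI3_surj (c := c3) (by linarith)
  obtain ⟨x4, rfl⟩ := gI3_surj (c := c4) (by linarith)
  obtain ⟨x5, rfl⟩ := gI3_surj (c := c5) (by linarith)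
  obtain ⟨x6, rfl⟩ := gI3_surj (c := c6) (by linarith)
  obtain ⟨x7, rfl⟩ := gI3_surj (c := c7) (by linarith)
  exact key x0 x1 x2 x3 x4 x5 x6 x7 h1 h2 h3 h4 h5 hs

end Cfsg.Agent.Lib.Recog14
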