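import Mathlib
import Cfsg.Agent.Lib.Recog14.Tree1

/-!
# The coherence tree, the steps
-/

set_option autoImplicit false

namespace Cfsg.Agent.Lib.Recog14

open Cfsg Cfsg.Agent.Lib.Char.Virtual Cfsg.Agent.Lib.Char.Induced Cfsg.Agent.Lib.Recog13
open scoped ComplexConjugate

universe u

variable {G : Type u} [Group G] [Fintype G] {a b : G} {W M B C A F : G → ℂ} {κa κab κb : ℂ}

theorem cast_eq {c d : ℤ} {z : ℂ} (h1 : z = (c : ℂ)) (h2 : z = (d : ℂ)) : c = d := by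
  have h3 : (c : ℂ) = (d : ℂ) := h1.symm.trans h2
  exact_mod_cast h3

theorem cast_eq_val {c : ℤ} {z w : ℂ} (h1 : z = (c : ℂ)) (h2 : z = w) : (c : ℂ) = w := h1.symm.trans h2

/-- The first step: the decomposition of `W` and `M`. -/
theorem step1_core (H : TreeHyp a b W M B C A F κa κab κb) {X X' : G → ℂ} (hX : IsSignedIrr G X)
    (hX' : IsSignedIrr G X') (h0 : classInner X' X = 0) (h1 : classInner X 1 = 0) (h1' : classInner X' 1 = 0)
    (hW : W = X + X') (hM : classInner M X = -1) (hM' : classInner M X' = 0) :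
    ∃ p q : G → ℂ, ONF ![q, p, X', X, (1 : G → ℂ)] ∧ M = -X + p + q := by
  have on1 : ONF ![X, (1 : G → ℂ)] := ONF.cons ONF.one hX (fun i => by
    fin_cases i
    exact h1)
  have on2 : ONF ![X', X, (1 : G → ℂ)] := ONF.cons on1 hX' (fun i => by
    fin_cases i
    · exact h0
    · exact h1')
  obtain ⟨c, hc, hb, hg, hn, ho⟩ := extract on2 H.gM (N := 3) (by rw [H.iMM]; norm_num)
  have c0 : c 0 = 0 := by
    have h := hc 0
    exact cast_eq h (by simpa using hM')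
  have c1 : c 1 = -1 := by
    have h := hc 1
    exact cast_eq h (by simpa using hM)
  have c2 : c 2 = 0 := by
    have h := hc 2
    exact cast_eq h (by simpa using H.oM)
  have hv : (3 : ℤ) - ∑ i, c i ^ 2 = 2 := by
    rw [Fin.sum_univ_three, c0, c1, c2]
    norm_num
  obtain ⟨q, p, hon, hT⟩ := extend_two on2 hg hn hv ho
  refine ⟨p, q, hon, ?_⟩
  have hz : zsum c ![X', X, (1 : G → ℂ)] = -X := by
    simp [zsum, Fin.sum_univ_three, c0, c1, c2]
  rw [hz] at hT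
  have h3 : M = -X + (q + p) := by
    rw [← hT]
    abel
  rw [h3]
  abel

/-- The first step. -/
theorem step1 (H : TreeHyp a b W M B C A F κa κab κb) :
    ∃ Y₁ Y₂ p q : G → ℂ, ONF ![q, p, Y₂, Y₁, (1 : G → ℂ)] ∧ W = Y₁ + Y₂ ∧ M = -Y₁ + p + q := by
  obtain ⟨P, Q, hP, hQ, hPQ, hW⟩ := exists_of_norm_two H.gW H.iWW
  have s1 : IsSignedIrr G (1 : G → ℂ) := Or.inl isIrr_one
  obtain ⟨hP1, hQ1⟩ := orth_of_sum hP hQ s1 hPQ (by rw [← hW]; exact H.oW)
  obtain ⟨c0, h0⟩ := exists_int_classInner H.gM hP.isGeneralized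
  obtain ⟨c1, h1⟩ := exists_int_classInner H.gM hQ.isGeneralized
  have hsum : c0 + c1 = -1 := by
    have h2 := H.iMW
    rw [hW, classInner_add_right, h0, h1] at h2
    exact_mod_cast h2
  -- Bessel
  have on1 : ONF ![P, (1 : G → ℂ)] := ONF.cons ONF.one hP (fun i => by
    fin_cases i
    exact hP1)
  have on2 : ONF ![Q, P, (1 : G → ℂ)] := ONF.cons on1 hQ (fun i => by
    fin_cases i
    · exact sym_zero hPQ
    · exact hQ1)
  obtain ⟨c, hc, hb, -⟩ := extract on2 H.gM (N := 3) (by rw [H.iMM]; norm_num)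
  have e0 : c 0 = c1 := cast_eq (hc 0) h1
  have e1 : c 1 = c0 := cast_eq (hc 1) h0
  rw [Fin.sum_univ_three, e0, e1] at hb
  have hs : c0 ^ 2 + c1 ^ 2 ≤ 3 := by nlinarith [sq_nonneg (c 2)]
  rcases intM hsum hs with ⟨h2, h3⟩ | ⟨h2, h3⟩
  · subst h2 h3
    obtain ⟨p, q, hon, hM⟩ := step1_core H hP hQ (sym_zero hPQ) hP1 hQ1 hW (by simpa using h0) (by simpa using h1)
    exact ⟨P, Q, p, q, hon, hW, hM⟩
  · subst h2 h3
    obtain ⟨p, q, hon, hM⟩ := step1_core H hQ hP hPQ hQ1 hP1 (by rw [hW]; abel) (by simpa using h1) (by simpa using h0)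
    exact ⟨Q, P, p, q, hon, by rw [hW]; abel, hM⟩

/-- The second step: the core. -/
theorem step2_core (H : TreeHyp a b W M B C A F κa κab κb) {Y₁ Y₂ p q : G → ℂ}
    (hon : ONF ![q, p, Y₂, Y₁, (1 : G → ℂ)]) (hp : classInner B p = -1) (hq : classInner B q = 0)
    (h2 : classInner B Y₂ = 0) (h1 : classInner B Y₁ = 0) :
    ∃ τ₀ τ₁ : G → ℂ, ONF ![τ₀, τ₁, q, p, Y₂, Y₁, (1 : G → ℂ)] ∧ B = -p + τ₀ + τ₁ := by
  obtain ⟨c, hc, hb, hg, hn, ho⟩ := extract hon H.gB (N := 3) (by rw [H.iBB]; norm_num)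
  have c0 : c 0 = 0 := cast_eq (hc 0) (by simpa using hq)
  have c1 : c 1 = -1 := cast_eq (hc 1) (by simpa using hp)
  have c2 : c 2 = 0 := cast_eq (hc 2) (by simpa using h2)
  have c3 : c 3 = 0 := cast_eq (hc 3) (by simpa using h1)
  have c4 : c 4 = 0 := cast_eq (hc 4) (by simpa using H.oB)
  have hv : (3 : ℤ) - ∑ i, c i ^ 2 = 2 := by
    rw [Fin.sum_univ_five, c0, c1, c2, c3, c4]
    norm_num
  obtain ⟨τ₀, τ₁, hon', hT⟩ := extend_two hon hg hn hv ho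
  refine ⟨τ₀, τ₁, hon', ?_⟩
  have hz : zsum c ![q, p, Y₂, Y₁, (1 : G → ℂ)] = -p := by
    simp [zsum, Fin.sum_univ_five, c0, c1, c2, c3, c4]
  rw [hz] at hT
  have h3 : B = -p + (τ₀ + τ₁) := by
    rw [← hT]
    abel
  rw [h3]
  abel

/-- The second step. -/
theorem step2 (H : TreeHyp a b W M B C A F κa κab κb) {Y₁ Y₂ p₀ q₀ : G → ℂ}
    (hon : ONF ![q₀, p₀, Y₂, Y₁, (1 : G → ℂ)]) (hW : W = Y₁ + Y₂) (hM : M = -Y₁ + p₀ + q₀) :
    ∃ p q τ₀ τ₁ : G → ℂ, ONF ![τ₀, τ₁, q, p, Y₂, Y₁, (1 : G → ℂ)] ∧ M = -Y₁ + p + q ∧ B = -p + τ₀ + τ₁ := by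
  obtain ⟨c, hc, hb, hg, hn, ho⟩ := extract hon H.gB (N := 3) (by rw [H.iBB]; norm_num)
  have h0 : classInner B q₀ = c 0 := hc 0
  have h1 : classInner B p₀ = c 1 := hc 1
  have h2 : classInner B Y₂ = c 2 := hc 2
  have h3 : classInner B Y₁ = c 3 := hc 3
  have c4 : c 4 = 0 := cast_eq (hc 4) (by simpa using H.oB)
  have e1 : c 3 + c 2 = 0 := by
    have h4 := H.iBW
    rw [hW, classInner_add_right, h3, h2] at h4
    exact_mod_cast h4
  have e2 : -c 3 + c 1 + c 0 = -1 := by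
    have h4 := H.iBM
    rw [hM, classInner_add_right, classInner_add_right, classInner_neg_right, h3, h1, h0] at h4
    exact_mod_cast h4
  rw [Fin.sum_univ_five, c4] at hb
  rcases intB e1 e2 (by nlinarith) with ⟨a0, a1, a2, a3⟩ | ⟨a0, a1, a2, a3⟩ | ⟨a0, a1, a2, a3⟩
  · obtain ⟨τ₀, τ₁, hon', hT⟩ := step2_core H hon.swap (p := q₀) (q := p₀)
      (by rw [h0, a0]; norm_num) (by rw [h1, a1]; norm_num) (by rw [h2, a2]; norm_num) (by rw [h3, a3]; norm_num)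
    exact ⟨q₀, p₀, τ₀, τ₁, hon', by rw [hM]; abel, hT⟩
  · obtain ⟨τ₀, τ₁, hon', hT⟩ := step2_core H hon (p := p₀) (q := q₀)
      (by rw [h1, a1]; norm_num) (by rw [h0, a0]; norm_num) (by rw [h2, a2]; norm_num) (by rw [h3, a3]; norm_num)
    exact ⟨p₀, q₀, τ₀, τ₁, hon', hM, hT⟩
  · exfalso
    have hv : (3 : ℤ) - ∑ i, c i ^ 2 = 1 := by
      rw [Fin.sum_univ_five, c4, a0, a1, a2, a3]
      norm_num
    have hon' := extend_one hon hg hn hv ho
    have hz : zsum c ![q₀, p₀, Y₂, Y₁, (1 : G → ℂ)] = -Y₂ + Y₁ := by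
      simp [zsum, Fin.sum_univ_five, c4, a0, a1, a2, a3]
    rw [hz] at hon'
    set w := B - (-Y₂ + Y₁) with hw
    have hB : B = Y₁ - Y₂ + w := by
      rw [hw]
      abel
    have sY₁ : IsSignedIrr G Y₁ := hon.sgn 3
    have sY₂ : IsSignedIrr G Y₂ := hon.sgn 2
    have sw : IsSignedIrr G w := hon'.sgn 0
    have n1 := signed_one_ne_zero sY₁
    obtain ⟨v1, -, v3⟩ := H.vW
    obtain ⟨v1', -, v3'⟩ := H.vB
    rw [hW] at v1 v3
    simp only [Pi.add_apply] at v1 v3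
    have y21 : Y₂ 1 = -Y₁ 1 := by linear_combination v1
    have y2b : Y₂ b = -Y₁ b := by linear_combination v3
    have w1 : w 1 = -2 * Y₁ 1 := by
      rw [hB] at v1'
      simp only [Pi.add_apply, Pi.sub_apply] at v1'
      rw [y21] at v1'
      linear_combination v1'
    have wb : w b = -2 * Y₁ b := by
      rw [hB] at v3'
      simp only [Pi.add_apply, Pi.sub_apply] at v3'
      rw [y2b] at v3'
      linear_combination v3'
    have h4 := H.fB.2.2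
    rw [hB, Ph_add, Ph_sub, Ph_signed sY₁, Ph_signed sY₂, Ph_signed sw, y21, y2b, w1, wb] at h4
    have h5 : (2 / 3 : ℂ) * κb = 0 := by
      rw [← h4]
      field_simp
      ring
    have h6 : κb = 0 := by
      have : (2 / 3 : ℂ) ≠ 0 := by norm_num
      exact (mul_eq_zero.mp h5).resolve_left this
    exact H.hκb h6

/-- The coordinates of a character at the first class. -/
noncomputable def tA (a : G) (Y : G → ℂ) : ℂ := Y a / Y 1
/-- The scaled coordinates of a character at the second class. -/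
noncomputable def tB (ρ : ℂ) (b : G) (Y : G → ℂ) : ℂ := ρ * Y b / Y 1

/-- The forms in coordinates. -/
theorem atom (ρ : ℂ) (a b : G) {Y : G → ℂ} (hY : IsSignedIrr G Y) :
    Y 1 * tA a Y = Y a ∧ Y 1 * tB ρ b Y = ρ * Y b ∧ Ph Y a a = Y 1 * (tA a Y * tA a Y) ∧
      ρ * Ph Y a b = Y 1 * (tA a Y * tB ρ b Y) ∧ ρ * (ρ * Ph Y b b) = Y 1 * (tB ρ b Y * tB ρ b Y) := by
  have h := signed_one_ne_zero hY
  simp only [tA, tB, Ph_signed hY]
  refine ⟨?_, ?_, ?_, ?_, ?_⟩ <;> field_simp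

theorem Ph_one' (x y : G) : Ph (1 : G → ℂ) x y = 1 := by
  rw [Ph_signed (Or.inl isIrr_one)]
  simp

theorem Ph_neg_vals {Y Y' : G → ℂ} (h : IsSignedIrr G Y) (h' : IsSignedIrr G Y') (x y : G)
    (e1 : Y' 1 = -Y 1) (ex : Y' x = -Y x) (ey : Y' y = -Y y) : Ph Y' x y = -Ph Y x y := by
  rw [Ph_signed h, Ph_signed h', e1, ex, ey, neg_mul_neg, div_neg]

/-- The scale. -/
theorem rho_facts (H : TreeHyp a b W M B C A F κa κab κb) :
    κa / κab * κab = κa ∧ κa / κab * (κa / κab * κb) = κa ∧ κa / κab ≠ 0 := by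
  have h1 := H.hκab
  have h2 := H.hκa
  refine ⟨by field_simp, ?_, div_ne_zero h2 h1⟩
  have h3 := H.hκ
  have h4 : κa / κab * (κa / κab * κb) = κa * (κa * κb) / (κab * κab) := by
    field_simp
  rw [h4, h3, mul_div_assoc, div_self (mul_ne_zero h2 H.hκb), mul_one]

/-- The third step: the core. -/
theorem step3_core (H : TreeHyp a b W M B C A F κa κab κb) {Y₁ Y₂ p q τ τ' : G → ℂ}
    (hon : ONF ![τ', τ, q, p, Y₂, Y₁, (1 : G → ℂ)]) (h0 : classInner C τ' = 0) (h1 : classInner C τ = 1)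
    (h2 : classInner C q = 1) (h3 : classInner C p = 0) (h4 : classInner C Y₂ = 0) (h5 : classInner C Y₁ = 0) :
    ∃ r : G → ℂ, ONF ![r, τ', τ, q, p, Y₂, Y₁, (1 : G → ℂ)] ∧ C = 1 + q + τ + r := by
  obtain ⟨c, hc, hb, hg, hn, ho⟩ := extract hon H.gC (N := 4) (by rw [H.iCC]; norm_num)
  have c0 : c 0 = 0 := cast_eq (hc 0) (by simpa using h0)
  have c1 : c 1 = 1 := cast_eq (hc 1) (by simpa using h1)
  have c2 : c 2 = 1 := cast_eq (hc 2) (by simpa using h2)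
  have c3 : c 3 = 0 := cast_eq (hc 3) (by simpa using h3)
  have c4 : c 4 = 0 := cast_eq (hc 4) (by simpa using h4)
  have c5 : c 5 = 0 := cast_eq (hc 5) (by simpa using h5)
  have c6 : c 6 = 1 := cast_eq (hc 6) (by simpa using H.oC)
  have hv : (4 : ℤ) - ∑ i, c i ^ 2 = 1 := by
    rw [Fin.sum_univ_seven, c0, c1, c2, c3, c4, c5, c6]
    norm_num
  have hon' := extend_one hon hg hn hv ho
  have hz : zsum c ![τ', τ, q, p, Y₂, Y₁, (1 : G → ℂ)] = τ + q + 1 := by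
    simp [zsum, Fin.sum_univ_seven, c0, c1, c2, c3, c4, c5, c6]
  rw [hz] at hon'
  refine ⟨_, hon', ?_⟩
  abel

/-- The third step. -/
theorem step3 (H : TreeHyp a b W M B C A F κa κab κb) {Y₁ Y₂ p q τ₀ τ₁ : G → ℂ}
    (hon : ONF ![τ₀, τ₁, q, p, Y₂, Y₁, (1 : G → ℂ)]) (hW : W = Y₁ + Y₂) (hM : M = -Y₁ + p + q)
    (hB : B = -p + τ₀ + τ₁) :
    ∃ τ τ' r : G → ℂ, ONF ![r, τ', τ, q, p, Y₂, Y₁, (1 : G → ℂ)] ∧ B = -p + τ + τ' ∧ C = 1 + q + τ + r := by
  obtain ⟨c, hc, hb, hg, hn, ho⟩ := extract hon H.gC (N := 4) (by rw [H.iCC]; norm_num)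
  have h0 : classInner C τ₀ = c 0 := hc 0
  have h1 : classInner C τ₁ = c 1 := hc 1
  have h2 : classInner C q = c 2 := hc 2
  have h3 : classInner C p = c 3 := hc 3
  have h4 : classInner C Y₂ = c 4 := hc 4
  have h5 : classInner C Y₁ = c 5 := hc 5
  have c6 : c 6 = 1 := cast_eq (hc 6) (by simpa using H.oC)
  have e1 : c 5 + c 4 = 0 := by
    have h6 := H.iCW
    rw [hW, classInner_add_right, h5, h4] at h6
    exact_mod_cast h6
  have e2 : -c 5 + c 3 + c 2 = 1 := by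
    have h6 := H.iCM
    rw [hM, classInner_add_right, classInner_add_right, classInner_neg_right, h5, h3, h2] at h6
    exact_mod_cast h6
  have e3 : -c 3 + c 1 + c 0 = 1 := by
    have h6 := H.iCB
    rw [hB, classInner_add_right, classInner_add_right, classInner_neg_right, h3, h1, h0] at h6
    have h7 : -c 3 + c 0 + c 1 = 1 := by exact_mod_cast h6
    linarith
  rw [Fin.sum_univ_seven, c6] at hb
  have s1 : IsSignedIrr G (1 : G → ℂ) := Or.inl isIrr_one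
  have sτ₀ : IsSignedIrr G τ₀ := hon.sgn 0
  have sτ₁ : IsSignedIrr G τ₁ := hon.sgn 1
  have sq : IsSignedIrr G q := hon.sgn 2
  have sp : IsSignedIrr G p := hon.sgn 3
  have sY₂ : IsSignedIrr G Y₂ := hon.sgn 4
  have sY₁ : IsSignedIrr G Y₁ := hon.sgn 5
  obtain ⟨vW1, vWa, vWb⟩ := H.vW
  rw [hW] at vW1 vWa vWb
  simp only [Pi.add_apply] at vW1 vWa vWb
  have y21 : Y₂ 1 = -Y₁ 1 := by linear_combination vW1
  have y2a : Y₂ a = -Y₁ a := by linear_combination vWa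
  have y2b : Y₂ b = -Y₁ b := by linear_combination vWb
  -- the case of the two degenerate patterns
  have kill2 : ∀ τ : G → ℂ, IsSignedIrr G τ → C = 1 - Y₁ + Y₂ + τ → False := by
    intro τ sτ hC
    obtain ⟨r1, r2, r3⟩ := rho_facts H
    set ρ := κa / κab with hρ
    obtain ⟨a1, a2, a3, a4, a5⟩ := atom ρ a b sY₁
    obtain ⟨t1, t2, t3, t4, t5⟩ := atom ρ a b sτ
    obtain ⟨v1, v2, v3⟩ := H.vC
    rw [hC] at v1 v2 v3
    simp only [Pi.add_apply, Pi.sub_apply, Pi.one_apply] at v1 v2 v3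
    rw [y21] at v1
    rw [y2a] at v2
    rw [y2b] at v3
    obtain ⟨f1, f2, f3⟩ := H.fC
    rw [hC, Ph_add, Ph_add, Ph_sub, Ph_one', Ph_neg_vals sY₁ sY₂ a a y21 y2a y2a] at f1
    rw [hC, Ph_add, Ph_add, Ph_sub, Ph_one', Ph_neg_vals sY₁ sY₂ a b y21 y2a y2b] at f2
    rw [hC, Ph_add, Ph_add, Ph_sub, Ph_one', Ph_neg_vals sY₁ sY₂ b b y21 y2b y2b] at f3
    refine kill_C2 (m := Y₁ 1) (T := τ 1) (κ := κa) (u₁ := 1) (u₂ := ρ) (c₁ := tA a τ) (c₂ := tB ρ b τ)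
      (Y₁ := tA a Y₁) (Y₂ := tB ρ b Y₁) ?_ (signed_one_ne_zero sY₁) H.hκa ?_ ?_ ?_ ?_ ?_
    · linear_combination -v1
    · rw [mul_assoc, a1, t1]
      linear_combination -v2
    · rw [mul_assoc, a2, t2]
      linear_combination (-ρ) * v3
    · linear_combination f1 + 2 * a3 - t3
    · have e : ρ * (1 - Ph Y₁ a b + -Ph Y₁ a b + Ph τ a b) = ρ * (4 / 3 * κab) := by rw [f2]
      linear_combination e + 2 * a4 - t4 + (4 / 3 : ℂ) * r1
    · have e : ρ * (ρ * (1 - Ph Y₁ b b + -Ph Y₁ b b + Ph τ b b)) = ρ * (ρ * (4 / 3 * κb)) := by rw [f3]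
      linear_combination e + 2 * a5 - t5 + (4 / 3 : ℂ) * r2
  rcases intC e1 e2 e3 (by nlinarith) with ⟨a0, a1, a2, a3, a4, a5⟩ | ⟨a0, a1, a2, a3, a4, a5⟩ |
      ⟨a0, a1, a2, a3, a4, a5⟩ | ⟨a0, a1, a2, a3, a4, a5⟩ | ⟨a0, a1, a2, a3, a4, a5⟩
  · obtain ⟨r, hon', hC⟩ := step3_core H (τ' := τ₁) (τ := τ₀) hon.swap (by rw [h1, a1]; norm_num)
      (by rw [h0, a0]; norm_num) (by rw [h2, a2]; norm_num) (by rw [h3, a3]; norm_num) (by rw [h4, a4]; norm_num)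
      (by rw [h5, a5]; norm_num)
    exact ⟨τ₀, τ₁, r, hon', hB, hC⟩
  · obtain ⟨r, hon', hC⟩ := step3_core H (τ' := τ₀) (τ := τ₁) hon (by rw [h0, a0]; norm_num)
      (by rw [h1, a1]; norm_num) (by rw [h2, a2]; norm_num) (by rw [h3, a3]; norm_num) (by rw [h4, a4]; norm_num)
      (by rw [h5, a5]; norm_num)
    exact ⟨τ₁, τ₀, r, hon', by rw [hB]; abel, hC⟩
  · exfalso
    have hv : (4 : ℤ) - ∑ i, c i ^ 2 = 0 := by
      rw [Fin.sum_univ_seven, c6, a0, a1, a2, a3, a4, a5]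
      norm_num
    have hC := extract_zero hn hv
    have hz : zsum c ![τ₀, τ₁, q, p, Y₂, Y₁, (1 : G → ℂ)] = τ₀ + τ₁ + p + 1 := by
      simp [zsum, Fin.sum_univ_seven, c6, a0, a1, a2, a3, a4, a5]
    rw [hz] at hC
    have v1 := H.vC.1
    have v2 := H.vB.1
    rw [hC] at v1
    rw [hB] at v2
    simp only [Pi.add_apply, Pi.neg_apply, Pi.one_apply] at v1 v2
    obtain ⟨n, -, hn'⟩ := signed_exists_int_one sp
    have h6 : (1 : ℂ) + 2 * n = 0 := by
      rw [← hn']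
      linear_combination v1 - v2
    have h7 : (1 : ℤ) + 2 * n = 0 := by exact_mod_cast h6
    omega
  · exfalso
    have hv : (4 : ℤ) - ∑ i, c i ^ 2 = 0 := by
      rw [Fin.sum_univ_seven, c6, a0, a1, a2, a3, a4, a5]
      norm_num
    have hC := extract_zero hn hv
    have hz : zsum c ![τ₀, τ₁, q, p, Y₂, Y₁, (1 : G → ℂ)] = 1 - Y₁ + Y₂ + τ₀ := by
      simp [zsum, Fin.sum_univ_seven, c6, a0, a1, a2, a3, a4, a5]
      abel
    rw [hz] at hC
    exact kill2 τ₀ sτ₀ hC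
  · exfalso
    have hv : (4 : ℤ) - ∑ i, c i ^ 2 = 0 := by
      rw [Fin.sum_univ_seven, c6, a0, a1, a2, a3, a4, a5]
      norm_num
    have hC := extract_zero hn hv
    have hz : zsum c ![τ₀, τ₁, q, p, Y₂, Y₁, (1 : G → ℂ)] = 1 - Y₁ + Y₂ + τ₁ := by
      simp [zsum, Fin.sum_univ_seven, c6, a0, a1, a2, a3, a4, a5]
      abel
    rw [hz] at hC
    exact kill2 τ₁ sτ₁ hC

end Cfsg.Agent.Lib.Recog14
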