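import Mathlib
import Cfsg.Agent.Lib.Recog14.Tree2

/-!
# The coherence tree, the last steps
-/

set_option autoImplicit false

namespace Cfsg.Agent.Lib.Recog14

open Cfsg Cfsg.Agent.Lib.Char.Virtual Cfsg.Agent.Lib.Char.Induced Cfsg.Agent.Lib.Recog13
open scoped ComplexConjugate

universe u

variable {G : Type u} [Group G] [Fintype G] {a b : G} {W M B C A F : G → ℂ} {κa κab κb : ℂ}

/-- The numerical data common to the last cases. -/
structure Pkg (a b : G) (ρ κ : ℂ) (Y₁ p q τ τ' r : G → ℂ) : Prop where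
  hσ : p 1 = τ 1 + τ' 1
  hm : Y₁ 1 = p 1 + q 1
  hA₀ : -r 1 = 1 + q 1 + τ 1
  nq : q 1 ≠ 0
  nτ : τ 1 ≠ 0
  nτ' : τ' 1 ≠ 0
  np : p 1 ≠ 0
  nY : Y₁ 1 ≠ 0
  nr : -r 1 ≠ 0
  lP₁ : p 1 * tA a p = τ 1 * tA a τ + τ' 1 * tA a τ'
  lP₂ : p 1 * tB ρ b p = τ 1 * tB ρ b τ + τ' 1 * tB ρ b τ'
  lY₁ : Y₁ 1 * tA a Y₁ = p 1 * tA a p + q 1 * tA a q
  lY₂ : Y₁ 1 * tB ρ b Y₁ = p 1 * tB ρ b p + q 1 * tB ρ b q
  lR₁ : -r 1 * tA a r = 1 + q 1 * tA a q + τ 1 * tA a τ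
  lR₂ : -r 1 * tB ρ b r = ρ + q 1 * tB ρ b q + τ 1 * tB ρ b τ
  Baa : τ 1 * (tA a τ * tA a τ) + τ' 1 * (tA a τ' * tA a τ') - p 1 * (tA a p * tA a p) = 0
  Bab : τ 1 * (tA a τ * tB ρ b τ) + τ' 1 * (tA a τ' * tB ρ b τ') - p 1 * (tA a p * tB ρ b p) = 0
  Bbb : τ 1 * (tB ρ b τ * tB ρ b τ) + τ' 1 * (tB ρ b τ' * tB ρ b τ') - p 1 * (tB ρ b p * tB ρ b p) = 2 / 3 * κ
  Maa : p 1 * (tA a p * tA a p) + q 1 * (tA a q * tA a q) - Y₁ 1 * (tA a Y₁ * tA a Y₁) = 8 / 3 * κ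
  Mab : p 1 * (tA a p * tB ρ b p) + q 1 * (tA a q * tB ρ b q) - Y₁ 1 * (tA a Y₁ * tB ρ b Y₁) = 0
  Mbb : p 1 * (tB ρ b p * tB ρ b p) + q 1 * (tB ρ b q * tB ρ b q) - Y₁ 1 * (tB ρ b Y₁ * tB ρ b Y₁) = 0
  Caa : 1 * 1 + q 1 * (tA a q * tA a q) + τ 1 * (tA a τ * tA a τ) - -r 1 * (tA a r * tA a r) = 8 / 3 * κ
  Cab : 1 * ρ + q 1 * (tA a q * tB ρ b q) + τ 1 * (tA a τ * tB ρ b τ) - -r 1 * (tA a r * tB ρ b r) = 4 / 3 * κ
  Cbb : ρ * ρ + q 1 * (tB ρ b q * tB ρ b q) + τ 1 * (tB ρ b τ * tB ρ b τ) - -r 1 * (tB ρ b r * tB ρ b r) = 4 / 3 * κ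

/-- The construction of the package. -/
theorem mkPkg (H : TreeHyp a b W M B C A F κa κab κb) {Y₁ Y₂ p q τ τ' r : G → ℂ}
    (hon : ONF ![r, τ', τ, q, p, Y₂, Y₁, (1 : G → ℂ)]) (hM : M = -Y₁ + p + q)
    (hB : B = -p + τ + τ') (hC : C = 1 + q + τ + r) :
    Pkg a b (κa / κab) κa Y₁ p q τ τ' r := by
  have sr : IsSignedIrr G r := hon.sgn 0
  have sτ' : IsSignedIrr G τ' := hon.sgn 1
  have sτ : IsSignedIrr G τ := hon.sgn 2
  have sq : IsSignedIrr G q := hon.sgn 3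
  have sp : IsSignedIrr G p := hon.sgn 4
  have sY₁ : IsSignedIrr G Y₁ := hon.sgn 6
  obtain ⟨r1, r2, r3⟩ := rho_facts H
  set ρ := κa / κab with hρ
  obtain ⟨aY1, aY2, aY3, aY4, aY5⟩ := atom ρ a b sY₁
  obtain ⟨ap1, ap2, ap3, ap4, ap5⟩ := atom ρ a b sp
  obtain ⟨aq1, aq2, aq3, aq4, aq5⟩ := atom ρ a b sq
  obtain ⟨at1, at2, at3, at4, at5⟩ := atom ρ a b sτ
  obtain ⟨as1, as2, as3, as4, as5⟩ := atom ρ a b sτ'
  obtain ⟨ar1, ar2, ar3, ar4, ar5⟩ := atom ρ a b sr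
  obtain ⟨vM1, vMa, vMb⟩ := H.vM
  obtain ⟨vB1, vBa, vBb⟩ := H.vB
  obtain ⟨vC1, vCa, vCb⟩ := H.vC
  rw [hM] at vM1 vMa vMb
  rw [hB] at vB1 vBa vBb
  rw [hC] at vC1 vCa vCb
  simp only [Pi.add_apply, Pi.neg_apply, Pi.one_apply] at vM1 vMa vMb vB1 vBa vBb vC1 vCa vCb
  obtain ⟨fM1, fM2, fM3⟩ := H.fM
  obtain ⟨fB1, fB2, fB3⟩ := H.fB
  obtain ⟨fC1, fC2, fC3⟩ := H.fC
  rw [hM, Ph_add, Ph_add, Ph_neg] at fM1 fM2 fM3
  rw [hB, Ph_add, Ph_add, Ph_neg] at fB1 fB2 fB3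
  rw [hC, Ph_add, Ph_add, Ph_add, Ph_one'] at fC1 fC2 fC3
  have nr : -r 1 ≠ 0 := neg_ne_zero.mpr (signed_one_ne_zero sr)
  refine ⟨?_, ?_, ?_, signed_one_ne_zero sq, signed_one_ne_zero sτ, signed_one_ne_zero sτ',
    signed_one_ne_zero sp, signed_one_ne_zero sY₁, nr, ?_, ?_, ?_, ?_, ?_, ?_, ?_, ?_, ?_, ?_, ?_, ?_, ?_, ?_, ?_⟩
  · linear_combination -vB1
  · linear_combination -vM1
  · linear_combination -vC1
  · rw [ap1, at1, as1]
    linear_combination -vBa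
  · rw [ap2, at2, as2]
    linear_combination (-ρ) * vBb
  · rw [aY1, ap1, aq1]
    linear_combination -vMa
  · rw [aY2, ap2, aq2]
    linear_combination (-ρ) * vMb
  · rw [neg_mul, ar1, aq1, at1]
    linear_combination -vCa
  · rw [neg_mul, ar2, aq2, at2]
    linear_combination (-ρ) * vCb
  · linear_combination fB1 - at3 - as3 + ap3
  · have e : ρ * (-Ph p a b + Ph τ a b + Ph τ' a b) = ρ * 0 := by rw [fB2]
    linear_combination e - at4 - as4 + ap4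
  · have e : ρ * (ρ * (-Ph p b b + Ph τ b b + Ph τ' b b)) = ρ * (ρ * (2 / 3 * κb)) := by rw [fB3]
    linear_combination e - at5 - as5 + ap5 + (2 / 3 : ℂ) * r2
  · linear_combination fM1 + aY3 - ap3 - aq3
  · have e : ρ * (-Ph Y₁ a b + Ph p a b + Ph q a b) = ρ * 0 := by rw [fM2]
    linear_combination e + aY4 - ap4 - aq4
  · have e : ρ * (ρ * (-Ph Y₁ b b + Ph p b b + Ph q b b)) = ρ * (ρ * 0) := by rw [fM3]
    linear_combination e + aY5 - ap5 - aq5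
  · linear_combination fC1 - aq3 - at3 - ar3
  · have e : ρ * (1 + Ph q a b + Ph τ a b + Ph r a b) = ρ * (4 / 3 * κab) := by rw [fC2]
    linear_combination e - aq4 - at4 - ar4 + (4 / 3 : ℂ) * r1
  · have e : ρ * (ρ * (1 + Ph q b b + Ph τ b b + Ph r b b)) = ρ * (ρ * (4 / 3 * κb)) := by rw [fC3]
    linear_combination e - aq5 - at5 - ar5 + (4 / 3 : ℂ) * r2

/-- The fourth step. -/
theorem step4 (H : TreeHyp a b W M B C A F κa κab κb) {Y₁ Y₂ p q τ τ' r : G → ℂ}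
    (hon : ONF ![r, τ', τ, q, p, Y₂, Y₁, (1 : G → ℂ)]) (hW : W = Y₁ + Y₂) (hM : M = -Y₁ + p + q)
    (hB : B = -p + τ + τ') (hC : C = 1 + q + τ + r) :
    ∃ Z : G → ℂ, ONF ![Z, r, τ', τ, q, p, Y₂, Y₁, (1 : G → ℂ)] ∧ A = p + Z := by
  obtain ⟨c, hc, hb, hg, hn, ho⟩ := extract hon H.gA (N := 2) (by rw [H.iAA]; norm_num)
  have h0 : classInner A r = c 0 := hc 0
  have h1 : classInner A τ' = c 1 := hc 1
  have h2 : classInner A τ = c 2 := hc 2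
  have h3 : classInner A q = c 3 := hc 3
  have h4 : classInner A p = c 4 := hc 4
  have h5 : classInner A Y₂ = c 5 := hc 5
  have h6 : classInner A Y₁ = c 6 := hc 6
  have c7 : c 7 = 0 := cast_eq (hc 7) (by simpa using H.oA)
  have e1 : c 6 + c 5 = 0 := by
    have h7 := H.iAW
    rw [hW, classInner_add_right, h6, h5] at h7
    exact_mod_cast h7
  have e2 : -c 6 + c 4 + c 3 = 1 := by
    have h7 := H.iAM
    rw [hM, classInner_add_right, classInner_add_right, classInner_neg_right, h6, h4, h3] at h7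
    exact_mod_cast h7
  have e3 : -c 4 + c 2 + c 1 = -1 := by
    have h7 := H.iAB
    rw [hB, classInner_add_right, classInner_add_right, classInner_neg_right, h4, h2, h1] at h7
    exact_mod_cast h7
  have e4 : c 3 + c 2 + c 0 = 0 := by
    have h7 := H.iAC
    rw [hC, classInner_add_right, classInner_add_right, classInner_add_right, H.oA, h3, h2, h0] at h7
    have h8 : 0 + c 3 + c 2 + c 0 = 0 := by exact_mod_cast h7
    linarith
  rw [Fin.sum_univ_eight, c7] at hb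
  rcases intA e1 e2 e3 e4 (by nlinarith) with ⟨a0, a1, a2, a3, a4, a5, a6⟩ | ⟨a0, a1, a2, a3, a4, a5, a6⟩
  · have hv : (2 : ℤ) - ∑ i, c i ^ 2 = 1 := by
      rw [Fin.sum_univ_eight, c7, a0, a1, a2, a3, a4, a5, a6]
      norm_num
    have hon' := extend_one hon hg hn hv ho
    have hz : zsum c ![r, τ', τ, q, p, Y₂, Y₁, (1 : G → ℂ)] = p := by
      simp [zsum, Fin.sum_univ_eight, c7, a0, a1, a2, a3, a4, a5, a6]
    rw [hz] at hon'
    exact ⟨_, hon', by abel⟩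
  · exfalso
    have hv : (2 : ℤ) - ∑ i, c i ^ 2 = 0 := by
      rw [Fin.sum_univ_eight, c7, a0, a1, a2, a3, a4, a5, a6]
      norm_num
    have hA := extract_zero hn hv
    have hz : zsum c ![r, τ', τ, q, p, Y₂, Y₁, (1 : G → ℂ)] = q - τ := by
      simp [zsum, Fin.sum_univ_eight, c7, a0, a1, a2, a3, a4, a5, a6]
      abel
    rw [hz] at hA
    have P := mkPkg H hon hM hB hC
    obtain ⟨v1, v2, -⟩ := H.vA
    rw [hA] at v1 v2
    simp only [Pi.sub_apply] at v1 v2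
    have e5 : q 1 = τ 1 := by linear_combination v1
    have e6 : q a = τ a := by linear_combination v2
    refine kill_A2 P.hσ (by rw [P.hm]) P.nq P.nτ P.nτ' P.np P.nY H.hκa ?_ P.lP₁ P.lY₁ P.Baa P.Maa
    rw [tA, tA, e5, e6]

theorem sum_univ_nine {M : Type*} [AddCommMonoid M] (f : Fin 9 → M) :
    ∑ i, f i = f 0 + f 1 + f 2 + f 3 + f 4 + f 5 + f 6 + f 7 + f 8 := by
  rw [Fin.sum_univ_castSucc, Fin.sum_univ_eight]
  rfl

/-- The main theorem of the tree. -/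
theorem tree_main (H : TreeHyp a b W M B C A F κa κab κb) :
    ∃ τ : G → ℂ, IsSignedIrr G τ ∧ τ 1 = 3 ∧ τ a ≠ 3 := by
  obtain ⟨Y₁, Y₂, p₀, q₀, on1, hW, hM₀⟩ := step1 H
  obtain ⟨p, q, τ₀, τ₁, on2, hM, hB₀⟩ := step2 H on1 hW hM₀
  obtain ⟨τ, τ', r, on3, hB, hC⟩ := step3 H on2 hW hM hB₀
  obtain ⟨Z, on4, hA⟩ := step4 H on3 hW hM hB hC
  have P := mkPkg H on3 hM hB hC
  obtain ⟨c, hc, hb, hg, hn, ho⟩ := extract on4 H.gF (N := 4) (by rw [H.iFF]; norm_num)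
  have h0 : classInner F Z = c 0 := hc 0
  have h1 : classInner F r = c 1 := hc 1
  have h2 : classInner F τ' = c 2 := hc 2
  have h3 : classInner F τ = c 3 := hc 3
  have h4 : classInner F q = c 4 := hc 4
  have h5 : classInner F p = c 5 := hc 5
  have h6 : classInner F Y₂ = c 6 := hc 6
  have h7 : classInner F Y₁ = c 7 := hc 7
  have c8 : c 8 = 1 := cast_eq (hc 8) (by simpa using H.oF)
  have e1 : c 7 + c 6 = 1 := by
    have h8 := H.iFW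
    rw [hW, classInner_add_right, h7, h6] at h8
    exact_mod_cast h8
  have e2 : -c 7 + c 5 + c 4 = -1 := by
    have h8 := H.iFM
    rw [hM, classInner_add_right, classInner_add_right, classInner_neg_right, h7, h5, h4] at h8
    exact_mod_cast h8
  have e3 : -c 5 + c 3 + c 2 = 1 := by
    have h8 := H.iFB
    rw [hB, classInner_add_right, classInner_add_right, classInner_neg_right, h5, h3, h2] at h8
    exact_mod_cast h8
  have e4 : c 4 + c 3 + c 1 = 0 := by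
    have h8 := H.iFC
    rw [hC, classInner_add_right, classInner_add_right, classInner_add_right, H.oF, h4, h3, h1] at h8
    have h9 : 1 + c 4 + c 3 + c 1 = 1 := by exact_mod_cast h8
    linarith
  have e5 : c 5 + c 0 = 0 := by
    have h8 := H.iFA
    rw [hA, classInner_add_right, h5, h0] at h8
    exact_mod_cast h8
  rw [sum_univ_nine, c8] at hb
  have hs : c 0 ^ 2 + c 1 ^ 2 + c 2 ^ 2 + c 3 ^ 2 + c 4 ^ 2 + c 5 ^ 2 + c 6 ^ 2 + c 7 ^ 2 ≤ 3 := by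
    norm_num at hb
    linarith
  -- common data
  obtain ⟨r1, r2, r3⟩ := rho_facts H
  set ρ := κa / κab with hρ
  have sr : IsSignedIrr G r := on4.sgn 1
  have sτ' : IsSignedIrr G τ' := on4.sgn 2
  have sτ : IsSignedIrr G τ := on4.sgn 3
  have sq : IsSignedIrr G q := on4.sgn 4
  have sp : IsSignedIrr G p := on4.sgn 5
  have sY₂ : IsSignedIrr G Y₂ := on4.sgn 6
  have sY₁ : IsSignedIrr G Y₁ := on4.sgn 7
  have sZ : IsSignedIrr G Z := on4.sgn 0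
  obtain ⟨aY1, aY2, aY3, aY4, aY5⟩ := atom ρ a b sY₁
  obtain ⟨ap1, ap2, ap3, ap4, ap5⟩ := atom ρ a b sp
  obtain ⟨aq1, aq2, aq3, aq4, aq5⟩ := atom ρ a b sq
  obtain ⟨at1, at2, at3, at4, at5⟩ := atom ρ a b sτ
  obtain ⟨as1, as2, as3, as4, as5⟩ := atom ρ a b sτ'
  obtain ⟨ar1, ar2, ar3, ar4, ar5⟩ := atom ρ a b sr
  obtain ⟨vF1, vFa, vFb⟩ := H.vF
  obtain ⟨fF1, fF2, fF3⟩ := H.fF
  obtain ⟨vW1, vWa, vWb⟩ := H.vW
  rw [hW] at vW1 vWa vWb
  simp only [Pi.add_apply] at vW1 vWa vWb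
  have y21 : Y₂ 1 = -Y₁ 1 := by linear_combination vW1
  have y2a : Y₂ a = -Y₁ a := by linear_combination vWa
  have y2b : Y₂ b = -Y₁ b := by linear_combination vWb
  rcases intF e1 e2 e3 e4 e5 hs with ⟨a0, a1, a2, a3, a4, a5, a6, a7⟩ | ⟨a0, a1, a2, a3, a4, a5, a6, a7⟩ |
      ⟨a0, a1, a2, a3, a4, a5, a6, a7⟩ | ⟨a0, a1, a2, a3, a4, a5, a6, a7⟩
  · -- the main case
    have hv : (4 : ℤ) - ∑ i, c i ^ 2 = 1 := by
      rw [sum_univ_nine, c8, a0, a1, a2, a3, a4, a5, a6, a7]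
      norm_num
    have hon' := extend_one on4 hg hn hv ho
    have hz : zsum c ![Z, r, τ', τ, q, p, Y₂, Y₁, (1 : G → ℂ)] = τ' + Y₁ + 1 := by
      simp [zsum, sum_univ_nine, c8, a0, a1, a2, a3, a4, a5, a6, a7]
    rw [hz] at hon'
    have sφ : IsSignedIrr G (F - (τ' + Y₁ + 1)) := hon'.sgn 0
    obtain ⟨φ, hφ⟩ : ∃ φ, φ = F - (τ' + Y₁ + 1) := ⟨_, rfl⟩
    rw [← hφ] at sφ
    have hF : F = 1 + Y₁ + τ' + φ := by
      rw [hφ]
      abel
    obtain ⟨af1, af2, af3, af4, af5⟩ := atom ρ a b sφ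
    rw [hF] at vF1 vFa vFb fF1 fF2 fF3
    simp only [Pi.add_apply, Pi.one_apply] at vF1 vFa vFb
    rw [Ph_add, Ph_add, Ph_add, Ph_one'] at fF1 fF2 fF3
    have hfin := final_alg (D := q 1) (T := τ 1) (T' := τ' 1) (σ := p 1) (m := Y₁ 1) (A₀ := -r 1) (A₁ := -φ 1)
      (κ := κa) (u₁ := 1) (u₂ := ρ) (q₁ := tA a q) (q₂ := tB ρ b q) (c₁ := tA a τ) (c₂ := tB ρ b τ)
      (d₁ := tA a τ') (d₂ := tB ρ b τ') (P₁ := tA a p) (P₂ := tB ρ b p) (Y₁ := tA a Y₁) (Y₂ := tB ρ b Y₁)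
      (R₁ := tA a r) (R₂ := tB ρ b r) (F₁ := tA a φ) (F₂ := tB ρ b φ)
      P.hσ P.hm P.hA₀ (by linear_combination -vF1) P.nq P.nτ P.nτ' P.np P.nY P.nr
      (neg_ne_zero.mpr (signed_one_ne_zero sφ)) H.hκa P.lP₁ P.lP₂ P.lY₁ P.lY₂ P.lR₁ P.lR₂
      (by rw [neg_mul, af1, aY1, as1]; linear_combination -vFa)
      (by rw [neg_mul, af2, aY2, as2]; linear_combination (-ρ) * vFb)
      P.Baa P.Bab P.Bbb P.Maa P.Mab P.Mbb P.Caa P.Cab P.Cbb
      (by linear_combination fF1 - aY3 - as3 - af3)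
      (by
        have e : ρ * (1 + Ph Y₁ a b + Ph τ' a b + Ph φ a b) = ρ * (2 / 3 * κab) := by rw [fF2]
        linear_combination e - aY4 - as4 - af4 + (2 / 3 : ℂ) * r1)
      (by
        have e : ρ * (ρ * (1 + Ph Y₁ b b + Ph τ' b b + Ph φ b b)) = ρ * (ρ * κb) := by rw [fF3]
        linear_combination e - aY5 - as5 - af5 + r2)
    obtain ⟨-, h3, -, hne⟩ := hfin
    refine ⟨τ, sτ, h3, ?_⟩
    intro e
    apply hne
    rw [tA, e, h3]
    norm_num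
  · -- F = 1 + Y₁ + τ - r
    exfalso
    have hv : (4 : ℤ) - ∑ i, c i ^ 2 = 0 := by
      rw [sum_univ_nine, c8, a0, a1, a2, a3, a4, a5, a6, a7]
      norm_num
    have hF := extract_zero hn hv
    have hz : zsum c ![Z, r, τ', τ, q, p, Y₂, Y₁, (1 : G → ℂ)] = 1 + Y₁ + τ - r := by
      simp [zsum, sum_univ_nine, c8, a0, a1, a2, a3, a4, a5, a6, a7]
      abel
    rw [hz] at hF
    rw [hF] at vF1 vFa fF1
    simp only [Pi.add_apply, Pi.sub_apply, Pi.one_apply] at vF1 vFa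
    rw [Ph_sub, Ph_add, Ph_add, Ph_one'] at fF1
    refine kill_F2 (u₁ := 1) (q₁ := tA a q) (c₁ := tA a τ) (d₁ := tA a τ') (P₁ := tA a p) (Y₁ := tA a Y₁)
      (R₁ := tA a r) (A₀ := -r 1) P.hσ P.hm P.hA₀ P.nq P.nτ P.nτ' P.np P.nY P.nr H.hκa P.lP₁ P.lY₁ P.lR₁ ?_ ?_
      P.Baa P.Maa P.Caa ?_
    · linear_combination vF1
    · rw [neg_mul, ar1, aY1, at1]
      linear_combination vFa
    · linear_combination fF1 - aY3 - at3 + ar3
  · -- F = 1 + Y₂ - q + τ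
    exfalso
    have hv : (4 : ℤ) - ∑ i, c i ^ 2 = 0 := by
      rw [sum_univ_nine, c8, a0, a1, a2, a3, a4, a5, a6, a7]
      norm_num
    have hF := extract_zero hn hv
    have hz : zsum c ![Z, r, τ', τ, q, p, Y₂, Y₁, (1 : G → ℂ)] = 1 + Y₂ - q + τ := by
      simp [zsum, sum_univ_nine, c8, a0, a1, a2, a3, a4, a5, a6, a7]
      abel
    rw [hz] at hF
    rw [hF] at vF1 vFa fF1
    simp only [Pi.add_apply, Pi.sub_apply, Pi.one_apply] at vF1 vFa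
    rw [Ph_add, Ph_sub, Ph_add, Ph_one', Ph_neg_vals sY₁ sY₂ a a y21 y2a y2a] at fF1
    rw [y21] at vF1
    rw [y2a] at vFa
    obtain ⟨k, -, hk⟩ := signed_exists_int_one sY₁
    refine kill_F3 (k := k) (u₁ := 1) (q₁ := tA a q) (c₁ := tA a τ) (d₁ := tA a τ') (P₁ := tA a p) (Y₁ := tA a Y₁)
      (R₁ := tA a r) (A₀ := -r 1) hk P.hσ P.hm P.hA₀ P.nq P.nτ P.nτ' P.np P.nY P.nr H.hκa P.lP₁ P.lY₁ P.lR₁ ?_ ?_
      P.Baa P.Maa P.Caa ?_
    · linear_combination vF1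
    · rw [aY1, aq1, at1]
      linear_combination vFa
    · linear_combination fF1 + aY3 + aq3 - at3
  · -- F = 1 + Y₂ - p + Z
    exfalso
    have hv : (4 : ℤ) - ∑ i, c i ^ 2 = 0 := by
      rw [sum_univ_nine, c8, a0, a1, a2, a3, a4, a5, a6, a7]
      norm_num
    have hF := extract_zero hn hv
    have hz : zsum c ![Z, r, τ', τ, q, p, Y₂, Y₁, (1 : G → ℂ)] = 1 + Y₂ - p + Z := by
      simp [zsum, sum_univ_nine, c8, a0, a1, a2, a3, a4, a5, a6, a7]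
      abel
    rw [hz] at hF
    obtain ⟨vA1, vAa, vAb⟩ := H.vA
    rw [hA] at vA1 vAa vAb
    simp only [Pi.add_apply] at vA1 vAa vAb
    have z1 : Z 1 = -p 1 := by linear_combination vA1
    have zb : Z b = -p b := by linear_combination vAb
    rw [hF] at vF1 vFb fF3
    simp only [Pi.add_apply, Pi.sub_apply, Pi.one_apply] at vF1 vFb
    rw [Ph_add, Ph_sub, Ph_add, Ph_one', Ph_neg_vals sY₁ sY₂ b b y21 y2b y2b,
      Ph_neg_vals sp sZ b b z1 zb zb] at fF3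
    rw [y21, z1] at vF1
    rw [y2b, zb] at vFb
    refine kill_F4 (u₂ := ρ) (q₂ := tB ρ b q) (P₂ := tB ρ b p) (Y₂ := tB ρ b Y₁) P.hm P.nq P.np H.hκa P.nY P.lY₂ ?_ ?_
      P.Mbb ?_
    · linear_combination vF1
    · rw [aY2, mul_assoc, ap2]
      linear_combination ρ * vFb
    · have e : ρ * (ρ * (1 + -Ph Y₁ b b - Ph p b b + -Ph p b b)) = ρ * (ρ * κb) := by rw [fF3]
      linear_combination e + aY5 + 2 * ap5 + r2

end Cfsg.Agent.Lib.Recog14
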