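import Mathlib
import Cfsg.Agent.Lib.Recog14.Sit1
import Cfsg.Agent.Lib.Recog14.Tree3
import Cfsg.Agent.Lib.Recog13.IndIso

/-!
# Fusion of the involutions, and class sums for induced functions
-/

set_option autoImplicit false
set_option maxRecDepth 100000

namespace Cfsg.Agent.Lib.Recog14

open Cfsg Cfsg.Agent.Lib.Char.Induced

universe u

variable {G : Type u} [Group G] {H J : Subgroup G} {e : H ≃* E14}

theorem pow81_of_pow {A : Type*} [Group A] [Finite A] (hA : Nat.card A = 648) {z : A} {n : ℕ} (h1 : z ^ 3 ^ n = 1) :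
    z ^ 81 = 1 := by
  have h2 : orderOf z ∣ 3 ^ n := orderOf_dvd_of_pow_eq_one h1
  have h3 : orderOf z ∣ 648 := by
    rw [← hA]
    exact orderOf_dvd_natCard z
  obtain ⟨m, -, hm⟩ := (Nat.dvd_prime_pow Nat.prime_three).mp h2
  have hm4 : m ≤ 4 := by
    by_contra hlt
    have h5 : 3 ^ 5 ∣ 3 ^ m := pow_dvd_pow 3 (by omega)
    rw [hm] at h3
    have h6 : 3 ^ 5 ∣ 648 := h5.trans h3
    norm_num at h6
  have h7 : orderOf z ∣ 81 := by
    rw [hm]
    have h8 : (3 : ℕ) ^ m ∣ 3 ^ 4 := pow_dvd_pow 3 hm4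
    simpa using h8
  exact orderOf_dvd_iff_pow_eq_one.mp h7

/-- The two classes of involutions of the model are not fused. -/
theorem Sit14.not_conj_ab (S : Sit14 e J) [Finite G] : ¬ IsConj (iota e a0) (iota e b0) := by
  intro hc
  obtain ⟨g, hg⟩ := isConj_iff.mp hc
  obtain ⟨f1, f2, f3, f4, f5, f6, f7, f8, f9, f10⟩ := sep_facts
  let E1 : E14 := ⟨e1', inJ_even _ f1⟩
  let J2 : E14 := ⟨j2', inJ_even _ f2⟩
  have ne : ∀ z : E14, z.1 ≠ 1 → iota e z ≠ 1 := by
    intro z hz h
    apply hz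
    have h2 : z = 1 := iota_inj e (by rw [h, map_one])
    rw [h2]
    rfl
  have mE : iota e E1 ∈ J := (S.memJ E1).mpr f1
  have mJ2 : iota e J2 ∈ J := (S.memJ J2).mpr f2
  have neE : iota e E1 ≠ 1 := ne E1 f3
  have neJ : iota e J2 ≠ 1 := ne J2 f4
  have cE : iota e a0 * iota e E1 = iota e E1 * iota e a0 := by
    rw [← map_mul, ← map_mul]
    congr 1
  have cJ : iota e b0 * iota e J2 = iota e J2 * iota e b0 := by
    rw [← map_mul, ← map_mul]
    congr 1
  set C : Subgroup G := Subgroup.centralizer ({iota e b0} : Set G) with hCdef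
  have memC : ∀ z, z ∈ C ↔ z * iota e b0 = iota e b0 * z := fun z => Subgroup.mem_centralizer_singleton_iff
  let t : C := ⟨iota e J2, (memC _).mpr cJ.symm⟩
  let f : C := ⟨g * iota e E1 * g⁻¹, (memC _).mpr (by
    rw [← hg]
    calc g * iota e E1 * g⁻¹ * (g * iota e a0 * g⁻¹) = g * (iota e E1 * iota e a0) * g⁻¹ := by group
      _ = g * (iota e a0 * iota e E1) * g⁻¹ := by rw [cE]
      _ = _ := by group)⟩
  have e3 : E1 * E1 * E1 = 1 := Subtype.ext f7
  have j3' : J2 * J2 * J2 = 1 := Subtype.ext f8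
  have ht3 : t ^ 3 = 1 := by
    apply Subtype.ext
    show iota e J2 ^ 3 = 1
    rw [← map_pow, pow_three, ← mul_assoc, j3', map_one]
  have ht1 : t ≠ 1 := fun h => neJ (congrArg Subtype.val h)
  have hf3 : f ^ 3 = 1 := by
    apply Subtype.ext
    show (g * iota e E1 * g⁻¹) ^ 3 = 1
    rw [conj_pow, ← map_pow, pow_three, ← mul_assoc, e3, map_one]
    group
  have hf1 : f ≠ 1 := by
    intro h
    have h1 : g * iota e E1 * g⁻¹ = 1 := congrArg Subtype.val h
    apply neE
    have h2 : iota e E1 = g⁻¹ * (g * iota e E1 * g⁻¹) * g := by group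
    rw [h2, h1]
    group
  have hcen : ∀ y : C, y * t = t * y → (∃ n : ℕ, y ^ 3 ^ n = 1) → y = 1 ∨ y = t ∨ y = t * t := by
    intro y hyt hy3
    have h1 : y.1 * iota e J2 = iota e J2 * y.1 := congrArg Subtype.val hyt
    have h2 : y.1 ∈ H := by
      apply S.hC _ mJ2 neJ
      rw [Subgroup.mem_centralizer_singleton_iff]
      exact h1
    obtain ⟨u, hu⟩ := exists_iota e h2
    have h3 : u * b0 = b0 * u := by
      apply iota_inj e
      rw [map_mul, map_mul, hu]
      exact (memC _).mp y.2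
    obtain ⟨n, hn⟩ := hy3
    have h4 : u ^ 3 ^ n = 1 := by
      apply iota_inj e
      rw [map_pow, hu, map_one]
      exact congrArg Subtype.val hn
    have h5 : u ^ 81 = 1 := pow81_of_pow natCard_E14 h4
    have h6 : c81 u.1 = 1 := by
      rw [c81_eq]
      exact congrArg Subtype.val h5
    rcases cen_b0 u.1 u.2 (congrArg Subtype.val h3) h6 with h7 | h7 | h7
    · left
      apply Subtype.ext
      have h8 : u = 1 := Subtype.ext h7
      rw [← hu, h8, map_one]
      rfl
    · right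
      left
      apply Subtype.ext
      have h8 : u = J2 := Subtype.ext h7
      rw [← hu, h8]
    · right
      right
      apply Subtype.ext
      have h8 : u = J2 * J2 := Subtype.ext h7
      rw [← hu, h8, map_mul]
      rfl
  obtain ⟨w, hw⟩ := conj_three (D := C) ht3 ht1 hcen hf3 hf1
  -- the conjugating element lies in `H`
  have hconj : (w.1 * g) * iota e E1 * (w.1 * g)⁻¹ = iota e J2 ∨
      (w.1 * g) * iota e E1 * (w.1 * g)⁻¹ = iota e (J2 * J2) := by
    rcases hw with h | h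
    · left
      have h1 : w.1 * (g * iota e E1 * g⁻¹) * w.1⁻¹ = iota e J2 := congrArg Subtype.val h
      rw [← h1]
      group
    · right
      have h1 : w.1 * (g * iota e E1 * g⁻¹) * w.1⁻¹ = iota e J2 * iota e J2 := congrArg Subtype.val h
      rw [map_mul, ← h1]
      group
  have hmem : (w.1 * g) * iota e E1 * (w.1 * g)⁻¹ ∈ H := by
    rcases hconj with h | h <;> rw [h] <;> exact iota_mem e _
  obtain ⟨u, hu⟩ := exists_iota e (S.ti mE neE hmem)
  have hwt := wt_e1 u.1 u.2
  rcases hconj with h | h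
  · rw [← hu, ← map_inv, ← map_mul, ← map_mul] at h
    have h2 : u * E1 * u⁻¹ = J2 := iota_inj e h
    have h3 : u.1 * e1' * u.1⁻¹ = j2' := congrArg Subtype.val h2
    rw [h3, f9] at hwt
    exact absurd hwt (by norm_num)
  · rw [← hu, ← map_inv, ← map_mul, ← map_mul] at h
    have h2 : u * E1 * u⁻¹ = J2 * J2 := iota_inj e h
    have h3 : u.1 * e1' * u.1⁻¹ = j2' * j2' := congrArg Subtype.val h2
    rw [h3, f10] at hwt
    exact absurd hwt (by norm_num)

theorem iota_conj_of (u k k' : E14) (h : u * k * u⁻¹ = k') : IsConj (iota e k) (iota e k') := by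
  rw [isConj_iff]
  refine ⟨iota e u, ?_⟩
  rw [← h, ← map_inv, ← map_mul, ← map_mul]

theorem invol_of_conj {x y : G} (hx : x * x = 1) (h : IsConj x y) : y * y = 1 := by
  obtain ⟨c, rfl⟩ := isConj_iff.mp h
  calc c * x * c⁻¹ * (c * x * c⁻¹) = c * (x * x) * c⁻¹ := by group
    _ = 1 := by rw [hx]; group

theorem iota_a0_sq : iota e a0 * iota e a0 = 1 := by
  rw [← map_mul]
  have h : a0 * a0 = 1 := Subtype.ext a0_sq
  rw [h, map_one]

theorem iota_b0_sq : iota e b0 * iota e b0 = 1 := by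
  rw [← map_mul]
  have h : b0 * b0 = 1 := Subtype.ext b0_sq
  rw [h, map_one]

theorem invol_cases {k : E14} (h : iota e k * iota e k = 1) (h1 : iota e k ≠ 1) : cl k.1 = 1 ∨ cl k.1 = 3 := by
  apply invol_cl k.1 k.2
  · have h2 : k * k = 1 := iota_inj e (by rw [map_mul, h, map_one])
    exact congrArg Subtype.val h2
  · intro h2
    have h3 : k = 1 := Subtype.ext h2
    rw [h3, map_one] at h1
    exact h1 rfl

theorem iota_a0_ne : iota e a0 ≠ 1 := by
  intro h
  have h1 : a0 = 1 := iota_inj e (by rw [h, map_one])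
  have h2 : cl a0.1 = 0 := by
    rw [h1]
    decide +kernel
  rw [cl_a0] at h2
  exact absurd h2 (by decide)

theorem iota_b0_ne : iota e b0 ≠ 1 := by
  intro h
  have h1 : b0 = 1 := iota_inj e (by rw [h, map_one])
  have h2 : cl b0.1 = 0 := by
    rw [h1]
    decide +kernel
  rw [cl_b0] at h2
  exact absurd h2 (by decide)

theorem ne_one_of_conj {x y : G} (hx : x ≠ 1) (h : IsConj x y) : y ≠ 1 := by
  intro hy
  rw [hy] at h
  exact hx (isConj_one_right.mp h.symm)

theorem conj_c1 (k : E14) (h : cl k.1 = 1) : IsConj (iota e a0) (iota e k) := by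
  obtain ⟨u, hu, hu2⟩ := cl1_conj k.1 k.2 h
  exact iota_conj_of ⟨u, hu⟩ a0 k (Subtype.ext hu2)

theorem conj_c3 (k : E14) (h : cl k.1 = 3) : IsConj (iota e b0) (iota e k) := by
  obtain ⟨u, hu, hu2⟩ := cl3_conj k.1 k.2 h
  exact iota_conj_of ⟨u, hu⟩ b0 k (Subtype.ext hu2)

/-- The conjugates of the first involution in the model. -/
theorem Sit14.conj_a (S : Sit14 e J) [Finite G] (k : E14) : IsConj (iota e a0) (iota e k) ↔ cl k.1 = 1 := by
  constructor
  · intro h
    rcases invol_cases (invol_of_conj iota_a0_sq h) (ne_one_of_conj iota_a0_ne h) with h1 | h1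
    · exact h1
    · exact absurd (h.trans (conj_c3 k h1).symm) S.not_conj_ab
  · exact conj_c1 k

/-- The conjugates of the second involution in the model. -/
theorem Sit14.conj_b (S : Sit14 e J) [Finite G] (k : E14) : IsConj (iota e b0) (iota e k) ↔ cl k.1 = 3 := by
  constructor
  · intro h
    rcases invol_cases (invol_of_conj iota_b0_sq h) (ne_one_of_conj iota_b0_ne h) with h1 | h1
    · exact absurd (h.trans (conj_c1 k h1).symm).symm S.not_conj_ab
    · exact h1
  · exact conj_c3 k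

section ssum

variable [Fintype G]

/-- The first step: the class sum of an induced function. -/
theorem ssum_indFun (φ : H → ℂ) (x y : G) :
    ssum (indFun H φ) x y = (Nat.card H : ℂ)⁻¹ * (Nat.card G : ℂ) * ssum (extendByZero H φ) x y := by
  classical
  set E := extendByZero H φ with hE
  let T : G → G → ℂ := fun s s' => if IsConj x s ∧ IsConj y s' then E (s * s') else 0
  have h1 : ∀ t : G, ∑ s, ∑ s', T (t⁻¹ * s * t) (t⁻¹ * s' * t) = ssum E x y := by
    intro t
    rw [sum_conj_reindex t (fun s => ∑ s', T s (t⁻¹ * s' * t))]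
    refine Finset.sum_congr rfl fun s _ => ?_
    rw [sum_conj_reindex t (T s)]
  have h2 : ∀ s s' : G, (if IsConj x s ∧ IsConj y s' then indFun H φ (s * s') else 0) =
      (Nat.card H : ℂ)⁻¹ * ∑ t : G, T (t⁻¹ * s * t) (t⁻¹ * s' * t) := by
    intro s s'
    by_cases hc : IsConj x s ∧ IsConj y s'
    · rw [if_pos hc, indFun_apply]
      congr 1
      refine Finset.sum_congr rfl fun t _ => ?_
      have h3 : IsConj x (t⁻¹ * s * t) ∧ IsConj y (t⁻¹ * s' * t) := by
        refine ⟨hc.1.trans ?_, hc.2.trans ?_⟩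
        · rw [isConj_iff]
          exact ⟨t⁻¹, by group⟩
        · rw [isConj_iff]
          exact ⟨t⁻¹, by group⟩
      simp only [T]
      rw [if_pos h3]
      congr 1
      group
    · rw [if_neg hc]
      have h4 : ∀ t : G, T (t⁻¹ * s * t) (t⁻¹ * s' * t) = 0 := by
        intro t
        simp only [T]
        rw [if_neg]
        intro h3
        apply hc
        refine ⟨h3.1.trans ?_, h3.2.trans ?_⟩
        · rw [isConj_iff]
          exact ⟨t, by group⟩
        · rw [isConj_iff]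
          exact ⟨t, by group⟩
      simp [h4]
  rw [ssum]
  simp only [h2, ← Finset.mul_sum]
  rw [mul_assoc]
  congr 1
  have h5 : ∑ s : G, ∑ s' : G, ∑ t : G, T (t⁻¹ * s * t) (t⁻¹ * s' * t) =
      ∑ t : G, ∑ s : G, ∑ s' : G, T (t⁻¹ * s * t) (t⁻¹ * s' * t) := by
    calc ∑ s : G, ∑ s' : G, ∑ t : G, T (t⁻¹ * s * t) (t⁻¹ * s' * t)
        = ∑ s : G, ∑ t : G, ∑ s' : G, T (t⁻¹ * s * t) (t⁻¹ * s' * t) :=
          Finset.sum_congr rfl fun s _ => Finset.sum_comm
      _ = _ := Finset.sum_comm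
  rw [h5]
  simp only [h1]
  rw [Finset.sum_const, Finset.card_univ, nsmul_eq_mul, Nat.card_eq_fintype_card]

theorem Fintype_sum_iota (e : H ≃* E14) (F : G → ℂ) (hF : ∀ s, s ∉ H → F s = 0) :
    ∑ s : G, F s = ∑ k : E14, F (iota e k) := by
  symm
  refine Fintype.sum_of_injective (iota e) (iota_inj e) _ _ ?_ (fun _ => rfl)
  intro i hi
  apply hF
  intro hmem
  exact hi (exists_iota e hmem)

open Classical in
/-- The class sum of an induced function, for involutions. -/
theorem Sit14.ssum_ind (S : Sit14 e J) {f : E14 → ℂ} (hvan : ∀ k : E14, (cl k.1).val < 5 → f k = 0) {x y : G}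
    (hx : x * x = 1) (hy : y * y = 1) :
    ssum (indFun H (fun h => f (e h))) x y = (Nat.card H : ℂ)⁻¹ * (Nat.card G : ℂ) *
      ∑ k : E14, ∑ k' : E14, if IsConj x (iota e k) ∧ IsConj y (iota e k') then f (k * k') else 0 := by
  classical
  rw [ssum_indFun]
  congr 1
  set Ef := extendByZero H (fun h => f (e h)) with hEf
  have Eι : ∀ k, Ef (iota e k) = f k := by
    intro k
    have h1 : iota e k = ((e.symm k : H) : G) := rfl
    rw [h1, hEf, extendByZero_coe]
    simp
  have key : ∀ s s' : G, IsConj x s → IsConj y s' → Ef (s * s') ≠ 0 → s ∈ H ∧ s' ∈ H := by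
    intro s s' hs hs' hne
    have hmem : s * s' ∈ H := by
      by_contra hn
      exact hne (extendByZero_of_notMem H _ hn)
    obtain ⟨k, hk⟩ := exists_iota e hmem
    have hcl : 5 ≤ (cl k.1).val := by
      by_contra hlt
      apply hne
      rw [← hk, Eι]
      exact hvan k (by omega)
    have hs2 : s * s = 1 := invol_of_conj hx hs
    have hs2' : s' * s' = 1 := invol_of_conj hy hs'
    have h1 : s * iota e k * s⁻¹ ∈ H := by
      have h2 : s * iota e k * s⁻¹ = (s * s')⁻¹ := by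
        rw [hk]
        have h3 : s⁻¹ = s := inv_eq_of_mul_eq_one_left hs2
        have h4 : s'⁻¹ = s' := inv_eq_of_mul_eq_one_left hs2'
        rw [mul_inv_rev, h3, h4]
        calc s * (s * s') * s = (s * s) * s' * s := by group
          _ = s' * s := by rw [hs2, one_mul]
      rw [h2]
      exact H.inv_mem hmem
    have h2 : s ∈ H := S.conj_mem hcl h1
    refine ⟨h2, ?_⟩
    have h3 : s' = s⁻¹ * (s * s') := by group
    rw [h3]
    exact H.mul_mem (H.inv_mem h2) hmem
  rw [ssum]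
  rw [Fintype_sum_iota e]
  · refine Finset.sum_congr rfl fun k _ => ?_
    rw [Fintype_sum_iota e]
    · refine Finset.sum_congr rfl fun k' _ => ?_
      rw [← map_mul, Eι]
    · intro s' hs'
      by_cases hc : IsConj x (iota e k) ∧ IsConj y s'
      · rw [if_pos hc]
        by_contra hne
        exact hs' (key _ _ hc.1 hc.2 hne).2
      · rw [if_neg hc]
  · intro s hs
    apply Finset.sum_eq_zero
    intro s' _
    by_cases hc : IsConj x s ∧ IsConj y s'
    · rw [if_pos hc]
      by_contra hne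
      exact hs (key _ _ hc.1 hc.2 hne).1
    · rw [if_neg hc]

end ssum

/-- The reduction of the double sum in the model. -/
theorem sum_class_red {f : E14 → ℂ} (hf : IsClassFunction E14 f) {c₁ c₂ : Fin 14} {x₀ : E14}
    (h₁ : ∀ k : E14, cl k.1 = c₁ → ∃ u : E14, u * x₀ * u⁻¹ = k)
    (h₂ : ∀ u k : E14, cl (u * k * u⁻¹).1 = c₂ ↔ cl k.1 = c₂) :
    (∑ k : E14, ∑ k' : E14, if cl k.1 = c₁ ∧ cl k'.1 = c₂ then f (k * k') else 0) =
      (szC c₁ : ℂ) * ∑ k' : E14, if cl k'.1 = c₂ then f (x₀ * k') else 0 := by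
  classical
  set M : ℂ := ∑ k' : E14, if cl k'.1 = c₂ then f (x₀ * k') else 0 with hM
  have h1 : ∀ k : E14, (∑ k' : E14, if cl k.1 = c₁ ∧ cl k'.1 = c₂ then f (k * k') else 0) =
      if cl k.1 = c₁ then M else 0 := by
    intro k
    by_cases hk : cl k.1 = c₁
    · rw [if_pos hk]
      obtain ⟨u, rfl⟩ := h₁ k hk
      rw [hM, ← sum_conj_reindex u (fun k' => if cl k'.1 = c₂ then f (x₀ * k') else 0)]
      refine Finset.sum_congr rfl fun k' _ => ?_
      have h2 : cl (u⁻¹ * k' * u).1 = c₂ ↔ cl k'.1 = c₂ := by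
        have h3 := h₂ u⁻¹ k'
        rwa [inv_inv] at h3
      by_cases hk' : cl k'.1 = c₂
      · rw [if_pos ⟨hk, hk'⟩, if_pos (h2.mpr hk')]
        have h3 := hf (x₀ * (u⁻¹ * k' * u)) u
        rw [← h3]
        congr 1
        group
      · rw [if_neg (fun h => hk' h.2), if_neg (fun h => hk' (h2.mp h))]
    · rw [if_neg hk]
      apply Finset.sum_eq_zero
      intro k' _
      rw [if_neg (fun h => hk h.1)]
  simp only [h1]
  rw [Finset.sum_ite, Finset.sum_const_zero, add_zero, Finset.sum_const, nsmul_eq_mul, ← cl_card c₁]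
  push_cast
  rfl

theorem cl3_inv (u k : E14) : cl (u * k * u⁻¹).1 = 3 ↔ cl k.1 = 3 := by
  have key : ∀ u k : E14, cl k.1 = 3 → cl (u * k * u⁻¹).1 = 3 := by
    intro u k hk
    obtain ⟨v, hv, hv2⟩ := cl3_conj k.1 k.2 hk
    obtain ⟨v', hv'⟩ : ∃ v' : E14, v' = ⟨v, hv⟩ := ⟨_, rfl⟩
    have h2 : k = v' * b0 * v'⁻¹ := by
      rw [hv']
      exact Subtype.ext hv2.symm
    obtain ⟨w, hw⟩ : ∃ w : E14, w = u * v' := ⟨_, rfl⟩
    have h1 : u * k * u⁻¹ = w * b0 * w⁻¹ := by
      rw [h2, hw]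
      group
    have h4 : (w * b0 * w⁻¹).1 = w.1 * b0.1 * w.1⁻¹ := rfl
    rw [h1, h4]
    exact conj_b0 w.1 w.2
  constructor
  · intro h
    have h2 := key u⁻¹ _ h
    have h3 : u⁻¹ * (u * k * u⁻¹) * u⁻¹⁻¹ = k := by group
    rwa [h3] at h2
  · exact key u k

theorem cl1_inv (u k : E14) : cl (u * k * u⁻¹).1 = 1 ↔ cl k.1 = 1 := by
  have key : ∀ u k : E14, cl k.1 = 1 → cl (u * k * u⁻¹).1 = 1 := by
    intro u k hk
    obtain ⟨v, hv, hv2⟩ := cl1_conj k.1 k.2 hk
    obtain ⟨v', hv'⟩ : ∃ v' : E14, v' = ⟨v, hv⟩ := ⟨_, rfl⟩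
    have h2 : k = v' * a0 * v'⁻¹ := by
      rw [hv']
      exact Subtype.ext hv2.symm
    obtain ⟨w, hw⟩ : ∃ w : E14, w = u * v' := ⟨_, rfl⟩
    have h1 : u * k * u⁻¹ = w * a0 * w⁻¹ := by
      rw [h2, hw]
      group
    have h4 : (w * a0 * w⁻¹).1 = w.1 * a0.1 * w.1⁻¹ := rfl
    rw [h1, h4]
    exact conj_a0 w.1 w.2
  constructor
  · intro h
    have h2 := key u⁻¹ _ h
    have h3 : u⁻¹ * (u * k * u⁻¹) * u⁻¹⁻¹ = k := by group
    rwa [h3] at h2
  · exact key u k

theorem chi_rows_class (i : Fin 6) : IsClassFunction E14 (chi (rA i) (rB i)) :=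
  Cfsg.Agent.Lib.Blocks.BSInd.IsGeneralized_isClassFunction (isGen_row i)

/-- The moments in terms of the table. -/
theorem m_sum {c : Fin 14} {x₀ : E14} (A B : Fin 14 → ℤ) :
    (∑ k' : E14, if cl k'.1 = c then chi A B (x₀ * k') else 0) =
      (((∑ k : E14, if cl k.1 = c then A (cl (x₀ * k).1) else 0 : ℤ)) : ℂ) +
        sq3 * (((∑ k : E14, if cl k.1 = c then B (cl (x₀ * k).1) else 0 : ℤ)) : ℂ) := by
  push_cast
  rw [Finset.mul_sum, ← Finset.sum_add_distrib]
  refine Finset.sum_congr rfl fun k _ => ?_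
  split_ifs
  · simp [chi]
  · simp

end Cfsg.Agent.Lib.Recog14
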