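import Mathlib
import Cfsg.Agent.Lib.Recog14.Sit2

/-!
# The six induced generalized characters and the hypotheses of the coherence tree
-/

set_option autoImplicit false
set_option maxRecDepth 100000

namespace Cfsg.Agent.Lib.Recog14

open Cfsg Cfsg.Agent.Lib.Char.Induced Cfsg.Agent.Lib.Char.Virtual Cfsg.Agent.Lib.Recog13

universe u

variable {G : Type u} [Group G] [Fintype G] {H J : Subgroup G} {e : H ≃* E14}

/-- The induced rows. -/
noncomputable def XX (e : H ≃* E14) (i : Fin 6) : G → ℂ := indFun H (fun h => chi (rA i) (rB i) (e h))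

theorem XX_gen (e : H ≃* E14) (i : Fin 6) : IsGeneralizedCharacter G (XX e i) := by
  classical
  haveI : Fintype H := Fintype.ofFinite _
  exact Cfsg.Agent.Lib.Blocks.BSInd.isGeneralized_indFun H (isGeneralized_comp_hom (isGen_row i) e.toMonoidHom)

theorem Sit14.hA (S : Sit14 e J) (k : E14) (hk : 5 ≤ (cl k.1).val) (x : G) (hx : x * (e.symm k : G) * x⁻¹ ∈ H) :
    x ∈ H := S.conj_mem hk hx

theorem chi_van' (i : Fin 6) (k : E14) (hk : ¬ 5 ≤ (cl k.1).val) : chi (rA i) (rB i) k = 0 :=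
  chi_van i k (by omega)

theorem XX_inner (S : Sit14 e J) (i j : Fin 6) : classInner (XX e i) (XX e j) = (gram6 i j : ℂ) := by
  rw [XX, XX, ind_inner e (fun k => 5 ≤ (cl k.1).val) S.hA _ (chi_rows_class j) (chi_van' j), inner_row]

theorem XX_one (e : H ≃* E14) (i : Fin 6) : classInner (XX e i) 1 = (one6 i : ℂ) := by
  rw [XX, ind_inner_one e, inner_row_one]

theorem XX_val (S : Sit14 e J) (i : Fin 6) (k : E14) : XX e i (iota e k) = chi (rA i) (rB i) k :=
  ind_val e (fun k => 5 ≤ (cl k.1).val) S.hA (chi_rows_class i) (chi_van' i) k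

theorem XX_van (S : Sit14 e J) (i : Fin 6) (k : E14) (hk : (cl k.1).val < 5) : XX e i (iota e k) = 0 := by
  rw [XX_val S, chi_van i k hk]

/-- The index. -/
noncomputable def LL (G : Type u) [Group G] (H : Subgroup G) : ℂ := (Nat.card H : ℂ)⁻¹ * (Nat.card G : ℂ)

theorem LL_ne (H : Subgroup G) : LL G H ≠ 0 := by
  rw [LL]
  have h1 : (Nat.card H : ℂ) ≠ 0 := by exact_mod_cast Nat.card_pos.ne'
  have h2 : (Nat.card G : ℂ) ≠ 0 := by exact_mod_cast Nat.card_pos.ne'
  exact mul_ne_zero (inv_ne_zero h1) h2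

/-- The class sums in the model. -/
theorem XX_ssum_core (S : Sit14 e J) (i : Fin 6) {x₀ y₀ : E14} {c₁ c₂ : Fin 14} (hx : iota e x₀ * iota e x₀ = 1)
    (hy : iota e y₀ * iota e y₀ = 1) (cx : ∀ k : E14, IsConj (iota e x₀) (iota e k) ↔ cl k.1 = c₁)
    (cy : ∀ k : E14, IsConj (iota e y₀) (iota e k) ↔ cl k.1 = c₂)
    (h₁ : ∀ k : E14, cl k.1 = c₁ → ∃ u : E14, u * x₀ * u⁻¹ = k)
    (h₂ : ∀ u k : E14, cl (u * k * u⁻¹).1 = c₂ ↔ cl k.1 = c₂) :
    ssum (XX e i) (iota e x₀) (iota e y₀) = LL G H * ((szC c₁ : ℂ) *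
      ((((∑ k : E14, if cl k.1 = c₂ then rA i (cl (x₀ * k).1) else 0 : ℤ)) : ℂ) +
        sq3 * (((∑ k : E14, if cl k.1 = c₂ then rB i (cl (x₀ * k).1) else 0 : ℤ)) : ℂ))) := by
  classical
  rw [XX, S.ssum_ind (chi_van i) hx hy, ← m_sum, ← sum_class_red (chi_rows_class i) h₁ h₂, LL]
  congr 1
  refine Finset.sum_congr rfl fun k _ => Finset.sum_congr rfl fun k' _ => ?_
  exact if_congr (and_congr (cx k) (cy k')) rfl rfl

theorem h1_a0 (k : E14) (h : cl k.1 = 1) : ∃ u : E14, u * a0 * u⁻¹ = k := by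
  obtain ⟨u, hu, hu2⟩ := cl1_conj k.1 k.2 h
  exact ⟨⟨u, hu⟩, Subtype.ext hu2⟩

theorem h1_b0 (k : E14) (h : cl k.1 = 3) : ∃ u : E14, u * b0 * u⁻¹ = k := by
  obtain ⟨u, hu, hu2⟩ := cl3_conj k.1 k.2 h
  exact ⟨⟨u, hu⟩, Subtype.ext hu2⟩

theorem XX_aa (S : Sit14 e J) (i : Fin 6) : ssum (XX e i) (iota e a0) (iota e a0) = LL G H * (27 * (mvAA i : ℂ)) := by
  rw [XX_ssum_core S i iota_a0_sq iota_a0_sq S.conj_a S.conj_a h1_a0 cl1_inv]
  have h1 := (m_table i).1
  have h2 := (m_table i).2.1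
  rw [mAA] at h1 h2
  rw [h1, h2]
  have h3 : szC 1 = 27 := by decide
  rw [h3]
  push_cast
  ring

theorem XX_ab (S : Sit14 e J) (i : Fin 6) : ssum (XX e i) (iota e a0) (iota e b0) = LL G H * (27 * (mvAB i : ℂ)) := by
  rw [XX_ssum_core S i iota_a0_sq iota_b0_sq S.conj_a S.conj_b h1_a0 cl3_inv]
  have h1 := (m_table i).2.2.1
  have h2 := (m_table i).2.2.2.1
  rw [mAB] at h1 h2
  rw [h1, h2]
  have h3 : szC 1 = 27 := by decide
  rw [h3]
  push_cast
  ring

theorem XX_bb (S : Sit14 e J) (i : Fin 6) : ssum (XX e i) (iota e b0) (iota e b0) = LL G H * (54 * (mvBB i : ℂ)) := by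
  rw [XX_ssum_core S i iota_b0_sq iota_b0_sq S.conj_b S.conj_b h1_b0 cl3_inv]
  have h1 := (m_table i).2.2.2.2.1
  have h2 := (m_table i).2.2.2.2.2
  rw [mBB] at h1 h2
  rw [h1, h2]
  have h3 : szC 3 = 54 := by decide
  rw [h3]
  push_cast
  ring

theorem cl_one' : (cl (1 : E14).1).val < 5 := by decide +kernel

theorem XX_vals (S : Sit14 e J) (i : Fin 6) :
    XX e i 1 = 0 ∧ XX e i (iota e a0) = 0 ∧ XX e i (iota e b0) = 0 := by
  refine ⟨?_, XX_van S i a0 (by rw [cl_a0]; decide), XX_van S i b0 (by rw [cl_b0]; decide)⟩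
  have h := XX_van S i 1 cl_one'
  rwa [map_one] at h

theorem inner_cast {S : Sit14 e J} {i j : Fin 6} {n : ℂ} (h : ((gram6 i j : ℤ) : ℂ) = n) :
    classInner (XX e i) (XX e j) = n := by
  rw [XX_inner S, h]

theorem one_cast {i : Fin 6} {n : ℂ} (h : ((one6 i : ℤ) : ℂ) = n) : classInner (XX e i) 1 = n := by
  rw [XX_one, h]

/-- The hypotheses of the coherence tree. -/
theorem Sit14.treeHyp (S : Sit14 e J) : TreeHyp (iota e a0) (iota e b0) (XX e 0) (XX e 1) (XX e 2) (XX e 3) (XX e 4) (XX e 5)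
    (729 * LL G H / (csz (iota e a0) * csz (iota e a0))) (1458 * LL G H / (csz (iota e a0) * csz (iota e b0)))
    (2916 * LL G H / (csz (iota e b0) * csz (iota e b0))) := by
  have ca := csz_ne (iota e a0)
  have cb := csz_ne (iota e b0)
  have hL := LL_ne (G := G) H
  have aaV : ∀ i, ∀ n : ℤ, mvAA i = n → Ph (XX e i) (iota e a0) (iota e a0) =
      LL G H * (27 * (n : ℂ)) / (csz (iota e a0) * csz (iota e a0)) := by
    intro i n hn
    rw [Ph, XX_aa S, hn]
  have abV : ∀ i, ∀ n : ℤ, mvAB i = n → Ph (XX e i) (iota e a0) (iota e b0) =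
      LL G H * (27 * (n : ℂ)) / (csz (iota e a0) * csz (iota e b0)) := by
    intro i n hn
    rw [Ph, XX_ab S, hn]
  have bbV : ∀ i, ∀ n : ℤ, mvBB i = n → Ph (XX e i) (iota e b0) (iota e b0) =
      LL G H * (54 * (n : ℂ)) / (csz (iota e b0) * csz (iota e b0)) := by
    intro i n hn
    rw [Ph, XX_bb S, hn]
  refine
  { gW := XX_gen e 0, gM := XX_gen e 1, gB := XX_gen e 2, gC := XX_gen e 3, gA := XX_gen e 4, gF := XX_gen e 5
    iWW := inner_cast (S := S) (by simp [gram6])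
    iMW := inner_cast (S := S) (by simp [gram6])
    iMM := inner_cast (S := S) (by simp [gram6])
    iBW := inner_cast (S := S) (by simp [gram6])
    iBM := inner_cast (S := S) (by simp [gram6])
    iBB := inner_cast (S := S) (by simp [gram6])
    iCW := inner_cast (S := S) (by simp [gram6])
    iCM := inner_cast (S := S) (by simp [gram6])
    iCB := inner_cast (S := S) (by simp [gram6])
    iCC := inner_cast (S := S) (by simp [gram6])
    iAW := inner_cast (S := S) (by simp [gram6])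
    iAM := inner_cast (S := S) (by simp [gram6])
    iAB := inner_cast (S := S) (by simp [gram6])
    iAC := inner_cast (S := S) (by simp [gram6])
    iAA := inner_cast (S := S) (by simp [gram6])
    iFW := inner_cast (S := S) (by simp [gram6])
    iFM := inner_cast (S := S) (by simp [gram6])
    iFB := inner_cast (S := S) (by simp [gram6])
    iFC := inner_cast (S := S) (by simp [gram6])
    iFA := inner_cast (S := S) (by simp [gram6])
    iFF := inner_cast (S := S) (by simp [gram6])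
    oW := one_cast (by simp [one6])
    oM := one_cast (by simp [one6])
    oB := one_cast (by simp [one6])
    oC := one_cast (by simp [one6])
    oA := one_cast (by simp [one6])
    oF := one_cast (by simp [one6])
    vW := XX_vals S 0
    vM := XX_vals S 1
    vB := XX_vals S 2
    vC := XX_vals S 3
    vA := XX_vals S 4
    vF := XX_vals S 5
    fM := ?_
    fB := ?_
    fC := ?_
    fF := ?_
    hκa := div_ne_zero (mul_ne_zero (by norm_num) hL) (mul_ne_zero ca ca)
    hκab := div_ne_zero (mul_ne_zero (by norm_num) hL) (mul_ne_zero ca cb)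
    hκb := div_ne_zero (mul_ne_zero (by norm_num) hL) (mul_ne_zero cb cb)
    hκ := ?_ }
  · rw [aaV 1 72 (by decide), abV 1 0 (by decide), bbV 1 0 (by decide)]
    refine ⟨?_, ?_, ?_⟩ <;> (push_cast; ring)
  · rw [aaV 2 0 (by decide), abV 2 0 (by decide), bbV 2 36 (by decide)]
    refine ⟨?_, ?_, ?_⟩ <;> (push_cast; ring)
  · rw [aaV 3 72 (by decide), abV 3 72 (by decide), bbV 3 72 (by decide)]
    refine ⟨?_, ?_, ?_⟩ <;> (push_cast; ring)
  · rw [aaV 5 36 (by decide), abV 5 36 (by decide), bbV 5 54 (by decide)]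
    refine ⟨?_, ?_, ?_⟩ <;> (push_cast; ring)
  · field_simp
    ring

/-- The result of the tree. -/
theorem Sit14.exists_tau (S : Sit14 e J) : ∃ τ : G → ℂ, IsSignedIrr G τ ∧ τ 1 = 3 ∧ τ (iota e a0) ≠ 3 :=
  tree_main S.treeHyp

end Cfsg.Agent.Lib.Recog14
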