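import Mathlib
import Cfsg.Agent.Lib.Recog14.Sit3
import Cfsg.Agent.Lib.Recog14.End0
import Cfsg.Agent.Lib.Recog13.Final
import Cfsg.Agent.Lib.Char.Values
import Cfsg.Agent.Lib.Char.Ortho

/-!
# The end of the proof for the group of order 648
-/

set_option autoImplicit false
set_option maxRecDepth 100000

namespace Cfsg.Agent.Lib.Recog14

open Cfsg Cfsg.Agent.Lib.Char.Induced Cfsg.Agent.Lib.Char.Virtual Cfsg.Agent.Lib.Recog13 Cfsg.Agent.Lib.Char.Basic
open scoped ComplexConjugate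

universe u

theorem isIrr_of_signed_three {G : Type u} [Group G] [Fintype G] {θ : G → ℂ} (h : IsSignedIrr G θ) (h1 : θ 1 = 3) :
    IsIrrCharacter G θ := by
  rcases h with h | h
  · exact h
  · exfalso
    obtain ⟨n, hn, hn'⟩ := exists_degree_of_isIrr h
    rw [Pi.neg_apply, h1] at hn'
    have h2 : ((n : ℤ) : ℂ) = ((-3 : ℤ) : ℂ) := by
      push_cast
      linear_combination -hn'
    have h3 : (n : ℤ) = -3 := by exact_mod_cast h2
    omega

theorem exists_ker_char {G : Type u} [Group G] [Finite G] {χ : G → ℂ} (hχ : IsCharacter G χ) :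
    ∃ K : Subgroup G, K.Normal ∧ ∀ g, g ∈ K ↔ χ g = χ 1 := by
  obtain ⟨n, ρ, rfl⟩ := hχ
  refine ⟨MonoidHom.ker ρ, MonoidHom.normal_ker _, fun g => ?_⟩
  have h1 : ρ.character 1 = (Module.finrank ℂ (Fin n → ℂ) : ℂ) := by simp
  rw [MonoidHom.mem_ker, h1, Cfsg.Agent.Lib.Char.Values.character_eq_finrank_iff]
  rfl

/-- The sum over a cyclic subgroup of the values of a character. -/
theorem cyc_sum_nat {A : Type*} [Group A] [Fintype A] {χ : A → ℂ} (hχ : IsCharacter A χ) (g : A) :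
    ∃ m : ℕ, ∑ k ∈ Finset.range (orderOf g), χ (g ^ k) = (orderOf g : ℂ) * m := by
  classical
  have hg : IsOfFinOrder g := isOfFinOrder_of_finite g
  haveI : Fintype (Subgroup.zpowers g) := Fintype.ofFinite _
  have h1 := isCharacter_comp_hom hχ (Subgroup.zpowers g).subtype
  have h0 : IsCharacter (Subgroup.zpowers g) (1 : Subgroup.zpowers g → ℂ) := isCharacter_one
  obtain ⟨m, hm⟩ := Cfsg.Agent.Lib.Char.Ortho.exists_nat_classInner_of_isCharacter h1 h0
  refine ⟨m, ?_⟩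
  rw [← hm, classInner, Nat.card_zpowers]
  have hne : (orderOf g : ℂ) ≠ 0 := by
    exact_mod_cast (orderOf_pos g).ne'
  rw [← mul_assoc, mul_inv_cancel₀ hne, one_mul]
  simp only [Pi.one_apply, map_one, mul_one]
  rw [← Fin.sum_univ_eq_sum_range (fun k => χ (g ^ k))]
  exact Equiv.sum_comp (finEquivZPowers hg) (fun y : Subgroup.zpowers g => χ y.1)

/-- The values of a character of degree three at a real element of order three. -/
theorem val03 {A : Type*} [Group A] [Fintype A] {φ : A → ℂ} (hφ : IsCharacter A φ) (h1 : φ 1 = 3) {g : A}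
    (hg : g * g * g = 1) (hg1 : g ≠ 1) (hinv : φ g⁻¹ = φ g) : φ g = 0 ∨ φ g = 3 := by
  haveI : Fact (Nat.Prime 3) := ⟨by norm_num⟩
  have ho : orderOf g = 3 := orderOf_eq_prime (by rw [pow_three, ← mul_assoc, hg]) hg1
  have hg2 : g ^ 2 = g⁻¹ := by
    rw [eq_inv_iff_mul_eq_one, pow_two]
    exact hg
  obtain ⟨m, hm⟩ := cyc_sum_nat hφ g
  obtain ⟨m', hm'⟩ := cyc_sum_nat (isCharacter_mul hφ hφ) g
  rw [ho] at hm hm'
  simp only [Finset.sum_range_succ, Finset.sum_range_zero, zero_add, pow_zero, pow_one, Pi.mul_apply, hg2, hinv, h1] at hm hm'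
  push_cast at hm hm'
  set x := φ g with hx
  obtain ⟨c, hc⟩ : ∃ c : ℤ, c = (m : ℤ) - 1 := ⟨_, rfl⟩
  have h2 : 2 * x = 3 * (c : ℂ) := by
    rw [hc]
    push_cast
    linear_combination hm
  have h3 : (6 : ℂ) + 3 * ((c : ℂ) * c) = 2 * (m' : ℂ) := by
    have h4 : 2 * ((2 * x) * (2 * x)) = 2 * ((3 * (c : ℂ)) * (3 * c)) := by rw [h2]
    linear_combination (1 / 6 : ℂ) * h4 * (-1) + (2 / 3 : ℂ) * hm'
  have h5 : (6 : ℤ) + 3 * (c * c) = 2 * (m' : ℤ) := by exact_mod_cast h3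
  obtain ⟨t, ht⟩ := Int.even_or_odd' c
  rcases ht with ht | ht
  · subst ht
    have h6 : x = 3 * (t : ℂ) := by
      push_cast at h2
      linear_combination (1 / 2 : ℂ) * h2
    have h7 : ‖x‖ ≤ ‖φ 1‖ := Cfsg.Agent.Lib.Char.Values.IsCharacter.norm_le hφ g
    rw [h1, h6, norm_mul] at h7
    have h8 : ‖(3 : ℂ)‖ = 3 := by simp
    rw [h8, Complex.norm_intCast] at h7
    have h9 : |(t : ℝ)| ≤ 1 := by linarith
    have h10 : |t| ≤ 1 := by exact_mod_cast h9
    have h11 : t ≤ 1 := (abs_le.mp h10).2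
    have h12 : 0 ≤ t := by omega
    have h13 : t = 0 ∨ t = 1 := by omega
    rcases h13 with rfl | rfl
    · left
      rw [h6]
      simp
    · right
      rw [h6]
      simp
  · exfalso
    subst ht
    have h6 : (2 * t + 1) * (2 * t + 1) = 4 * (t * t) + 4 * t + 1 := by ring
    rw [h6] at h5
    generalize t * t = s at h5
    omega

variable {G : Type u} [Group G] [Fintype G] {H J : Subgroup G} {e : H ≃* E14}

/-- The character of degree three contains `J` in its kernel. -/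
theorem three_core {φ : E14 → ℂ} (hφ : IsCharacter E14 φ) (h1 : φ 1 = 3) : φ ⟨j3, j3_facts.2.1⟩ = 3 := by
  classical
  have hcl : ∀ u k : E14, φ (u * k * u⁻¹) = φ k := fun u k =>
    Cfsg.Agent.Lib.Blocks.BSInd.IsGeneralized_isClassFunction (isGeneralized_char hφ) k u
  have hval : ∀ j : E14, inJ j.1 = true → j ≠ 1 → φ j = 0 ∨ φ j = 3 := by
    intro j hj hj1
    have h3 : j * j * j = 1 := Subtype.ext (inJ_cube j.1 hj)
    obtain ⟨u, hu, hu2⟩ := inv_conj_table j.1 hj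
    have h4 : (⟨u, hu⟩ : E14) * j * (⟨u, hu⟩ : E14)⁻¹ = j⁻¹ := Subtype.ext hu2
    exact val03 hφ h1 h3 hj1 (by rw [← h4, hcl])
  obtain ⟨f1, f2, f3, f4, f5, f6, f7, f8, f9, f10⟩ := sep_facts
  obtain ⟨c1, c2, c3⟩ := cl_facts
  obtain ⟨g1', g2', g3', -, -⟩ := j3_facts
  set E1 : E14 := ⟨e1', inJ_even _ f1⟩ with hE1
  set J2 : E14 := ⟨j2', inJ_even _ f2⟩ with hJ2
  set J3 : E14 := ⟨j3, g2'⟩ with hJ3
  have hx1 : φ E1 = 0 ∨ φ E1 = 3 := hval E1 f1 (fun h => f3 (congrArg Subtype.val h))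
  have hx2 : φ J2 = 0 ∨ φ J2 = 3 := hval J2 f2 (fun h => f4 (congrArg Subtype.val h))
  have hx3 : φ J3 = 0 ∨ φ J3 = 3 := hval J3 g1' (fun h => g3' (congrArg Subtype.val h))
  -- the sum over `J`
  have hres := isCharacter_comp_hom hφ JJ.subtype
  obtain ⟨n, hn⟩ := Cfsg.Agent.Lib.Char.Ortho.exists_nat_classInner_of_isCharacter hres
    (isCharacter_one (G := JJ))
  let F : Fin 14 → ℂ := ![3, 0, 0, 0, 0, φ E1, 0, 0, 0, 0, 0, 0, φ J2, φ J3]
  have hF : ∀ k : E14, (if inJ k.1 = true then φ k else 0) = F (cl k.1) := by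
    intro k
    rcases cl_J_table k.1 k.2 with ⟨h2, h3⟩ | ⟨h2, h3⟩ | ⟨h2, h3⟩ | ⟨h2, h3⟩ | ⟨h2, h3, h4, h5, h6⟩
    · have h7 : k = 1 := Subtype.ext h2
      subst h7
      rw [if_pos (show inJ (1 : E14).1 = true from inJ_one), h3, h1]
      rfl
    · rw [if_pos h3, h2]
      obtain ⟨u, hu, hu2⟩ := cl5_conj k.1 k.2 h2
      have h4 : (⟨u, hu⟩ : E14) * E1 * (⟨u, hu⟩ : E14)⁻¹ = k := Subtype.ext hu2
      rw [← h4, hcl]
      rfl
    · rw [if_pos h3, h2]
      obtain ⟨u, hu, hu2⟩ := cl12_conj k.1 k.2 h2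
      have h4 : (⟨u, hu⟩ : E14) * J2 * (⟨u, hu⟩ : E14)⁻¹ = k := Subtype.ext hu2
      rw [← h4, hcl]
      rfl
    · rw [if_pos h3, h2]
      obtain ⟨u, hu, hu2⟩ := cl13_conj k.1 k.2 h2
      have h4 : (⟨u, hu⟩ : E14) * J3 * (⟨u, hu⟩ : E14)⁻¹ = k := Subtype.ext hu2
      rw [← h4, hcl]
      rfl
    · rw [if_neg (by simp [h2])]
      have key : ∀ c : Fin 14, c ≠ 0 → c ≠ 5 → c ≠ 12 → c ≠ 13 → F c = 0 := by
        intro c
        fin_cases c <;> intro a1 a2 a3 a4 <;> first | rfl | exact absurd rfl a1 | exact absurd rfl a2 | exact absurd rfl a3 | exact absurd rfl a4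
      rw [key _ h3 h4 h5 h6]
  have hsum : ∑ u : JJ, φ u = ∑ k : E14, F (cl k.1) := by
    simp only [← hF]
    exact Fintype.sum_of_injective (fun u : JJ => (u : E14)) Subtype.val_injective _ _
      (fun k hk => by
        rw [if_neg]
        intro h
        exact hk ⟨⟨k, h⟩, rfl⟩)
      (fun u => by rw [if_pos (show inJ u.1.1 = true from u.2)])
  rw [classInner, natCard_JJ] at hn
  simp only [Pi.one_apply, map_one, mul_one] at hn
  have hJs : ∑ u : JJ, φ u = 3 + 6 * φ E1 + 12 * φ J2 + 8 * φ J3 := by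
    rw [hsum, sum_cl]
    simp [Fin.sum_univ_succ, F, szC]
    ring
  have hn2 : 3 + 6 * φ E1 + 12 * φ J2 + 8 * φ J3 = 27 * (n : ℂ) := by
    rw [← hJs, ← hn]
    push_cast
    rw [mul_inv_cancel_left₀ (by norm_num)]
    rfl
  rcases hx3 with h3 | h3
  · exfalso
    rw [h3] at hn2
    rcases hx1 with h4 | h4 <;> rcases hx2 with h5 | h5 <;> rw [h4, h5] at hn2
    · have h6 : (3 + 6 * 0 + 12 * 0 + 8 * 0 : ℕ) = 27 * n := by exact_mod_cast hn2
      omega
    · have h6 : (3 + 6 * 0 + 12 * 3 + 8 * 0 : ℕ) = 27 * n := by exact_mod_cast hn2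
      omega
    · have h6 : (3 + 6 * 3 + 12 * 0 + 8 * 0 : ℕ) = 27 * n := by exact_mod_cast hn2
      omega
    · have h6 : (3 + 6 * 3 + 12 * 3 + 8 * 0 : ℕ) = 27 * n := by exact_mod_cast hn2
      omega
  · exact h3

/-- The theorem, with an isomorphism to the model. -/
theorem Sit14.eq_top (S : Sit14 e J) : H = ⊤ := by
  classical
  obtain ⟨τ, hτ, h3, hne⟩ := S.exists_tau
  have hirr := isIrr_of_signed_three hτ h3
  have hc : IsCharacter G τ := isCharacter_of_isIrrCharacter hirr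
  obtain ⟨K, hKn, hK⟩ := exists_ker_char hc
  rw [h3] at hK
  have hφ : IsCharacter E14 (fun k => τ (iota e k)) := isCharacter_comp_hom hc (iota e)
  have hj3 : τ (iota e ⟨j3, j3_facts.2.1⟩) = 3 := three_core hφ (by simp [h3])
  have mj3 : iota e ⟨j3, j3_facts.2.1⟩ ∈ K := (hK _).mpr hj3
  -- the elements of the model with image in the kernel
  have Pconj : ∀ u k : E14, iota e k ∈ K → iota e (u * k * u⁻¹) ∈ K := by
    intro u k hk
    rw [map_mul, map_mul, map_inv]
    exact hKn.conj_mem _ hk _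
  have P13 : ∀ k : E14, cl k.1 = 13 → iota e k ∈ K := by
    intro k hk
    obtain ⟨u, hu, hu2⟩ := cl13_conj k.1 k.2 hk
    have h4 : (⟨u, hu⟩ : E14) * ⟨j3, j3_facts.2.1⟩ * (⟨u, hu⟩ : E14)⁻¹ = k := Subtype.ext hu2
    rw [← h4]
    exact Pconj _ _ mj3
  have hJK : J ≤ K := by
    intro y hy
    obtain ⟨k, rfl⟩ := exists_iota e (S.hJH hy)
    have hk := (S.memJ k).mp hy
    obtain ⟨j', h4, h5, h6⟩ := j3_prod k.1 hk
    have m1 : iota e ⟨j', inJ_even _ h4⟩ ∈ K := P13 _ h5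
    have m2 : iota e (k * ⟨j', inJ_even _ h4⟩) ∈ K := P13 _ h6
    have h7 : iota e k = iota e (k * ⟨j', inJ_even _ h4⟩) * (iota e ⟨j', inJ_even _ h4⟩)⁻¹ := by
      rw [map_mul]
      group
    rw [h7]
    exact K.mul_mem m2 (K.inv_mem m1)
  have hKH : ∀ k : E14, iota e k ∈ K → inJ k.1 = true := by
    intro k hk
    by_contra hn
    have hk' : inJ k.1 = false := by simpa using hn
    obtain ⟨x, y, h4, h5⟩ := comm_table k.1 k.2 hk'
    let X : E14 := ⟨gs x, gs_even x⟩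
    let Y : E14 := ⟨gs y, gs_even y⟩
    have Pcm : ∀ a b : E14, iota e a ∈ K → iota e (a * b * a⁻¹ * b⁻¹) ∈ K := by
      intro a b ha
      have h6 : a * b * a⁻¹ * b⁻¹ = a * (b * a⁻¹ * b⁻¹) := by group
      rw [h6, map_mul]
      exact K.mul_mem ha (Pconj b a⁻¹ (by rw [map_inv]; exact K.inv_mem ha))
    have m1 := Pcm (k * X * k⁻¹ * X⁻¹) Y (Pcm k X hk)
    set T : E14 := (k * X * k⁻¹ * X⁻¹) * Y * (k * X * k⁻¹ * X⁻¹)⁻¹ * Y⁻¹ with hT
    have hT1 : T.1 = cmW (cmW k.1 (gs x)) (gs y) := rfl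
    rw [← hT1] at h4 h5
    obtain ⟨j, h6, h7⟩ := v4_table T.1 T.2 h4 h5
    let Jj : E14 := ⟨j, inJ_even _ h6⟩
    have m2 : iota e Jj ∈ K := hJK ((S.memJ Jj).mpr h6)
    have m3 : iota e (T * Jj) ∈ K := by
      rw [map_mul]
      exact K.mul_mem m1 m2
    obtain ⟨u, hu, hu2⟩ := cl1_conj (T * Jj).1 (T * Jj).2 h7
    have h8 : (⟨u, hu⟩ : E14) * a0 * (⟨u, hu⟩ : E14)⁻¹ = T * Jj := Subtype.ext hu2
    have m4 : iota e a0 ∈ K := by
      have h9 := Pconj (⟨u, hu⟩ : E14)⁻¹ (T * Jj) m3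
      rw [← h8] at h9
      have h10 : (⟨u, hu⟩ : E14)⁻¹ * ((⟨u, hu⟩ : E14) * a0 * (⟨u, hu⟩ : E14)⁻¹) * (⟨u, hu⟩ : E14)⁻¹⁻¹ = a0 := by group
      rwa [h10] at h9
    exact hne ((hK _).mp m4)
  have hKJ : ∀ x ∈ K, x ∈ H → x ∈ J := by
    intro x hx hxH
    obtain ⟨k, rfl⟩ := exists_iota e hxH
    exact (S.memJ k).mpr (hKH k hx)
  -- the order of `J`
  have hJcard : Nat.card J = 27 := by
    rw [← natCard_JJ]
    refine Nat.card_congr ⟨fun y => ⟨e ⟨y.1, S.hJH y.2⟩, ?_⟩, fun k => ⟨iota e k.1, (S.memJ _).mpr k.2⟩, ?_, ?_⟩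
    · show inJ (e ⟨y.1, S.hJH y.2⟩).1 = true
      apply (S.memJ _).mp
      simpa [iota_apply] using y.2
    · intro y
      apply Subtype.ext
      simp [iota_apply]
    · intro k
      apply Subtype.ext
      simp [iota_apply]
  -- the final step in the kernel
  have hfin : J.subgroupOf K = ⊤ := by
    obtain ⟨f1, f2, f3, f4, f5, f6⟩ := final_facts
    let A : E14 := ⟨g1, inJ_even _ f1⟩
    let B : E14 := ⟨gB, inJ_even _ f2⟩
    have ma : iota e A ∈ J := (S.memJ _).mpr f1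
    have mb : iota e B ∈ J := (S.memJ _).mpr f2
    have ne : ∀ k : E14, k.1 ≠ 1 → iota e k ≠ 1 := by
      intro k hk h
      apply hk
      have h2 : k = 1 := iota_inj e (by rw [h, map_one])
      rw [h2]
      rfl
    have cube : ∀ k : E14, inJ k.1 = true → iota e k ^ 3 = 1 := by
      intro k hk
      have h2 : k * k * k = 1 := Subtype.ext (inJ_cube k.1 hk)
      rw [pow_three, ← mul_assoc, ← map_mul, ← map_mul, h2, map_one]
    refine final_abs (a := ⟨iota e A, hJK ma⟩) (b := ⟨iota e B, hJK mb⟩) (J.subgroupOf K) ?_ ?_ ?_ ?_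
      ma mb ?_ ?_ ?_ ?_ ?_ ?_
    · rw [Nat.card_congr (Subgroup.subgroupOfEquivOfLe hJK).toEquiv, hJcard]
    · intro x hx y hy
      exact Subtype.ext (S.comm hx hy)
    · intro x hx
      have hxH : x.1 ∈ H := by
        apply S.norm_le
        rw [Subgroup.mem_normalizer_iff]
        intro y
        rw [Subgroup.mem_normalizer_iff] at hx
        constructor
        · intro hy
          have h1 := (hx ⟨y, hJK hy⟩).mp hy
          exact h1
        · intro hy
          have h6 : y ∈ K := by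
            have h7 : x.1⁻¹ * (x.1 * y * x.1⁻¹) * x.1 ∈ K :=
              K.mul_mem (K.mul_mem (K.inv_mem x.2) (hJK hy)) x.2
            have h8 : x.1⁻¹ * (x.1 * y * x.1⁻¹) * x.1 = y := by group
            rwa [h8] at h7
          exact (hx ⟨y, h6⟩).mpr hy
      exact hKJ x.1 x.2 hxH
    · intro t ht ht1 x hx
      have h1 : t.1 ≠ 1 := fun h => ht1 (Subtype.ext h)
      rw [Subgroup.mem_centralizer_singleton_iff] at hx
      have h2 : x.1 ∈ Subgroup.centralizer ({t.1} : Set G) := by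
        rw [Subgroup.mem_centralizer_singleton_iff]
        exact congrArg Subtype.val hx
      exact hKJ x.1 x.2 (S.hC t.1 ht h1 h2)
    · apply Subtype.ext
      exact cube A f1
    · apply Subtype.ext
      exact cube B f2
    · intro h
      exact ne A f3 (congrArg Subtype.val h)
    · intro h
      exact ne B f4 (congrArg Subtype.val h)
    · intro h
      have h1 : iota e A * iota e B = 1 := congrArg Subtype.val h
      rw [← map_mul] at h1
      exact ne (A * B) f5 h1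
    · intro h
      have h1 : iota e A * iota e B * iota e B = 1 := congrArg Subtype.val h
      rw [← map_mul, ← map_mul] at h1
      exact ne (A * B * B) f6 h1
  have hKT : K ≤ J := by
    intro x hx
    have h1 : (⟨x, hx⟩ : K) ∈ J.subgroupOf K := by
      rw [hfin]
      trivial
    exact h1
  have hTn : J = K := le_antisymm hJK hKT
  have htop : ∀ g : G, g ∈ H := by
    intro g
    apply S.norm_le
    rw [Subgroup.mem_normalizer_iff]
    intro y
    show y ∈ J ↔ g * y * g⁻¹ ∈ J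
    rw [hTn]
    constructor
    · intro hy
      exact hKn.conj_mem y hy g
    · intro hy
      have h7 := hKn.conj_mem _ hy g⁻¹
      have h8 : g⁻¹ * (g * y * g⁻¹) * g⁻¹⁻¹ = y := by group
      rwa [h8] at h7
  exact eq_top_iff.mpr fun g _ => htop g

end Cfsg.Agent.Lib.Recog14
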